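import Mathlib
import Cfsg.Agent.Lib.Helper38.Sp4Stmt

/-!
# S5320, piece SNF (helper29): normal form of the elements of `S0 = ψ(Q × Q)⟨τ⟩`
-/

set_option autoImplicit false

namespace Cfsg.Agent.Lib.Helper29.Sp4SNF

open Cfsg.Agent.Lib.Helper38.Sp4Stmt

universe u v

section

variable {G : Type u} {L : Type v} [Group G] [Group L] {ψ : L × L →* G} {τ : G} {ε : L}

theorem psi_mul (ψ : L × L →* G) (a b c d : L) : ψ (a, b) * ψ (c, d) = ψ (a * c, b * d) := by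
  rw [← map_mul]; rfl

theorem psi_one (ψ : L × L →* G) : ψ ((1 : L), (1 : L)) = 1 := map_one ψ

theorem psi_inv (ψ : L × L →* G) (a b : L) : (ψ (a, b))⁻¹ = ψ (a⁻¹, b⁻¹) := by
  rw [← map_inv]; rfl

theorem tau_inv (h : Data ψ τ ε) : τ⁻¹ = τ := inv_eq_of_mul_eq_one_left h.tau_sq

theorem tau_psi (h : Data ψ τ ε) (a b : L) : τ * ψ (a, b) = ψ (b, a) * τ := by
  have h1 := h.tau_conj a b
  calc τ * ψ (a, b) = (τ * ψ (a, b) * τ⁻¹) * τ := by group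
    _ = ψ (b, a) * τ := by rw [h1]

/-- the normal form is closed under multiplication -/
theorem nf_mul (h : Data ψ τ ε) (Q : Subgroup L) {x y : G}
    (hx : ∃ a ∈ Q, ∃ b ∈ Q, x = ψ (a, b) ∨ x = ψ (a, b) * τ)
    (hy : ∃ a ∈ Q, ∃ b ∈ Q, y = ψ (a, b) ∨ y = ψ (a, b) * τ) :
    ∃ a ∈ Q, ∃ b ∈ Q, x * y = ψ (a, b) ∨ x * y = ψ (a, b) * τ := by
  obtain ⟨a, ha, b, hb, hx | hx⟩ := hx <;> obtain ⟨c, hc, d, hd, hy | hy⟩ := hy
  · exact ⟨a * c, mul_mem ha hc, b * d, mul_mem hb hd, Or.inl (by rw [hx, hy, psi_mul])⟩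
  · exact ⟨a * c, mul_mem ha hc, b * d, mul_mem hb hd,
      Or.inr (by rw [hx, hy, ← mul_assoc, psi_mul])⟩
  · refine ⟨a * d, mul_mem ha hd, b * c, mul_mem hb hc, Or.inr ?_⟩
    rw [hx, hy, mul_assoc, tau_psi h, ← mul_assoc, psi_mul]
  · refine ⟨a * d, mul_mem ha hd, b * c, mul_mem hb hc, Or.inl ?_⟩
    rw [hx, hy]
    calc ψ (a, b) * τ * (ψ (c, d) * τ) = ψ (a, b) * (τ * ψ (c, d)) * τ := by group
      _ = ψ (a, b) * (ψ (d, c) * τ) * τ := by rw [tau_psi h]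
      _ = ψ (a, b) * ψ (d, c) * (τ * τ) := by group
      _ = ψ (a * d, b * c) := by rw [h.tau_sq, mul_one, psi_mul]

/-- the normal form is closed under inversion -/
theorem nf_inv (h : Data ψ τ ε) (Q : Subgroup L) {x : G}
    (hx : ∃ a ∈ Q, ∃ b ∈ Q, x = ψ (a, b) ∨ x = ψ (a, b) * τ) :
    ∃ a ∈ Q, ∃ b ∈ Q, x⁻¹ = ψ (a, b) ∨ x⁻¹ = ψ (a, b) * τ := by
  obtain ⟨a, ha, b, hb, hx | hx⟩ := hx
  · exact ⟨a⁻¹, inv_mem ha, b⁻¹, inv_mem hb, Or.inl (by rw [hx, psi_inv])⟩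
  · refine ⟨b⁻¹, inv_mem hb, a⁻¹, inv_mem ha, Or.inr ?_⟩
    rw [hx, mul_inv_rev, tau_inv h, psi_inv, tau_psi h]

theorem snf (h : Data ψ τ ε) (Q : Subgroup L) (x : G) :
    x ∈ S0 ψ τ Q ↔ ∃ a ∈ Q, ∃ b ∈ Q, x = ψ (a, b) ∨ x = ψ (a, b) * τ := by
  constructor
  · intro hx
    unfold S0 at hx
    induction hx using Subgroup.closure_induction with
    | mem y hy =>
      rcases hy with rfl | ⟨a, ha, b, hb, rfl⟩
      · exact ⟨1, one_mem _, 1, one_mem _, Or.inr (by rw [psi_one, one_mul])⟩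
      · exact ⟨a, ha, b, hb, Or.inl rfl⟩
    | one => exact ⟨1, one_mem _, 1, one_mem _, Or.inl (psi_one ψ).symm⟩
    | mul y z _ _ hy hz => exact nf_mul h Q hy hz
    | inv y _ hy => exact nf_inv h Q hy
  · rintro ⟨a, ha, b, hb, rfl | rfl⟩
    · exact Subgroup.subset_closure (Or.inr ⟨a, ha, b, hb, rfl⟩)
    · exact Subgroup.mul_mem _ (Subgroup.subset_closure (Or.inr ⟨a, ha, b, hb, rfl⟩))
        (Subgroup.subset_closure (Or.inl rfl))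

end

/-- **[SNF]** -/
theorem main : Cfsg.Agent.Lib.Helper38.Sp4Stmt.SNF.{u, v} := by
  intro G L _ _ ψ τ ε Q h x
  exact snf h Q x

end Cfsg.Agent.Lib.Helper29.Sp4SNF
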