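import Mathlib
import Cfsg.Agent.Lib.Helper38.Sp4Stmt
import Cfsg.Agent.Lib.Helper29.Sp4SNF

/-!
# S5320, piece S2G (helper29): `S0` consists of `2`-elements
-/

set_option autoImplicit false

namespace Cfsg.Agent.Lib.Helper29.Sp4S2G

open Cfsg.Agent.Lib.Helper38.Sp4Stmt Cfsg.Agent.Lib.Helper29.Sp4SNF

universe u v

theorem psi_pow {G : Type u} {L : Type v} [Group G] [Group L] (ψ : L × L →* G) (a b : L)
    (n : ℕ) : (ψ (a, b)) ^ n = ψ (a ^ n, b ^ n) := by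
  rw [← map_pow]; rfl

theorem pow_two_pow_add {L : Type v} [Group L] {a : L} {k : ℕ} (h : a ^ (2 ^ k) = 1) (m : ℕ) :
    a ^ (2 ^ (k + m)) = 1 := by
  rw [pow_add, pow_mul, h, one_pow]

theorem pow_two_pow_add' {L : Type v} [Group L] {a : L} {k : ℕ} (h : a ^ (2 ^ k) = 1) (m : ℕ) :
    a ^ (2 ^ (m + k)) = 1 := by
  rw [add_comm]; exact pow_two_pow_add h m

/-- **[S2G]** -/
theorem main : Cfsg.Agent.Lib.Helper38.Sp4Stmt.S2G.{u, v} := by
  intro G L _ _ ψ τ ε Q h hQ x hx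
  obtain ⟨a, ha, b, hb, rfl | rfl⟩ := (snf h Q x).1 hx
  · obtain ⟨k1, h1⟩ := hQ.two a ha
    obtain ⟨k2, h2⟩ := hQ.two b hb
    refine ⟨k1 + k2, ?_⟩
    rw [psi_pow, pow_two_pow_add h1, pow_two_pow_add' h2]
    exact psi_one ψ
  · obtain ⟨k1, h1⟩ := hQ.two (a * b) (mul_mem ha hb)
    obtain ⟨k2, h2⟩ := hQ.two (b * a) (mul_mem hb ha)
    refine ⟨1 + (k1 + k2), ?_⟩
    have hsq : (ψ (a, b) * τ) ^ 2 = ψ (a * b, b * a) := by
      rw [pow_two]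
      calc ψ (a, b) * τ * (ψ (a, b) * τ) = ψ (a, b) * (τ * ψ (a, b)) * τ := by group
        _ = ψ (a, b) * (ψ (b, a) * τ) * τ := by rw [tau_psi h]
        _ = ψ (a, b) * ψ (b, a) * (τ * τ) := by group
        _ = ψ (a * b, b * a) := by rw [h.tau_sq, mul_one, psi_mul]
    rw [pow_add, pow_one, pow_mul, hsq, psi_pow, pow_two_pow_add h1, pow_two_pow_add' h2]
    exact psi_one ψ

end Cfsg.Agent.Lib.Helper29.Sp4S2G
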