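import Mathlib
import Cfsg.Agent.Lib.Helper30.CTIStmt
import Cfsg.Agent.S1224

set_option autoImplicit false
universe u

namespace Cfsg.Agent.Lib.Helper29.CTIDCARD

/-- `DCARD` of the S4064 plan: `|D_u| = #involutions of N(M)` and `u` inverts `D_u`. -/
theorem main : Cfsg.Agent.Lib.Helper30.CTIStmt.DCARD.{u} := by
  intro G _ _ M cc hse hev u hu huH hDM
  have hMH : M ≤ Cfsg.Agent.Lib.Helper30.CTIStmt.NM M := Subgroup.le_normalizer
  have hu2 : u * u = 1 := by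
    have := pow_orderOf_eq_one u
    rw [hu, pow_two] at this; exact this
  have hui : u⁻¹ = u := inv_eq_of_mul_eq_one_left hu2
  -- an involution of `M`
  have : Fact (Nat.Prime 2) := ⟨Nat.prime_two⟩
  obtain ⟨v0, hv0⟩ := exists_prime_orderOf_dvd_card' (G := M) 2 hev.two_dvd
  have hv2 : orderOf (v0 : G) = 2 := by
    rw [Subgroup.orderOf_coe]; exact hv0
  have hv1 : (v0 : G) ≠ 1 := by
    intro h
    rw [h, orderOf_one] at hv2
    omega
  have hvM : (v0 : G) ∈ M := v0.2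
  -- S1224
  have hne : ((1 : G) : G ⧸ Cfsg.Agent.Lib.Helper30.CTIStmt.NM M) ≠
      ((u : G) : G ⧸ Cfsg.Agent.Lib.Helper30.CTIStmt.NM M) := by
    intro h
    rw [QuotientGroup.eq] at h
    apply huH
    simpa using h
  have hA := Cfsg.Agent.S1224.result (Cfsg.Agent.Lib.Helper30.CTIStmt.NM M) hse _ _ hne
  -- the map `w ↦ u⁻¹ w`
  have hφ : ∀ w : {i : G // orderOf i = 2 ∧
        i • ((1 : G) : G ⧸ Cfsg.Agent.Lib.Helper30.CTIStmt.NM M) =
          ((u : G) : G ⧸ Cfsg.Agent.Lib.Helper30.CTIStmt.NM M)},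
      u⁻¹ * w.1 ∈ Cfsg.Agent.Lib.Helper30.CTIStmt.DU (Cfsg.Agent.Lib.Helper30.CTIStmt.NM M) u ∧
        u * (u⁻¹ * w.1) * u⁻¹ = (u⁻¹ * w.1)⁻¹ := by
    intro w
    have hw2 : w.1 * w.1 = 1 := by
      have := pow_orderOf_eq_one w.1
      rw [w.2.1, pow_two] at this; exact this
    have hwi : w.1⁻¹ = w.1 := inv_eq_of_mul_eq_one_left hw2
    have hmem : w.1⁻¹ * u ∈ Cfsg.Agent.Lib.Helper30.CTIStmt.NM M := by
      have := w.2.2
      rw [MulAction.Quotient.smul_mk, QuotientGroup.eq] at this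
      simpa using this
    refine ⟨⟨?_, ?_⟩, ?_⟩
    · have h1 : u⁻¹ * w.1 = (w.1⁻¹ * u)⁻¹ := by group
      rw [h1]; exact Subgroup.inv_mem _ hmem
    · show u⁻¹ * w.1 ∈ Subgroup.map (MulEquiv.toMonoidHom (MulAut.conj u))
        (Cfsg.Agent.Lib.Helper30.CTIStmt.NM M)
      rw [Subgroup.mem_map]
      refine ⟨w.1⁻¹ * u, hmem, ?_⟩
      show u * (w.1⁻¹ * u) * u⁻¹ = u⁻¹ * w.1
      calc u * (w.1⁻¹ * u) * u⁻¹ = u * w.1⁻¹ := by group
        _ = u⁻¹ * w.1 := by rw [hwi, hui]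
    · calc u * (u⁻¹ * w.1) * u⁻¹ = w.1 * u⁻¹ := by group
        _ = w.1⁻¹ * u := by rw [hwi, hui]
        _ = (u⁻¹ * w.1)⁻¹ := by group
  have c1 : Nat.card {i : G // orderOf i = 2 ∧
        i • ((1 : G) : G ⧸ Cfsg.Agent.Lib.Helper30.CTIStmt.NM M) =
          ((u : G) : G ⧸ Cfsg.Agent.Lib.Helper30.CTIStmt.NM M)} ≤
      Nat.card {d : ↥(Cfsg.Agent.Lib.Helper30.CTIStmt.DU (Cfsg.Agent.Lib.Helper30.CTIStmt.NM M) u) //
        u * (d : G) * u⁻¹ = (d : G)⁻¹} := by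
    apply Nat.card_le_card_of_injective (fun w => ⟨⟨u⁻¹ * w.1, (hφ w).1⟩, (hφ w).2⟩)
    intro w w' hww
    have h1 : u⁻¹ * w.1 = u⁻¹ * w'.1 := congrArg (fun x => (x.1.1 : G)) hww
    exact Subtype.ext (mul_left_cancel h1)
  have c2 : Nat.card {d : ↥(Cfsg.Agent.Lib.Helper30.CTIStmt.DU (Cfsg.Agent.Lib.Helper30.CTIStmt.NM M) u) //
        u * (d : G) * u⁻¹ = (d : G)⁻¹} ≤
      Nat.card ↥(Cfsg.Agent.Lib.Helper30.CTIStmt.DU (Cfsg.Agent.Lib.Helper30.CTIStmt.NM M) u) :=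
    Nat.card_le_card_of_injective Subtype.val Subtype.val_injective
  have c3 : Nat.card ↥(Cfsg.Agent.Lib.Helper30.CTIStmt.DU (Cfsg.Agent.Lib.Helper30.CTIStmt.NM M) u) ≤
      Nat.card {t : G // orderOf t = 2 ∧ t ∈ Cfsg.Agent.Lib.Helper30.CTIStmt.NM M} := by
    apply Nat.card_le_card_of_injective (fun d => ⟨(d : G) * (v0 : G) * (d : G)⁻¹, by
      refine ⟨?_, Subgroup.mul_mem _ (Subgroup.mul_mem _ d.2.1 (hMH hvM)) (Subgroup.inv_mem _ d.2.1)⟩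
      have := MulEquiv.orderOf_eq (MulAut.conj (d : G)) (v0 : G)
      rw [MulAut.conj_apply] at this
      rw [this]; exact hv2⟩)
    intro d d' hdd
    have h1 : (d : G) * (v0 : G) * (d : G)⁻¹ = (d' : G) * (v0 : G) * (d' : G)⁻¹ :=
      congrArg Subtype.val hdd
    have h2 : (d : G)⁻¹ * (d' : G) ∈ Subgroup.centralizer ({(v0 : G)} : Set G) := by
      rw [Subgroup.mem_centralizer_iff]
      intro g hg
      rw [Set.mem_singleton_iff] at hg
      subst hg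
      calc (v0 : G) * ((d : G)⁻¹ * (d' : G))
          = (d : G)⁻¹ * ((d : G) * (v0 : G) * (d : G)⁻¹) * (d' : G) := by group
        _ = (d : G)⁻¹ * ((d' : G) * (v0 : G) * (d' : G)⁻¹) * (d' : G) := by rw [h1]
        _ = (d : G)⁻¹ * (d' : G) * (v0 : G) := by group
    have h3 : (d : G)⁻¹ * (d' : G) ∈ M := cc (v0 : G) hvM hv1 h2
    have h4 : (d : G)⁻¹ * (d' : G) ∈
        Cfsg.Agent.Lib.Helper30.CTIStmt.DU (Cfsg.Agent.Lib.Helper30.CTIStmt.NM M) u ⊓ M :=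
      ⟨Subgroup.mul_mem _ (Subgroup.inv_mem _ d.2) d'.2, h3⟩
    rw [hDM, Subgroup.mem_bot] at h4
    exact Subtype.ext (inv_mul_eq_one.mp h4)
  have hcard : Nat.card ↥(Cfsg.Agent.Lib.Helper30.CTIStmt.DU (Cfsg.Agent.Lib.Helper30.CTIStmt.NM M) u) =
      Cfsg.Agent.Lib.Helper30.CTIStmt.nInv (Cfsg.Agent.Lib.Helper30.CTIStmt.NM M) := by
    apply le_antisymm c3
    rw [← hA]
    exact c1.trans c2
  refine ⟨hcard, ?_⟩
  intro d hd
  have hbij : Function.Bijective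
      (Subtype.val : {d : ↥(Cfsg.Agent.Lib.Helper30.CTIStmt.DU (Cfsg.Agent.Lib.Helper30.CTIStmt.NM M) u) //
        u * (d : G) * u⁻¹ = (d : G)⁻¹} → _) := by
    apply Function.Injective.bijective_of_nat_card_le Subtype.val_injective
    rw [hcard]
    show Nat.card {t : G // orderOf t = 2 ∧ t ∈ Cfsg.Agent.Lib.Helper30.CTIStmt.NM M} ≤ _
    rw [← hA]
    exact c1
  obtain ⟨⟨d', hd'⟩, hdd⟩ := hbij.2 ⟨d, hd⟩
  have : (d' : G) = d := congrArg Subtype.val hdd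
  rw [← this]; exact hd'

end Cfsg.Agent.Lib.Helper29.CTIDCARD
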