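import Mathlib
import Cfsg.Agent.Lib.Helper30.CTIStmt
import Cfsg.Agent.S1225

set_option autoImplicit false
universe u

namespace Cfsg.Agent.Lib.Helper29.CTINCARD

/-- `NCARD` of the S4064 plan: `|N(M)| = |M| * #involutions of N(M)`. -/
theorem main : Cfsg.Agent.Lib.Helper30.CTIStmt.NCARD.{u} := by
  intro G _ _ M cc hse hex invM cv hev
  obtain ⟨u, hu, huH⟩ := hex
  have hMH : M ≤ Cfsg.Agent.Lib.Helper30.CTIStmt.NM M := Subgroup.le_normalizer
  -- an involution of `M`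
  haveI : Fact (Nat.Prime 2) := ⟨Nat.prime_two⟩
  obtain ⟨v0, hv0⟩ := exists_prime_orderOf_dvd_card' (G := M) 2 hev.two_dvd
  have hv2 : orderOf (v0 : G) = 2 := by
    rw [Subgroup.orderOf_coe]; exact hv0
  have hv1 : (v0 : G) ≠ 1 := by
    intro h
    rw [h, orderOf_one] at hv2
    omega
  have hvM : (v0 : G) ∈ M := v0.2
  -- the action
  letI act : MulAction ↥(Cfsg.Agent.Lib.Helper30.CTIStmt.NM M)
      {t : G // orderOf t = 2 ∧ t ∈ Cfsg.Agent.Lib.Helper30.CTIStmt.NM M} :=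
    { smul := fun h t => ⟨(h : G) * t.1 * (h : G)⁻¹, by
        refine ⟨?_, Subgroup.mul_mem _ (Subgroup.mul_mem _ h.2 t.2.2) (Subgroup.inv_mem _ h.2)⟩
        have := MulEquiv.orderOf_eq (MulAut.conj (h : G)) t.1
        rw [MulAut.conj_apply] at this
        rw [this]; exact t.2.1⟩
      one_smul := fun t => Subtype.ext (by
        show ((1 : ↥(Cfsg.Agent.Lib.Helper30.CTIStmt.NM M)) : G) * t.1 *
          ((1 : ↥(Cfsg.Agent.Lib.Helper30.CTIStmt.NM M)) : G)⁻¹ = t.1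
        simp)
      mul_smul := fun a b t => Subtype.ext (by
        show ((a * b : ↥(Cfsg.Agent.Lib.Helper30.CTIStmt.NM M)) : G) * t.1 *
          ((a * b : ↥(Cfsg.Agent.Lib.Helper30.CTIStmt.NM M)) : G)⁻¹ =
          (a : G) * ((b : G) * t.1 * (b : G)⁻¹) * (a : G)⁻¹
        simp [mul_assoc]) }
  have hsmul : ∀ (h : ↥(Cfsg.Agent.Lib.Helper30.CTIStmt.NM M))
      (t : {t : G // orderOf t = 2 ∧ t ∈ Cfsg.Agent.Lib.Helper30.CTIStmt.NM M}),
      ((h • t : {t : G // orderOf t = 2 ∧ t ∈ Cfsg.Agent.Lib.Helper30.CTIStmt.NM M}) : G) =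
        (h : G) * t.1 * (h : G)⁻¹ := fun h t => rfl
  haveI htr : MulAction.IsPretransitive ↥(Cfsg.Agent.Lib.Helper30.CTIStmt.NM M)
      {t : G // orderOf t = 2 ∧ t ∈ Cfsg.Agent.Lib.Helper30.CTIStmt.NM M} := by
    refine ⟨fun s t => ?_⟩
    obtain ⟨d, hd, hdst⟩ := (Cfsg.Agent.S1225.result (Cfsg.Agent.Lib.Helper30.CTIStmt.NM M) hse u hu huH
      s.1 t.1 s.2.1 s.2.2 t.2.1 t.2.2).1
    refine ⟨⟨d, hd.1⟩, Subtype.ext ?_⟩
    rw [hsmul]; exact hdst
  have hstab : MulAction.stabilizer ↥(Cfsg.Agent.Lib.Helper30.CTIStmt.NM M)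
      (⟨(v0 : G), hv2, hMH hvM⟩ :
        {t : G // orderOf t = 2 ∧ t ∈ Cfsg.Agent.Lib.Helper30.CTIStmt.NM M}) =
      M.subgroupOf (Cfsg.Agent.Lib.Helper30.CTIStmt.NM M) := by
    ext h
    rw [MulAction.mem_stabilizer_iff, Subgroup.mem_subgroupOf]
    constructor
    · intro hh
      have h1 : (h : G) * (v0 : G) * (h : G)⁻¹ = (v0 : G) := by
        have := congrArg Subtype.val hh
        rw [hsmul] at this; exact this
      apply cc (v0 : G) hvM hv1
      rw [Subgroup.mem_centralizer_iff]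
      intro g hg
      rw [Set.mem_singleton_iff] at hg
      subst hg
      calc (v0 : G) * (h : G) = (h : G) * (v0 : G) * (h : G)⁻¹ * (h : G) := by rw [h1]
        _ = (h : G) * (v0 : G) := by group
    · intro hh
      apply Subtype.ext
      rw [hsmul]
      show (h : G) * (v0 : G) * (h : G)⁻¹ = (v0 : G)
      rw [← cv (v0 : G) hvM hv2 (h : G) hh]
      group
  have h1 := MulAction.index_stabilizer_of_transitive ↥(Cfsg.Agent.Lib.Helper30.CTIStmt.NM M)
      (⟨(v0 : G), hv2, hMH hvM⟩ :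
        {t : G // orderOf t = 2 ∧ t ∈ Cfsg.Agent.Lib.Helper30.CTIStmt.NM M})
  rw [hstab] at h1
  have h2 := Subgroup.card_mul_index (M.subgroupOf (Cfsg.Agent.Lib.Helper30.CTIStmt.NM M))
  have h3 : Nat.card (M.subgroupOf (Cfsg.Agent.Lib.Helper30.CTIStmt.NM M)) = Nat.card M :=
    Nat.card_congr (Subgroup.subgroupOfEquivOfLe hMH).toEquiv
  rw [h1, h3] at h2
  exact h2.symm

end Cfsg.Agent.Lib.Helper29.CTINCARD
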