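import Mathlib
import Cfsg.Agent.Lib.Helper30.CTIStmt

set_option autoImplicit false
universe u

namespace Cfsg.Agent.Lib.Helper29.CTIQN

/-- `QN` of the S4064 plan: a CTI-group has no generalized quaternion `Q₂ⁿ⁺²` with `n ≥ 2`
as a subgroup. -/
theorem main : Cfsg.Agent.Lib.Helper30.CTIStmt.QN.{u} := by
  intro hCENG hSUB hQBAD G _ _ hCTI E C Q _ _ n hn
  obtain ⟨e⟩ := hn
  apply hQBAD n
  have hQ : Cfsg.Agent.Lib.Helper30.CTIStmt.CTI ↥Q := hSUB G hCTI Q
  have hz : (2 ^ n : ZMod (2 * 2 ^ n)) + 2 ^ n = 0 := by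
    have := ZMod.natCast_self (2 * 2 ^ n)
    push_cast at this
    rw [← this]; ring
  have hcen : Subgroup.center ↥Q ≠ ⊥ := by
    intro hbot
    have hmem : e.symm (QuaternionGroup.a (2 ^ n : ZMod (2 * 2 ^ n))) ∈ Subgroup.center ↥Q := by
      rw [Subgroup.mem_center_iff]
      intro g
      apply e.injective
      rw [map_mul, map_mul, MulEquiv.apply_symm_apply]
      generalize e g = q
      cases q with
      | a j =>
        rw [QuaternionGroup.a_mul_a, QuaternionGroup.a_mul_a, add_comm]
      | xa j =>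
        rw [QuaternionGroup.xa_mul_a, QuaternionGroup.a_mul_xa]
        congr 1
        linear_combination hz
    rw [hbot, Subgroup.mem_bot] at hmem
    have h1 : QuaternionGroup.a (2 ^ n : ZMod (2 * 2 ^ n)) = 1 := by
      have := congrArg e hmem
      simpa using this
    rw [QuaternionGroup.one_def] at h1
    have h2 : (2 ^ n : ZMod (2 * 2 ^ n)) = 0 := by
      injection h1
    have h3 : ((2 ^ n : ℕ) : ZMod (2 * 2 ^ n)) = 0 := by
      push_cast; exact h2
    rw [ZMod.natCast_eq_zero_iff] at h3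
    have h4 := Nat.le_of_dvd (by positivity) h3
    have h5 : 0 < 2 ^ n := by positivity
    omega
  have h := hCENG ↥Q hQ hcen (e.symm (QuaternionGroup.xa 0)) (e.symm (QuaternionGroup.a 1))
  have h2 := h.map e
  simpa [map_mul, map_inv] using h2

end Cfsg.Agent.Lib.Helper29.CTIQN
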