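import Mathlib
import Cfsg.Agent.Lib.Helper30.CTIStmt
import Cfsg.Agent.S1476

set_option autoImplicit false
universe u

namespace Cfsg.Agent.Lib.Helper29.CTISOLV

/-- `SOLV` of the S4064 plan: the solvable case. -/
theorem main : Cfsg.Agent.Lib.Helper30.CTIStmt.SOLV.{u} := by
  intro hQN hQC0 hQC1 hNO3 G _ _ hCTI hCN hM hsolv
  have : Group.IsSolvable G := hsolv
  rcases Cfsg.Agent.S1476.result (G := G) hCN with hnil | ⟨K, E, _, _, hF, hE⟩ | ⟨p, hp, h3⟩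
  · exact Or.inl hnil
  · rcases hE with hcyc | ⟨C, Q, hCQ, hcomm, hCc, hCo, n, hn⟩
    · exact Or.inr (Or.inl ⟨E, hF, Or.inl hcyc⟩)
    · have hn1 : n ≤ 1 := hQN G hCTI E C Q hCQ hcomm n hn
      obtain rfl | rfl : n = 0 ∨ n = 1 := by omega
      · rw [pow_zero] at hn
        exact Or.inr (Or.inl ⟨E, hF, Or.inl (hQC0 G E C Q hCQ hcomm hCc hCo hn)⟩)
      · rw [pow_one] at hn
        exact Or.inr (Or.inl ⟨E, hF, Or.inr (hQC1 G E C Q hCQ hcomm hCc hCo hn)⟩)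
  · exact absurd h3 (hNO3 G hM p hp)

end Cfsg.Agent.Lib.Helper29.CTISOLV
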