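import Mathlib
import Cfsg.Agent.Lib.Helper32.D8Stmt

/-!
# S3716 / BBINV (call by helper32; second seat)

`bb` of a class function is symmetric and invariant under conjugation.
-/

set_option autoImplicit false

universe u

namespace Cfsg.Agent.Lib.Helper29.D8BBINV

open Cfsg Cfsg.Agent.Lib.Helper32.D8Stmt

theorem main : BBINV.{u} := by
  intro G _ _ Θ hΘ u v k
  have hcomm : ∀ a b : G, Θ (a * b) = Θ (b * a) := by
    intro a b
    rw [← hΘ (a * b) a⁻¹]
    congr 1
    group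
  refine ⟨?_, ?_, ?_⟩
  · unfold bb
    congr 1
    calc ∑ h : G, Θ (u * (h * v * h⁻¹)) = ∑ h : G, Θ (v * (h⁻¹ * u * h⁻¹⁻¹)) := by
          refine Finset.sum_congr rfl (fun h _ => ?_)
          rw [hcomm u, ← hΘ (h * v * h⁻¹ * u) h⁻¹]
          congr 1
          group
      _ = ∑ h : G, Θ (v * (h * u * h⁻¹)) :=
          Equiv.sum_comp (Equiv.inv G) (fun h => Θ (v * (h * u * h⁻¹)))
  · unfold bb
    congr 1
    calc ∑ h : G, Θ (k * u * k⁻¹ * (h * v * h⁻¹))
        = ∑ h : G, Θ (u * ((k⁻¹ * h) * v * (k⁻¹ * h)⁻¹)) := by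
          refine Finset.sum_congr rfl (fun h _ => ?_)
          rw [← hΘ (u * ((k⁻¹ * h) * v * (k⁻¹ * h)⁻¹)) k]
          congr 1
          group
      _ = ∑ h : G, Θ (u * (h * v * h⁻¹)) :=
          Equiv.sum_comp (Equiv.mulLeft k⁻¹) (fun h => Θ (u * (h * v * h⁻¹)))
  · unfold bb
    congr 1
    calc ∑ h : G, Θ (u * (h * (k * v * k⁻¹) * h⁻¹))
        = ∑ h : G, Θ (u * ((h * k) * v * (h * k)⁻¹)) := by
          refine Finset.sum_congr rfl (fun h _ => ?_)
          congr 2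
          group
      _ = ∑ h : G, Θ (u * (h * v * h⁻¹)) :=
          Equiv.sum_comp (Equiv.mulRight k) (fun h => Θ (u * (h * v * h⁻¹)))

end Cfsg.Agent.Lib.Helper29.D8BBINV
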