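import Cfsg.Agent.Lib.Helper29.OrdPerm

/-!
# Relator arguments modulo a normal subgroup of a Coxeter-presented group

Small tools to show that a normal subgroup contains all generators: an odd edge of the diagram
transports membership (`edge_mem`), an involution with an odd power in `N` lies in `N`
(`mem_of_odd_pow`), the image of a word under a homomorphism is the product of the images of its
letters (`hom_lw`), and a normal subgroup containing all generators is everything (`normal_eq_top`).
-/

namespace Cfsg.Agent.Lib.Helper29.OrdQuot

open Cfsg.Agent.Lib.Helper29 Cfsg.Agent.Lib.Helper29.TcCox Cfsg.Spor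

variable {α : Type} [DecidableEq α]
variable {edges : List (α × ℕ × α)} {extra : List (FreeGroup α)}

local notation "LW" => lw edges extra

theorem hom_lw {A : Type*} [Group A] (π : CoxPresented α edges extra →* A) (w : List (α × Bool)) :
    π (LW w) = (w.map (fun l => cond l.2 (π (LW [(l.1, true)])) (π (LW [(l.1, true)]))⁻¹)).prod := by
  induction w with
  | nil => rw [lw_nil, map_one]; rfl
  | cons l w ih =>
    rw [lw_cons, map_mul, ih, List.map_cons, List.prod_cons]
    congr 1
    obtain ⟨x, b⟩ := l
    cases b with
    | true => rfl
    | false =>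
      have := lw_inv_letter edges extra x true
      simp only [Bool.not_true] at this
      rw [this, map_inv]
      rfl

theorem mem_of_odd_pow (N : Subgroup (CoxPresented α edges extra)) (g : CoxPresented α edges extra)
    (hg : g * g = 1) (k : ℕ) (h : g ^ (2 * k + 1) ∈ N) : g ∈ N := by
  have e : g ^ (2 * k + 1) = g := by
    rw [pow_succ, pow_mul, pow_two, hg, one_pow, one_mul]
  rwa [e] at h

theorem pair_pow {x y : α} (hx : x ∈ coxNodes edges) (hy : y ∈ coxNodes edges) :
    (LW [(x, true)] * LW [(y, true)]) ^ coxLabel edges x y = 1 := by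
  have := pair_rel edges extra hx hy
  unfold coxWord at this
  rw [lw_replicate] at this
  exact this

/-- an odd edge transports membership in a normal subgroup -/
theorem edge_mem (N : Subgroup (CoxPresented α edges extra)) [N.Normal] {x y : α}
    (hx : x ∈ coxNodes edges) (hy : y ∈ coxNodes edges) (k : ℕ)
    (hlab : coxLabel edges x y = 2 * k + 1) (hX : LW [(x, true)] ∈ N) : LW [(y, true)] ∈ N := by
  apply mem_of_odd_pow N _ (node_sq edges extra hy) k
  have h1 := pair_pow (extra := extra) hx hy
  rw [hlab] at h1
  rw [← QuotientGroup.eq_one_iff] at hX ⊢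
  have h2 := congrArg (QuotientGroup.mk' N) h1
  rw [map_pow, map_mul, map_one] at h2
  change (((LW [(x, true)] : CoxPresented α edges extra) : CoxPresented α edges extra ⧸ N) *
    _) ^ (2 * k + 1) = 1 at h2
  rw [hX, one_mul] at h2
  rw [QuotientGroup.mk_pow]
  exact h2

theorem edge_mem' (N : Subgroup (CoxPresented α edges extra)) [N.Normal] {x y : α}
    (hx : x ∈ coxNodes edges) (hy : y ∈ coxNodes edges) (k : ℕ)
    (hlab : coxLabel edges x y = 2 * k + 1) (hY : LW [(y, true)] ∈ N) : LW [(x, true)] ∈ N :=
  edge_mem N hy hx k (by rw [coxLabel_symm, hlab]) hY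

/-- a subgroup containing all generators is everything -/
theorem eq_top_of_gens (N : Subgroup (CoxPresented α edges extra))
    (h : ∀ x : α, LW [(x, true)] ∈ N) : N = ⊤ := by
  rw [eq_top_iff, ← PresentedGroup.closure_range_of, Subgroup.closure_le]
  rintro _ ⟨x, rfl⟩
  exact h x

/-- perfectness from a commutator whose normal closure is everything -/
theorem commutator_eq_top_of {G : Type*} [Group G] (t x y : G) (ht : t = x * y * x⁻¹ * y⁻¹)
    (hgen : Subgroup.normalClosure {t} = ⊤) : commutator G = ⊤ := by
  rw [eq_top_iff, ← hgen]
  apply Subgroup.normalClosure_le_normal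
  intro z hz
  rw [Set.mem_singleton_iff] at hz
  rw [hz, ht, commutator_def]
  exact Subgroup.commutator_mem_commutator (Subgroup.mem_top x) (Subgroup.mem_top y)

end Cfsg.Agent.Lib.Helper29.OrdQuot
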