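import Cfsg.Agent.Lib.Helper29.OrdSub
import Cfsg.Agent.Lib.Helper29.OrdQuot
import Cfsg.Agent.Lib.Helper29.SuzA.Bsgs
import Cfsg.Agent.Lib.Helper29.SuzA.Iwa
import Cfsg.Agent.Lib.Helper29.SuzB.Ok
import Cfsg.Agent.Lib.Helper29.SuzC.Ok
import Cfsg.Agent.Lib.Helper29.SuzD.Ok
import Cfsg.Agent.Lib.Helper29.SuzE.Ok
import Cfsg.Agent.S1681

/-!
# The presented Suzuki group has order 448345497600 and is simple

* order at most `1782 * 416 * 280 * 216 * 10`: coset enumerations along the chain of sub-diagrams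
  `a…g ⊃ a…f ⊃ a…e ⊃ a…d ⊃ a,b ⊃ a`;
* order at least that: a stabiliser chain in the permutation representation on 1782 points;
* simplicity: Iwasawa's criterion for the action on the 22880 cosets of `⟨a,b,c,d,f,g⟩`, with the
  element `t = (bcdcd)^5` of order 3 generating a normal subgroup of the stabiliser.
-/

set_option autoImplicit false

namespace Cfsg.Agent.Lib.Helper29.SuzMain

open Cfsg.Agent.Lib.Helper29 Cfsg.Agent.Lib.Helper29.TcCox Cfsg.Agent.Lib.Helper29.OrdCox
  Cfsg.Agent.Lib.Helper29.OrdSub Cfsg.Agent.Lib.Helper29.OrdBasic Cfsg.Agent.Lib.Helper29.OrdPerm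
  Cfsg.Agent.Lib.Helper29.OrdQuot Cfsg.Spor

theorem cardE : Finite (CoxPresented Suz.Gen SuzE.edgesQ (SuzE.extraWords.map FreeGroup.mk)) ∧
    Nat.card (CoxPresented Suz.Gen SuzE.edgesQ (SuzE.extraWords.map FreeGroup.mk)) ≤ 5 * 2 :=
  card_le_base SuzE.ok .a (by decide) rfl

theorem cardD : Finite (CoxPresented Suz.Gen SuzD.edgesQ (SuzD.extraWords.map FreeGroup.mk)) ∧
    Nat.card (CoxPresented Suz.Gen SuzD.edgesQ (SuzD.extraWords.map FreeGroup.mk)) ≤ 216 * (5 * 2) :=
  card_le_chain SuzD.ok SuzE.edgesQ SuzE.extraWords (by decide) (by decide) (by decide) (by decide) _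
    cardE.1 cardE.2

theorem cardC : Finite (CoxPresented Suz.Gen SuzC.edgesQ (SuzC.extraWords.map FreeGroup.mk)) ∧
    Nat.card (CoxPresented Suz.Gen SuzC.edgesQ (SuzC.extraWords.map FreeGroup.mk)) ≤
      280 * (216 * (5 * 2)) :=
  card_le_chain SuzC.ok SuzD.edgesQ SuzD.extraWords (by decide) (by decide) (by decide) (by decide) _
    cardD.1 cardD.2

theorem cardB : Finite (CoxPresented Suz.Gen SuzB.edgesQ (SuzB.extraWords.map FreeGroup.mk)) ∧
    Nat.card (CoxPresented Suz.Gen SuzB.edgesQ (SuzB.extraWords.map FreeGroup.mk)) ≤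
      416 * (280 * (216 * (5 * 2))) :=
  card_le_chain SuzB.ok SuzC.edgesQ SuzC.extraWords (by decide) (by decide) (by decide) (by decide) _
    cardC.1 cardC.2

theorem cardA : Finite Suz ∧ Nat.card Suz ≤ 1782 * (416 * (280 * (216 * (5 * 2)))) :=
  card_le_chain SuzA.ok SuzB.edgesQ SuzB.extraWords (by decide) (by decide) (by decide) (by decide) _
    cardB.1 cardB.2

instance finSuz : Finite Suz := cardA.1

/-- the order, and faithfulness of the representation on 1782 points -/
theorem card_inj : Nat.card Suz = 448345497600 ∧ Function.Injective (phi SuzA.ok) :=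
  card_eq_and_injective (phi SuzA.ok) 448345497600 (cardA.2.trans (by norm_num)) SuzA.card_range_ge

local notation "E" => Suz.edges
local notation "X" => Suz.extra

/-- `⟨a,…,f⟩` is maximal -/
theorem maxA : IsCoatom (Hsub E X SuzA.hWords) :=
  isCoatom_of_ok SuzA.ok [20490] rfl (by decide +kernel) (by norm_num) (by decide +kernel)

/-- `⟨a,b,c,d,f,g⟩` is maximal -/
theorem maxI : IsCoatom (Hsub E X Cfsg.Agent.Lib.Helper29.S1681.hWords) :=
  isCoatom_of_ok Cfsg.Agent.S1681.ok [9253, 170848, 429400] rfl (by decide +kernel) (by norm_num)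
    (by decide +kernel)

theorem coreI : (Hsub E X Cfsg.Agent.Lib.Helper29.S1681.hWords).normalCore = ⊥ := by
  apply core_eq_bot_of_coatom (phi SuzA.ok) (Hsub E X SuzA.hWords) _ (cox_index_stab SuzA.ok).2 maxA
    (core_of_injective SuzA.ok card_inj.2)
  rw [(cox_index_stab SuzA.ok).1]
  have h := Subgroup.card_mul_index (Hsub E X Cfsg.Agent.Lib.Helper29.S1681.hWords)
  rw [(cox_index_stab Cfsg.Agent.S1681.ok).1, card_inj.1] at h
  have h2 : Nat.card (Hsub E X Cfsg.Agent.Lib.Helper29.S1681.hWords) = 19595520 :=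
    Nat.eq_of_mul_eq_mul_right (by norm_num : 0 < 22880)
      (h.trans (by norm_num : (448345497600 : ℕ) = 19595520 * 22880))
  rw [h2]
  norm_num

/-- the element `t = (bcdcd)^5` -/
noncomputable def t : Suz := lwT E X SuzA.tt

local notation "gA" => lw E X [(Suz.Gen.a, true)]
local notation "gB" => lw E X [(Suz.Gen.b, true)]
local notation "gC" => lw E X [(Suz.Gen.c, true)]
local notation "gD" => lw E X [(Suz.Gen.d, true)]
local notation "gE" => lw E X [(Suz.Gen.e, true)]
local notation "gF" => lw E X [(Suz.Gen.f, true)]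
local notation "gG" => lw E X [(Suz.Gen.g, true)]

theorem conj_t (x : Suz.Gen) (u : WT Suz.Gen)
    (h : lwT E X (.mul (.mul (.leaf x true) SuzA.tt) (.inv (.leaf x true))) = lwT E X u) :
    lw E X [(x, true)] * t * (lw E X [(x, true)])⁻¹ = lwT E X u := by
  rw [← h, lwT_mul, lwT_mul, lwT_inv, lwT_leaf]
  rfl

theorem hnorm : ∀ h ∈ Hsub E X Cfsg.Agent.Lib.Helper29.S1681.hWords, ∀ z ∈ Subgroup.zpowers t,
    h * z * h⁻¹ ∈ Subgroup.zpowers t := by
  apply conj_zpowers_of_gens {g | ∃ w ∈ Cfsg.Agent.Lib.Helper29.S1681.hWords, lw E X w = g} _ rfl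
  rintro _ ⟨w, hw, rfl⟩
  simp only [Cfsg.Agent.Lib.Helper29.S1681.hWords, List.mem_cons, List.not_mem_nil, or_false] at hw
  rcases hw with rfl | rfl | rfl | rfl | rfl | rfl
  · exact Or.inl (conj_t .a _ (SuzA.nrm_a card_inj.2))
  · exact Or.inl (conj_t .b _ (SuzA.nrm_b card_inj.2))
  · exact Or.inl (conj_t .c _ (SuzA.nrm_c card_inj.2))
  · right
    rw [conj_t .d _ (SuzA.nrm_d card_inj.2), lwT_inv]
    rfl
  · exact Or.inl (conj_t .f _ (SuzA.nrm_f card_inj.2))
  · exact Or.inl (conj_t .g _ (SuzA.nrm_g card_inj.2))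

theorem mem_nodes (x : Suz.Gen) : x ∈ coxNodes E := by cases x <;> decide

theorem hgen : Subgroup.normalClosure {t} = ⊤ := by
  set N := Subgroup.normalClosure ({t} : Set Suz) with hN
  have hNn : N.Normal := Subgroup.normalClosure_normal
  have ht : t ∈ N := Subgroup.subset_normalClosure (Set.mem_singleton t)
  have hπt : ((t : Suz) : Suz ⧸ N) = 1 := (QuotientGroup.eq_one_iff t).2 ht
  -- e from the relator ((bcdcd)^5 e)^3
  have hR5 : (t * gE) ^ 3 = 1 := by
    have h1 : lw E X (SuzA.tt.flat false ++ [(Suz.Gen.e, true)] ++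
        (SuzA.tt.flat false ++ [(Suz.Gen.e, true)]) ++
        (SuzA.tt.flat false ++ [(Suz.Gen.e, true)])) = 1 := by
      apply lw_of_mem_rels
      right
      change FreeGroup.mk _ ∈ X
      rw [SuzA.ok.hextra]
      apply List.mem_map_of_mem
      decide
    simp only [lw_append] at h1
    rw [pow_succ, pow_two]
    exact h1
  have hE : gE ∈ N := by
    apply mem_of_odd_pow N _ (node_sq E X (mem_nodes .e)) 1
    rw [← QuotientGroup.eq_one_iff, QuotientGroup.mk_pow]
    have h2 := congrArg (QuotientGroup.mk' N) hR5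
    rw [map_pow, map_mul, map_one] at h2
    change (((t : Suz) : Suz ⧸ N) * _) ^ 3 = 1 at h2
    rw [hπt, one_mul] at h2
    exact h2
  have hD : gD ∈ N := edge_mem' N (mem_nodes .d) (mem_nodes .e) 1 (by decide) hE
  -- a from the relator a = (cd)^4
  have hA : gA ∈ N := by
    have hR1 : lw E X [(Suz.Gen.a, true), (.d, false), (.c, false), (.d, false), (.c, false),
        (.d, false), (.c, false), (.d, false), (.c, false)] = 1 := by
      apply lw_of_mem_rels
      right
      change FreeGroup.mk _ ∈ X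
      rw [SuzA.ok.hextra]
      apply List.mem_map_of_mem
      decide
    have hπD : QuotientGroup.mk' N gD = 1 := (QuotientGroup.eq_one_iff _).2 hD
    have hC2 : QuotientGroup.mk' N gC * QuotientGroup.mk' N gC = 1 := by
      rw [← map_mul, node_sq E X (mem_nodes .c), map_one]
    have hCi : (QuotientGroup.mk' N gC)⁻¹ = QuotientGroup.mk' N gC := inv_eq_of_mul_eq_one_left hC2
    have h := congrArg (QuotientGroup.mk' N) hR1
    rw [hom_lw, map_one] at h
    simp only [List.map_cons, List.map_nil, List.prod_cons, List.prod_nil, cond_true, cond_false,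
      hπD, inv_one, one_mul, mul_one, hCi] at h
    rw [hC2, mul_one, hC2, mul_one] at h
    exact (QuotientGroup.eq_one_iff _).1 h
  have hB : gB ∈ N := edge_mem N (mem_nodes .a) (mem_nodes .b) 2 (by decide) hA
  have hC : gC ∈ N := edge_mem N (mem_nodes .b) (mem_nodes .c) 1 (by decide) hB
  have hF : gF ∈ N := edge_mem N (mem_nodes .b) (mem_nodes .f) 1 (by decide) hB
  have hG : gG ∈ N := edge_mem' N (mem_nodes .g) (mem_nodes .b) 1 (by decide) hB
  apply eq_top_of_gens
  intro x
  cases x <;> assumption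

theorem hperf : commutator Suz = ⊤ := by
  apply commutator_eq_top_of t gD t _ hgen
  have h := SuzA.comm_t card_inj.2
  rw [lwT_mul, lwT_mul, lwT_mul, lwT_inv, lwT_inv, lwT_leaf] at h
  exact h.symm

/-- **The presented Suzuki group is simple of order 448345497600.** -/
theorem suz_main : IsSimpleGroup Suz ∧ Nat.card Suz = 448345497600 := by
  refine ⟨?_, card_inj.1⟩
  have hnt : Nontrivial Suz := by
    rw [← Finite.one_lt_card_iff_nontrivial, card_inj.1]
    norm_num
  exact simple_of_iwasawa _ maxI coreI t hnorm hgen hperf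

end Cfsg.Agent.Lib.Helper29.SuzMain
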