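import Cfsg.Agent.Lib.Helper29.G24.Main
import Cfsg.Agent.Lib.Helper29.SuzMain
import Cfsg.Agent.S1059

/-!
# In the presented Suzuki group, `⟨a, …, f⟩` is isomorphic to `G₂(4)`

The sub-presentation `PB` on `a, …, f` has order at most `251596800` (coset enumerations of the
Suzuki chain), maps onto the subgroup `⟨a, …, f⟩` of the presented Suzuki group, of order
`448345497600 / 1782 = 251596800`, and onto the Chevalley group `chevG2.group F4`, of the same
order (`Cfsg.Agent.S1059.result`).  Both maps are therefore isomorphisms.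
-/

set_option autoImplicit false

namespace Cfsg.Agent.Lib.Helper29.G24Iso

open Cfsg.Agent.Lib.Helper29 Cfsg.Agent.Lib.Helper29.TcCox Cfsg.Agent.Lib.Helper29.OrdCox
  Cfsg.Agent.Lib.Helper29.OrdSub Cfsg.Agent.Lib.Helper29.OrdBasic
  Cfsg.Agent.Lib.Helper29.G24Defs Cfsg.Agent.Lib.Helper29.G24Main
  Cfsg.Agent.Lib.Helper86.Sp4F4 Cfsg.Lie Cfsg.Spor

local notation "PB" => CoxPresented Suz.Gen SuzB.edgesQ (SuzB.extraWords.map FreeGroup.mk)
local notation "E" => Suz.edges
local notation "X" => Suz.extra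

/-- a surjective homomorphism onto a group that is at least as large is an isomorphism -/
theorem equiv_of_surj {G G' : Type*} [Group G] [Group G'] [Finite G] (f : G →* G')
    (hs : Function.Surjective f) (hc : Nat.card G ≤ Nat.card G') : Nonempty (G ≃* G') := by
  have hc' : Nat.card G = Nat.card G' := le_antisymm hc (Nat.card_le_card_of_surjective f hs)
  have hb : Function.Bijective f := (Nat.bijective_iff_surjective_and_card f).2 ⟨hs, hc'⟩
  exact ⟨MulEquiv.ofBijective f hb⟩

instance finPB : Finite PB := SuzMain.cardB.1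

theorem cardPB : Nat.card PB ≤ 251596800 := SuzMain.cardB.2.trans (by norm_num)

theorem card_chev : Nat.card (chevG2.group F4) = 251596800 := by
  have h := Cfsg.Agent.S1059.result (F := F4) (q := 4) F4.card
  rw [h]
  norm_num

/-- the sub-presentation is isomorphic to the Chevalley group -/
theorem isoChev : Nonempty (PB ≃* chevG2.group F4) := by
  apply equiv_of_surj (psi.codRestrict (chevG2.group F4) (fun p => range_le ⟨p, rfl⟩))
  · rintro ⟨g, hg⟩
    obtain ⟨p, rfl⟩ := le_range hg
    exact ⟨p, rfl⟩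
  · rw [card_chev]
    exact cardPB

/-- the subgroup `⟨a, …, f⟩` of the presented Suzuki group -/
abbrev Hst : Subgroup Suz :=
  (Subgroup.closure ({Suz.a, Suz.b, Suz.c, Suz.d, Suz.e, Suz.f} : Set (FreeGroup Suz.Gen))).map
    (PresentedGroup.mk (coxRelators Suz.edges ∪ {r | r ∈ Suz.extra}))

theorem Hst_eq : Hst = Hsub E X SuzA.hWords := by
  have hS : ({Suz.a, Suz.b, Suz.c, Suz.d, Suz.e, Suz.f} : Set (FreeGroup Suz.Gen)) =
      {x | x ∈ SuzA.hWords.map FreeGroup.mk} := by
    ext x
    simp only [Set.mem_insert_iff, Set.mem_singleton_iff, SuzA.hWords, List.map_cons, List.map_nil,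
      List.mem_cons, List.not_mem_nil, or_false, Set.mem_ofPred_eq]
    exact Iff.rfl
  unfold Hst
  rw [hS]
  exact H_eq SuzA.ok

theorem card_Hst : Nat.card Hst = 251596800 := by
  have h := Subgroup.card_mul_index Hst
  have hi : Hst.index = 1782 := by rw [Hst_eq]; exact (cox_index_stab SuzA.ok).1
  rw [hi, SuzMain.card_inj.1] at h
  exact Nat.eq_of_mul_eq_mul_right (by norm_num : 0 < 1782) (h.trans (by norm_num))

/-- the natural map from the sub-presentation -/
noncomputable def iota : PB →* Suz :=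
  subHom Suz.edges SuzB.edgesQ Suz.extra SuzA.extraWords SuzB.extraWords SuzA.ok.hextra
    (by decide) (by decide) (by decide)

theorem iota_lw (w : List (Suz.Gen × Bool)) :
    iota (lw SuzB.edgesQ (SuzB.extraWords.map FreeGroup.mk) w) =
      lw E X (w.filter (inJ SuzB.edgesQ)) :=
  subHom_lw _ _ _ _ _ _ _ _ _ w

theorem iota_mem (p : PB) : iota p ∈ Hst := by
  have h : iota.range ≤ Hsub E X SuzA.hWords := by
    rw [MonoidHom.range_eq_map, ← PresentedGroup.closure_range_of, MonoidHom.map_closure,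
      Subgroup.closure_le]
    rintro _ ⟨_, ⟨x, rfl⟩, rfl⟩
    have e : iota (PresentedGroup.of x) = lw E X ([(x, true)].filter (inJ SuzB.edgesQ)) :=
      iota_lw [(x, true)]
    rw [SetLike.mem_coe, e]
    cases x
    · exact Subgroup.subset_closure ⟨[(.a, true)], by decide, rfl⟩
    · exact Subgroup.subset_closure ⟨[(.b, true)], by decide, rfl⟩
    · exact Subgroup.subset_closure ⟨[(.c, true)], by decide, rfl⟩
    · exact Subgroup.subset_closure ⟨[(.d, true)], by decide, rfl⟩
    · exact Subgroup.subset_closure ⟨[(.e, true)], by decide, rfl⟩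
    · exact Subgroup.subset_closure ⟨[(.f, true)], by decide, rfl⟩
    · rw [show ([(Suz.Gen.g, true)].filter (inJ SuzB.edgesQ)) = [] by decide, lw_nil]
      exact Subgroup.one_mem _
  rw [Hst_eq]
  exact h ⟨p, rfl⟩

theorem iota_surj : ∀ h ∈ Hst, ∃ p : PB, iota p = h := by
  intro h hh
  rw [Hst_eq] at hh
  have hle : Hsub E X SuzA.hWords ≤ iota.range := by
    refine (Subgroup.closure_le _).2 ?_
    rintro _ ⟨w, hw, rfl⟩
    refine ⟨lw SuzB.edgesQ (SuzB.extraWords.map FreeGroup.mk) w, ?_⟩
    rw [iota_lw]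
    have h4 : ∀ w ∈ SuzA.hWords, w.filter (inJ SuzB.edgesQ) = w := by decide
    rw [h4 w hw]
  exact hle hh

/-- the sub-presentation is isomorphic to the subgroup -/
theorem isoH : Nonempty (PB ≃* Hst) := by
  apply equiv_of_surj (iota.codRestrict Hst iota_mem)
  · rintro ⟨h, hh⟩
    obtain ⟨p, rfl⟩ := iota_surj h hh
    exact ⟨p, rfl⟩
  · rw [card_Hst]
    exact cardPB

/-- **`⟨a, …, f⟩ ≃* G₂(4)`** -/
theorem main : Nonempty (Hst ≃* chevG2.group F4) := by
  obtain ⟨e1⟩ := isoH
  obtain ⟨e2⟩ := isoChev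
  exact ⟨e1.symm.trans e2⟩

end Cfsg.Agent.Lib.Helper29.G24Iso
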