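import Mathlib
import Cfsg.Agent.Lib.Helper40.GFStmt

/-!
# S5886 piece ALG2 (helper29)

`[L : F] = 2`, `2 ≠ 0` or `|F| > 2`: for suitable `f`, `d` the map `nu b (f • e) d 1` is not a
multiplication.
-/

set_option autoImplicit false

universe u

namespace Cfsg.Agent.Lib.Helper29.GFALG2

open Cfsg.Agent.Lib.Helper40.GFStmt

theorem main : Alg2.{u} := by
  intro F L _ _ _ _ _ h2F e b he hb hbe
  -- `x₁` with `b x₁ = 1`
  obtain ⟨x₁, hx₁⟩ : ∃ x₁ : L, b x₁ = 1 := by
    obtain ⟨x, hx⟩ : ∃ x, b x ≠ 0 := by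
      by_contra hno
      push Not at hno
      exact hb (LinearMap.ext hno)
    exact ⟨(b x)⁻¹ • x, by rw [map_smul, smul_eq_mul, inv_mul_cancel₀ hx]⟩
  obtain ⟨d, hd⟩ : ∃ d : L, d = x₁ / e := ⟨_, rfl⟩
  have hde : d * e = x₁ := by rw [hd, div_mul_cancel₀ x₁ he]
  obtain ⟨γ, hγ⟩ : ∃ γ : F, γ = b (d * x₁) := ⟨_, rfl⟩
  -- the choice of `f`
  obtain ⟨f, hf0, hfγ⟩ : ∃ f : F, f ≠ 0 ∧ ((2 : F) = 0 → f ≠ γ) := by
    by_cases h2 : (2 : F) = 0
    · have hcard : 2 < Nat.card F := h2F.resolve_left (fun h => h h2)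
      by_contra hno
      push Not at hno
      have hall : ∀ f : F, f = 0 ∨ f = γ := by
        intro f
        by_cases hf : f = 0
        · exact Or.inl hf
        · exact Or.inr (hno f hf).2
      have : Nat.card F ≤ 2 := by
        rw [← Set.ncard_univ]
        calc (Set.univ : Set F).ncard ≤ ({0, γ} : Set F).ncard :=
              Set.ncard_le_ncard (fun f _ => by rcases hall f with h | h <;> simp [h])
                (Set.toFinite _)
          _ ≤ 2 := by
              refine (Set.ncard_insert_le _ _).trans ?_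
              rw [Set.ncard_singleton]
      omega
    · exact ⟨1, one_ne_zero, fun h => absurd h h2⟩
  refine ⟨f, d, fun c' hc => ?_⟩
  have e1 : f • x₁ + f • (f • e) = c' * (f • e) := by
    have h := LinearMap.congr_fun hc (f • e)
    rw [nu_apply, LinearMap.mulLeft_apply] at h
    have hb0 : b (1 * (f • e)) = 0 := by rw [one_mul, map_smul, hbe, smul_zero]
    rw [hb0, zero_smul, sub_zero, one_mul, mul_smul_comm, hde, map_smul, hx₁, smul_eq_mul,
      mul_one] at h
    exact h
  have e2 : d * x₁ - f • x₁ + (γ - f) • (f • e) = c' * x₁ := by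
    have h := LinearMap.congr_fun hc x₁
    rw [nu_apply, LinearMap.mulLeft_apply] at h
    rw [one_mul, hx₁, one_smul, mul_sub, mul_smul_comm, hde, map_sub, map_smul, hx₁, smul_eq_mul,
      mul_one, ← hγ] at h
    exact h
  rw [Algebra.smul_def, Algebra.smul_def, Algebra.smul_def] at e1
  rw [Algebra.smul_def, Algebra.smul_def, Algebra.smul_def, map_sub] at e2
  have hφf : algebraMap F L f ≠ 0 := by
    rw [Ne, map_eq_zero]; exact hf0
  have E : 2 * x₁ = (algebraMap F L γ - algebraMap F L f) * e := by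
    have hne : algebraMap F L f * algebraMap F L f * e ≠ 0 :=
      mul_ne_zero (mul_ne_zero hφf hφf) he
    apply mul_left_cancel₀ hne
    linear_combination x₁ * e1 - (algebraMap F L f * e) * e2 + (algebraMap F L f * x₁) * hde
  have E' : (2 : F) • x₁ = (γ - f) • e := by
    rw [Algebra.smul_def, Algebra.smul_def, map_sub, map_ofNat]
    exact E
  have h20 : (2 : F) = 0 := by
    have := congrArg b E'
    rw [map_smul, map_smul, hx₁, hbe, smul_eq_mul, smul_eq_mul, mul_one, mul_zero] at this
    exact this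
  have hfγ' := hfγ h20
  rw [h20, zero_smul] at E'
  rcases smul_eq_zero.mp E'.symm with h | h
  · exact hfγ' (sub_eq_zero.mp h).symm
  · exact he h

end Cfsg.Agent.Lib.Helper29.GFALG2
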