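import Mathlib
import Cfsg.Agent.Lib.Helper40.GFStmt

/-!
# S5886 piece FL2 (helper29)

`[L : F]` prime, `Z` a proper nonzero `F`-subspace, `dim I ≥ 2`: some `a` has `a I ∩ Z ≠ 0` and
`a I ⊄ Z`.
-/

set_option autoImplicit false

universe u

namespace Cfsg.Agent.Lib.Helper29.GFFL2

open Cfsg.Agent.Lib.Helper40.GFStmt

theorem main : FL2.{u} := by
  intro F L _ _ _ _ hp Z I hZbot hZtop hI
  by_contra hcon
  have H : ∀ a : L, (∃ i ∈ I, i ≠ 0 ∧ a * i ∈ Z) → ∀ i ∈ I, a * i ∈ Z := by
    intro a h1 i hi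
    by_contra h2
    exact hcon ⟨a, h1, i, hi, h2⟩
  -- a nonzero element of `I`
  obtain ⟨i₀, hi₀I, hi₀⟩ : ∃ i₀ ∈ I, i₀ ≠ 0 := by
    by_contra hno
    have : I = ⊥ := by
      rw [eq_bot_iff]
      intro i hi
      by_contra hne
      exact hno ⟨i, hi, fun h => hne ((Submodule.mem_bot F).mpr h)⟩
    rw [this, finrank_bot] at hI
    omega
  -- the stabiliser subalgebra
  let S : Subalgebra F L :=
    { carrier := {a | ∀ z ∈ Z, a * z ∈ Z}
      mul_mem' := by
        intro a b ha hb z hz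
        rw [mul_assoc]
        exact ha _ (hb z hz)
      one_mem' := by
        intro z hz
        rw [one_mul]; exact hz
      add_mem' := by
        intro a b ha hb z hz
        rw [add_mul]
        exact Z.add_mem (ha z hz) (hb z hz)
      zero_mem' := by
        intro z hz
        rw [zero_mul]; exact Z.zero_mem
      algebraMap_mem' := by
        intro r z hz
        rw [← Algebra.smul_def]
        exact Z.smul_mem r hz }
  have hS : ∀ a, a ∈ S ↔ ∀ z ∈ Z, a * z ∈ Z := fun a => Iff.rfl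
  have hquot : ∀ i ∈ I, i / i₀ ∈ S := by
    intro i hi
    rw [hS]
    intro z hz
    have h1 := H (z / i₀) ⟨i₀, hi₀I, hi₀, by rw [div_mul_cancel₀ z hi₀]; exact hz⟩ i hi
    have : i / i₀ * z = z / i₀ * i := by field_simp
    rw [this]
    exact h1
  have := Subalgebra.isSimpleOrder_of_finrank_prime F L hp
  rcases eq_bot_or_eq_top S with hbot | htop
  · -- `I ≤ F i₀`
    have hle : I ≤ Submodule.span F {i₀} := by
      intro i hi
      have h1 : i / i₀ ∈ (⊥ : Subalgebra F L) := hbot ▸ hquot i hi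
      obtain ⟨c, hc⟩ := Algebra.mem_bot.mp h1
      rw [Submodule.mem_span_singleton]
      refine ⟨c, ?_⟩
      rw [Algebra.smul_def, hc, div_mul_cancel₀ i hi₀]
    have h2 := Submodule.finrank_mono hle
    rw [finrank_span_singleton hi₀] at h2
    omega
  · -- `Z = ⊤`
    apply hZtop
    obtain ⟨z₀, hz₀Z, hz₀⟩ := (Submodule.ne_bot_iff Z).mp hZbot
    rw [eq_top_iff]
    intro y _
    have h1 : y / z₀ ∈ S := htop ▸ Algebra.mem_top
    have h2 := (hS _).mp h1 z₀ hz₀Z
    rwa [div_mul_cancel₀ y hz₀] at h2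

end Cfsg.Agent.Lib.Helper29.GFFL2
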