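import Mathlib
import Cfsg.Agent.Lib.Helper26.J3Stmt

/-!
# S3366 / KACT1 (call by helper26)

Each `k ∈ K` acts on the coordinates of `R` by an additive, determinant-preserving map.
-/

set_option autoImplicit false

universe u

namespace Cfsg.Agent.Lib.Helper29.J3KACT1

open Cfsg.Agent.Lib.Helper26.J3Stmt

theorem main : KACT1.{u} := by
  intro X _ hH hZ t K ι z hT hS hFr k hk
  obtain ⟨hcardZ, hZR, hcomm, hcen, hZc⟩ := hZ
  obtain ⟨htt, htR, htx, htr⟩ := hT
  obtain ⟨hKt, hKR, hKc⟩ := hS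
  obtain ⟨hιR, hιt, hzZ, hz1, hex, huniq, hlaw⟩ := hFr
  have : Finite X := hH.1
  have hzc : ∀ x : X, x * z = z * x := hZc z hzZ
  have hzpc : ∀ (n : ℕ) (x : X), x * z ^ n = z ^ n * x := by
    intro n x
    exact ((show Commute x z from hzc x).pow_right n).eq
  have hz3 : z ^ 3 = 1 := by
    have h : (⟨z, hzZ⟩ : Zc X) ^ 3 = 1 := by
      rw [← hcardZ]
      exact pow_card_eq_one'
    exact congrArg Subtype.val h
  have hkt : k * t = t * k := hKt k hk
  have hρ : ∀ u, ∃ u', k * ι u = ι u' * k := by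
    intro u
    have hmem : k * ι u * k⁻¹ ∈ R X := (inferInstance : (R X).Normal).conj_mem _ (hιR u) k
    obtain ⟨u', c, huc⟩ := hex _ hmem
    refine ⟨u', ?_⟩
    have hinv : t * (k * ι u * k⁻¹) * t⁻¹ = (k * ι u * k⁻¹)⁻¹ := by
      have h1 : t * k = k * t := hkt.symm
      have h2 : k⁻¹ * t⁻¹ = t⁻¹ * k⁻¹ := by
        rw [← mul_inv_rev, ← mul_inv_rev, h1]
      have h3 : t * (k * ι u * k⁻¹) * t⁻¹ = k * (t * ι u * t⁻¹) * k⁻¹ := by
        calc t * (k * ι u * k⁻¹) * t⁻¹ = (t * k) * ι u * (k⁻¹ * t⁻¹) := by group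
          _ = (k * t) * ι u * (t⁻¹ * k⁻¹) := by rw [h1, h2]
          _ = k * (t * ι u * t⁻¹) * k⁻¹ := by group
      rw [h3, hιt u]
      group
    rw [huc] at hinv
    have h3 : t * (ι u' * z ^ c.val) * t⁻¹ = (ι u')⁻¹ * z ^ c.val := by
      calc t * (ι u' * z ^ c.val) * t⁻¹ = t * ι u' * (z ^ c.val * t⁻¹) := by group
        _ = t * ι u' * (t⁻¹ * z ^ c.val) := by rw [hzpc c.val t⁻¹]
        _ = (t * ι u' * t⁻¹) * z ^ c.val := by group
        _ = (ι u')⁻¹ * z ^ c.val := by rw [hιt u']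
    rw [h3] at hinv
    have h4 : z ^ c.val * z ^ c.val = 1 := by
      have h5 : (ι u' * z ^ c.val)⁻¹ = (ι u')⁻¹ * (z ^ c.val)⁻¹ := by
        rw [hzpc c.val (ι u'), mul_inv_rev]
      rw [h5] at hinv
      have h6 : z ^ c.val = (z ^ c.val)⁻¹ := mul_left_cancel hinv
      calc z ^ c.val * z ^ c.val = z ^ c.val * (z ^ c.val)⁻¹ := congrArg (z ^ c.val * ·) h6
        _ = 1 := mul_inv_cancel _
    have hc0 : z ^ c.val = 1 := by
      have hlt : c.val < 3 := ZMod.val_lt c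
      obtain ⟨n, hn⟩ : ∃ n, n = c.val := ⟨_, rfl⟩
      rw [← hn] at h4 hlt ⊢
      interval_cases n
      · exact pow_zero z
      · exfalso
        apply hz1
        have h7 : z ^ 2 = 1 := by
          rw [pow_two]
          simpa using h4
        calc z = z ^ 3 * (z ^ 2)⁻¹ := by group
          _ = 1 := by rw [hz3, h7, inv_one, mul_one]
      · exfalso
        apply hz1
        have h7 : z ^ 4 = 1 := by
          rw [show 4 = 2 + 2 from rfl, pow_add]
          exact h4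
        calc z = z ^ 4 * (z ^ 3)⁻¹ := by group
          _ = 1 := by rw [hz3, h7, inv_one, mul_one]
    rw [hc0, mul_one] at huc
    rw [← huc]
    group
  choose ρ hρ using hρ
  have key : ∀ u v, ρ (u + v) = ρ u + ρ v ∧
      (u 0 * v 1 - u 1 * v 0 : ZMod 3) = ρ u 0 * ρ v 1 - ρ u 1 * ρ v 0 := by
    intro u v
    apply huniq
    have h1 : k * (ι u * ι v) = ι (ρ u) * ι (ρ v) * k := by
      rw [← mul_assoc, hρ u, mul_assoc, hρ v, mul_assoc]
    rw [hlaw u v, hlaw (ρ u) (ρ v)] at h1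
    have h2 : k * (ι (u + v) * z ^ (u 0 * v 1 - u 1 * v 0).val) =
        ι (ρ (u + v)) * z ^ (u 0 * v 1 - u 1 * v 0).val * k := by
      rw [← mul_assoc, hρ (u + v), mul_assoc, hzpc _ k, ← mul_assoc]
    rw [h2] at h1
    exact mul_right_cancel h1
  exact ⟨ρ, hρ, fun u v => (key u v).1, fun u v => (key u v).2.symm⟩

end Cfsg.Agent.Lib.Helper29.J3KACT1
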