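import Mathlib
import Cfsg.Agent.Lib.Helper75.NDStmt
import Cfsg.Agent.Lib.Helper16.Over
import Cfsg.Agent.Lib.Helper16.Cover
import Cfsg.Agent.Lib.Helper16.Cover3
import Cfsg.Agent.Lib.Helper77.BPTransport
import Cfsg.Agent.Lib.Helper78.CliffordCorr

/-!
# Piece NILA of S4890
-/

set_option autoImplicit false

namespace Cfsg.Agent.Lib.Helper29.NdNILA

open Cfsg Cfsg.Agent.Lib.Helper75.NDStmt
open Cfsg.Agent.Lib.Helper16.ZR Cfsg.Agent.Lib.Helper16.Normal Cfsg.Agent.Lib.Helper16.Cover3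
open Cfsg.Agent.Lib.Helper77.BPTransport Cfsg.Agent.Lib.CT.Clifford
open Cfsg.Agent.Lib.Helper77.LocalRing

universe u

/-- Two characters in the same block of `H`, lying over `ξ`, `ξ'` of the normal subgroup
`C ≤ H`: `ξ'` is `H`-conjugate into the block of `ξ`. -/
theorem key {G : Type u} [Group G] [Finite G] {M : Ideal AlgInt} (hMp : M.IsPrime)
    (H C : Subgroup G) (hC : C.Normal) (hle : C ≤ H) [Fintype ↥C]
    (f : Set (IrrCharacter ↥H)) (hf : IsPBlock M f)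
    (ζ ζ' : IrrCharacter ↥H) (hζ : ζ ∈ f) (hζ' : ζ' ∈ f)
    (ξ ξ' : IrrCharacter ↥C)
    (h1 : classInner (fun c : ↥C => (ζ : ↥H → ℂ) ⟨(c : G), hle c.2⟩) (ξ : ↥C → ℂ) ≠ 0)
    (h2 : classInner (fun c : ↥C => (ζ' : ↥H → ℂ) ⟨(c : G), hle c.2⟩) (ξ' : ↥C → ℂ) ≠ 0) :
    ∃ h ∈ H, cI C hC h ξ' ∈ blockOf M (ξ : ↥C → ℂ) := by
  classical
  letI : Fintype ↥H := Fintype.ofFinite _
  let N : Subgroup ↥H := C.subgroupOf H
  letI : Fintype ↥N := Fintype.ofFinite _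
  have hN : N.Normal := hC.subgroupOf H
  let φ : ↥N ≃* ↥C := Subgroup.subgroupOfEquivOfLe hle
  have hφ : ∀ n : ↥N, (⟨((φ n : ↥C) : G), hle (φ n).2⟩ : ↥H) = (n : ↥H) := fun n => rfl
  -- transport of the two constituents
  have e1 : classInner (fun n : ↥N => (ζ : ↥H → ℂ) n) (pull φ ξ : ↥N → ℂ) ≠ 0 := by
    have := Cfsg.Agent.Lib.Helper78.CliffordCorr.classInner_comp_mulEquiv φ
      (fun c : ↥C => (ζ : ↥H → ℂ) ⟨(c : G), hle c.2⟩) (ξ : ↥C → ℂ)
    rw [← this] at h1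
    exact h1
  have e2 : classInner (fun n : ↥N => (ζ' : ↥H → ℂ) n) (pull φ ξ' : ↥N → ℂ) ≠ 0 := by
    have := Cfsg.Agent.Lib.Helper78.CliffordCorr.classInner_comp_mulEquiv φ
      (fun c : ↥C => (ζ' : ↥H → ℂ) ⟨(c : G), hle c.2⟩) (ξ' : ↥C → ℂ)
    rw [← this] at h2
    exact h2
  -- covering
  obtain ⟨θ₁, ⟨g, hg⟩, hne⟩ := Cfsg.Agent.Lib.Helper16.Over.over_of_sameBlock hMp N hN
    (conjUnion N hN (blockOf M (pull φ ξ : ↥N → ℂ)))
    (gstable_conjUnion N hN _)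
    (fun n => blockCoeff_memLocalRing_of_closed hMp _
      (blockClosed_conjUnion hMp N hN _ (isPBlock_blockOf (pull φ ξ))) n) ζ ζ'
    (sameBlock_of_mem hMp hf hζ hζ')
    ⟨pull φ ξ, subset_conjUnion N hN _ (mem_blockOf_self hMp (pull φ ξ)), e1⟩
  -- Clifford
  obtain ⟨g', hg'⟩ := exists_conj_of_constituent N hN ζ'.2 θ₁.2 (pull φ ξ').2 hne e2
  have hg'' : pull φ ξ' = cI N hN g' θ₁ := Subtype.ext hg'
  have h3 : θ₁ = cI N hN g'⁻¹ (pull φ ξ') := by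
    rw [hg'', cI_cI, mul_inv_cancel, cI_one]
  rw [h3, cI_cI] at hg
  refine ⟨((g'⁻¹ * g : ↥H) : G), (g'⁻¹ * g).2, ?_⟩
  have h4 : cI N hN (g'⁻¹ * g) (pull φ ξ') = pull φ (cI C hC ((g'⁻¹ * g : ↥H) : G) ξ') := by
    apply Subtype.ext
    funext n
    rfl
  rw [h4] at hg
  exact (sameBlock_pull_iff φ _ _).mp hg

theorem main (hQLE : QLE.{u}) (hN1 : NILA1.{u}) : NILA.{u} := by
  intro G _ _ p _ M hM B D _ hD Q f hf x hx hst
  classical
  have hMp : M.IsPrime := isPrime_of_isPModular hM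
  have hQD : Q ≤ D := hQLE G p M hM B D hD Q f hf
  have hle : Subgroup.centralizer (D : Set G) ≤ Subgroup.centralizer (Q : Set G) :=
    Subgroup.centralizer_le hQD
  letI : Fintype ↥(Subgroup.centralizer (D : Set G)) := Fintype.ofFinite _
  letI : Fintype ↥(Subgroup.centralizer (Q : Set G)) := Fintype.ofFinite _
  have hC : (Subgroup.centralizer (D : Set G)).Normal := inferInstance
  have hfB : IsPBlock M f := hf.1.2
  have hDp : IsPGroup p D := by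
    obtain ⟨g, -, P, hP⟩ := hD
    rw [hP]
    exact P.isPGroup'.map _
  -- a member of `f`
  obtain ⟨ζ, hζ⟩ : ∃ ζ, ζ ∈ f := by
    obtain ⟨χ₀, rfl⟩ := hfB
    exact ⟨χ₀, mem_blockOf_self hMp χ₀⟩
  -- a constituent on `C_G(D)`
  obtain ⟨ξ, hξ⟩ : ∃ ξ : IrrCharacter ↥(Subgroup.centralizer (D : Set G)),
      classInner (fun c : ↥(Subgroup.centralizer (D : Set G)) =>
        (ζ : ↥(Subgroup.centralizer (Q : Set G)) → ℂ) ⟨(c : G), hle c.2⟩)
        (ξ : ↥(Subgroup.centralizer (D : Set G)) → ℂ) ≠ 0 := by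
    let N : Subgroup ↥(Subgroup.centralizer (Q : Set G)) :=
      (Subgroup.centralizer (D : Set G)).subgroupOf (Subgroup.centralizer (Q : Set G))
    letI : Fintype ↥N := Fintype.ofFinite _
    let φ : ↥N ≃* ↥(Subgroup.centralizer (D : Set G)) := Subgroup.subgroupOfEquivOfLe hle
    obtain ⟨θ, hθ⟩ := Cfsg.Agent.Lib.Helper16.Cover.exists_constituent N ζ
    refine ⟨pull φ.symm θ, ?_⟩
    have := Cfsg.Agent.Lib.Helper78.CliffordCorr.classInner_comp_mulEquiv φ.symm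
      (fun n : ↥N => (ζ : ↥(Subgroup.centralizer (Q : Set G)) → ℂ) n) (θ : ↥N → ℂ)
    rw [← this] at hθ
    exact hθ
  have hpair : IsBrauerPairOf p M B D
      (blockOf M (ξ : ↥(Subgroup.centralizer (D : Set G)) → ℂ)) :=
    hN1 G p M hM B D hDp Q f hf hle ζ hζ ξ hξ
  refine ⟨_, hpair, ?_⟩
  -- the conjugate of `ζ`
  obtain ⟨ζ', hζ', hconj⟩ := hst.2 ζ hζ
  have hξ' : classInner (fun c : ↥(Subgroup.centralizer (D : Set G)) =>
        (ζ' : ↥(Subgroup.centralizer (Q : Set G)) → ℂ) ⟨(c : G), hle c.2⟩)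
        (cI _ hC x⁻¹ ξ : ↥(Subgroup.centralizer (D : Set G)) → ℂ) ≠ 0 := by
    have := Cfsg.Agent.Lib.Helper78.CliffordCorr.classInner_comp_mulEquiv
      (MulAut.conjNormal x⁻¹ : ↥(Subgroup.centralizer (D : Set G)) ≃*
        ↥(Subgroup.centralizer (D : Set G)))
      (fun c : ↥(Subgroup.centralizer (D : Set G)) =>
        (ζ : ↥(Subgroup.centralizer (Q : Set G)) → ℂ) ⟨(c : G), hle c.2⟩)
      (ξ : ↥(Subgroup.centralizer (D : Set G)) → ℂ)
    rw [← this] at hξ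
    have e1 : (fun c : ↥(Subgroup.centralizer (D : Set G)) =>
        (ζ' : ↥(Subgroup.centralizer (Q : Set G)) → ℂ) ⟨(c : G), hle c.2⟩) =
        (fun k : ↥(Subgroup.centralizer (D : Set G)) =>
          (ζ : ↥(Subgroup.centralizer (Q : Set G)) → ℂ)
            ⟨(((MulAut.conjNormal x⁻¹ : ↥(Subgroup.centralizer (D : Set G)) ≃*
              ↥(Subgroup.centralizer (D : Set G))) k :
                ↥(Subgroup.centralizer (D : Set G))) : G), hle (Subtype.property _)⟩) := by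
      funext c
      apply hconj
      show (c : G) = x * (x⁻¹ * (c : G) * x⁻¹⁻¹) * x⁻¹
      group
    have e2 : (cI _ hC x⁻¹ ξ : ↥(Subgroup.centralizer (D : Set G)) → ℂ) =
        (fun k : ↥(Subgroup.centralizer (D : Set G)) =>
          (ξ : ↥(Subgroup.centralizer (D : Set G)) → ℂ)
            ((MulAut.conjNormal x⁻¹ : ↥(Subgroup.centralizer (D : Set G)) ≃*
              ↥(Subgroup.centralizer (D : Set G))) k)) := by
      funext c
      rfl
    rw [e1, e2]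
    exact hξ
  obtain ⟨h, hh, hmem⟩ := key hMp (Subgroup.centralizer (Q : Set G))
    (Subgroup.centralizer (D : Set G)) hC hle f hfB ζ ζ' hζ hζ' ξ (cI _ hC x⁻¹ ξ) hξ hξ'
  rw [cI_cI] at hmem
  -- the element `c`
  have hxn : x ∈ Subgroup.normalizer ((Subgroup.centralizer (Q : Set G) : Subgroup G) : Set G) :=
    hst.1
  have hc : x⁻¹ * h⁻¹ * x ∈ Subgroup.centralizer (Q : Set G) := by
    rw [Subgroup.mem_normalizer_iff] at hxn
    rw [hxn (x⁻¹ * h⁻¹ * x)]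
    have : x * (x⁻¹ * h⁻¹ * x) * x⁻¹ = h⁻¹ := by group
    rw [this]
    exact Subgroup.inv_mem _ hh
  refine ⟨x⁻¹ * h⁻¹ * x, hc, ?_, ?_⟩
  · rw [Subgroup.normalizer_eq_top]
    exact Subgroup.mem_top _
  · intro χ hχ
    have hy : (x * (x⁻¹ * h⁻¹ * x))⁻¹ = x⁻¹ * h := by group
    refine ⟨cI _ hC (x * (x⁻¹ * h⁻¹ * x))⁻¹ χ, ?_, ?_⟩
    · rw [hy]
      exact sameBlock_trans hMp hmem (sameBlock_cI _ hC (x⁻¹ * h) ξ χ hχ)
    · intro k k' hk
      rw [cI_apply]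
      refine congrArg _ (Subtype.ext ?_)
      show (x * (x⁻¹ * h⁻¹ * x))⁻¹ * (k' : G) * (x * (x⁻¹ * h⁻¹ * x))⁻¹⁻¹ = (k : G)
      rw [hk]
      group

end Cfsg.Agent.Lib.Helper29.NdNILA
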