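import Cfsg.Agent.Lib.Helper75.OTStmt
import Cfsg.Agent.Lib.Helper16.NormalP

/-!
# S4889 piece BRM: truncation to `C_G(D)` is multiplicative on `D`-fixed elements

For a `p`-subgroup `D` and elements `x`, `y` of the group algebra over a field of characteristic
`p` that commute with `D`, the truncation of `x * y` to `C = C_G(D)` is the product of the
truncations: in the convolution sum for a coefficient at `g ∈ C` the terms with `a ∉ C` form
`D`-orbits (conjugation) of length divisible by `p` on which the summand is constant.
-/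

set_option autoImplicit false

namespace Cfsg.Agent.Lib.Helper29.OTBRM

open Cfsg.Agent.Lib.Helper75.OTStmt

universe u

theorem coeff_conj_of_comm {F G : Type*} [Field F] [Group G] (x : MonoidAlgebra F G) (u : G)
    (h : MonoidAlgebra.single u (1 : F) * x = x * MonoidAlgebra.single u (1 : F)) (a : G) :
    x.coeff (u * a * u⁻¹) = x.coeff a := by
  have h1 := congrArg (fun t : MonoidAlgebra F G => t.coeff (u * a)) h
  simp only [MonoidAlgebra.coeff_single_mul_apply, MonoidAlgebra.coeff_mul_single_apply, one_mul,
    mul_one, inv_mul_cancel_left] at h1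
  exact h1.symm

theorem main : BRM.{u} := by
  intro G _ _ p _ F _ _ D hD x y x' y' z' hx hy hx' hy' hz'
  classical
  have : Fintype G := Fintype.ofFinite G
  have conv : ∀ (s t : MonoidAlgebra F G) (g : G),
      (s * t).coeff g = ∑ a : G, s.coeff a * t.coeff (a⁻¹ * g) := by
    intro s t g
    rw [MonoidAlgebra.coeff_mul_apply_left, Finsupp.sum_fintype]
    intro i
    exact zero_mul _
  have hCmem : ∀ a : G, a ∈ Subgroup.centralizer (D : Set G) ↔ ∀ u ∈ D, u * a = a * u := by
    intro a
    rw [Subgroup.mem_centralizer_iff]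
    rfl
  refine MonoidAlgebra.ext (Finsupp.ext fun g => ?_)
  by_cases hg : g ∈ Subgroup.centralizer (D : Set G)
  · rw [hz'.1 g hg, conv, conv]
    have e1 : ∀ a : G, x'.coeff a * y'.coeff (a⁻¹ * g) =
        if a ∈ Subgroup.centralizer (D : Set G) then x.coeff a * y.coeff (a⁻¹ * g) else 0 := by
      intro a
      by_cases ha : a ∈ Subgroup.centralizer (D : Set G)
      · rw [if_pos ha, hx'.1 a ha, hy'.1 _ (Subgroup.mul_mem _ (Subgroup.inv_mem _ ha) hg)]
      · rw [if_neg ha, hx'.2 a ha, zero_mul]
    rw [Finset.sum_congr rfl (fun a _ => e1 a), Finset.sum_ite, Finset.sum_const_zero, add_zero,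
      ← Finset.sum_filter_add_sum_filter_not Finset.univ
        (fun a => a ∈ Subgroup.centralizer (D : Set G))]
    have hzero : ∑ a ∈ Finset.univ.filter (fun a => a ∉ Subgroup.centralizer (D : Set G)),
        x.coeff a * y.coeff (a⁻¹ * g) = 0 := by
      set S : Finset G := Finset.univ.filter (fun a => a ∉ Subgroup.centralizer (D : Set G))
        with hS
      set f : G → F := fun a => x.coeff a * y.coeff (a⁻¹ * g) with hf
      have hinv : ∀ a : G, ∀ u ∈ D, f (u * a * u⁻¹) = f a := by
        intro a u hu
        have hgu : u⁻¹ * g = g * u⁻¹ := (hCmem g).1 hg u⁻¹ (D.inv_mem hu)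
        have e2 : (u * a * u⁻¹)⁻¹ * g = u * (a⁻¹ * g) * u⁻¹ := by
          rw [mul_inv_rev, mul_inv_rev, inv_inv, mul_assoc, mul_assoc, hgu]
          simp only [mul_assoc]
        rw [hf]
        simp only
        rw [e2, coeff_conj_of_comm x u (hx u hu), coeff_conj_of_comm y u (hy u hu)]
      have hstab : ∀ a ∈ S, ∀ u ∈ D, u * a * u⁻¹ ∈ S := by
        intro a ha u hu
        rw [hS, Finset.mem_filter] at ha ⊢
        refine ⟨Finset.mem_univ _, fun hc => ha.2 ?_⟩
        have h3 : u * (u * a * u⁻¹) = (u * a * u⁻¹) * u := (hCmem _).1 hc u hu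
        have h4 : u * a * u⁻¹ = a := by
          have h5 : u * (u * a * u⁻¹) = u * a := by
            rw [h3]; simp [mul_assoc]
          exact mul_left_cancel h5
        rw [h4] at hc
        exact hc
      have hnofix : ∀ a ∈ S, ∃ u ∈ D, u * a * u⁻¹ ≠ a := by
        intro a ha
        rw [hS, Finset.mem_filter] at ha
        by_contra hcon
        push Not at hcon
        apply ha.2
        rw [hCmem]
        intro u hu
        have h6 := hcon u hu
        calc u * a = (u * a * u⁻¹) * u := by simp [mul_assoc]
          _ = a * u := by rw [h6]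
      change ∑ a ∈ S, f a = 0
      rw [← Finset.sum_fiberwise_of_maps_to (g := f) (t := S.image f)
        (fun a ha => Finset.mem_image_of_mem f ha)]
      apply Finset.sum_eq_zero
      intro c _
      rw [Finset.sum_congr rfl (fun a ha => (Finset.mem_filter.mp ha).2), Finset.sum_const]
      obtain ⟨k, hk⟩ := Cfsg.Agent.Lib.Helper16.NormalP.card_dvd_of_no_fixed p D hD
        (S.filter (fun a => f a = c))
        (by
          intro a ha u hu
          rw [Finset.mem_filter] at ha ⊢
          exact ⟨hstab a ha.1 u hu, (hinv a u hu).trans ha.2⟩)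
        (by
          intro a ha
          exact hnofix a (Finset.mem_filter.mp ha).1)
      rw [hk, nsmul_eq_mul, Nat.cast_mul, CharP.cast_eq_zero F p, zero_mul, zero_mul]
    rw [hzero, add_zero]
  · rw [hz'.2 g hg, conv]
    symm
    apply Finset.sum_eq_zero
    intro a _
    by_cases ha : a ∈ Subgroup.centralizer (D : Set G)
    · have h7 : a⁻¹ * g ∉ Subgroup.centralizer (D : Set G) := by
        intro h
        apply hg
        have h8 := Subgroup.mul_mem _ ha h
        rwa [mul_inv_cancel_left] at h8
      rw [hy'.2 _ h7, mul_zero]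
    · rw [hx'.2 a ha, zero_mul]

end Cfsg.Agent.Lib.Helper29.OTBRM
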