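import Cfsg.Agent.Lib.Helper29.TcIndex

/-!
# Order and simplicity of a group from permutation data: the group-theoretic part

* `card_le_of_index` : a subgroup of index `n` contained in a subgroup with at most `c` elements
  bounds the order by `n * c`;
* `fixer_step` : one step of a stabiliser chain (lower bound for the order of a permutation group);
* `card_eq_and_injective` : equal bounds give the order and faithfulness;
* `isCoatom_of_classes` : maximality of a point stabiliser from the sizes of its orbits;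
* `core_eq_bot_of_coatom`, `simple_of_iwasawa` : an Iwasawa-type simplicity criterion.
-/

namespace Cfsg.Agent.Lib.Helper29.OrdBasic

open Cfsg.Agent.Lib.Helper29

section Card

variable {G : Type*} [Group G]

theorem card_le_of_index (H K : Subgroup G) (n c : ℕ) (hn : 0 < n) (hidx : H.index = n)
    (hHK : H ≤ K) [Finite K] (hc : Nat.card K ≤ c) : Finite G ∧ Nat.card G ≤ n * c := by
  have hHfin : Finite H :=
    Finite.of_injective (Subgroup.inclusion hHK) (Subgroup.inclusion_injective hHK)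
  have h1 : Nat.card H ≤ Nat.card K :=
    Nat.card_le_card_of_injective (Subgroup.inclusion hHK) (Subgroup.inclusion_injective hHK)
  have h2 := Subgroup.card_mul_index H
  have hpos : 0 < Nat.card H := Nat.card_pos
  have hG : Nat.card G ≠ 0 := by
    rw [← h2, hidx]
    exact (Nat.mul_pos hpos hn).ne'
  refine ⟨Nat.finite_of_card_ne_zero hG, ?_⟩
  rw [← h2, hidx, Nat.mul_comm]
  exact Nat.mul_le_mul_left n (h1.trans hc)

theorem card_range_le {G' : Type*} [Group G'] [Finite G] (φ : G →* G') :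
    Nat.card φ.range ≤ Nat.card G :=
  Nat.card_le_card_of_surjective φ.rangeRestrict φ.rangeRestrict_surjective

theorem card_eq_and_injective {G' : Type*} [Group G'] [Finite G] (φ : G →* G') (N : ℕ)
    (hG : Nat.card G ≤ N) (hR : N ≤ Nat.card φ.range) :
    Nat.card G = N ∧ Function.Injective φ := by
  have h1 := card_range_le φ
  have hN : Nat.card G = N := le_antisymm hG (hR.trans h1)
  refine ⟨hN, ?_⟩
  have h2 : Nat.card φ.range = Nat.card G := le_antisymm h1 (hN ▸ hR)
  have h3 := Subgroup.card_mul_index φ.ker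
  rw [Subgroup.index_ker, h2] at h3
  have hpos : 0 < Nat.card G := Nat.card_pos
  have h4 : Nat.card φ.ker = 1 := by
    have : Nat.card φ.ker * Nat.card G = 1 * Nat.card G := by rw [h3, one_mul]
    exact Nat.eq_of_mul_eq_mul_right hpos this
  rw [← MonoidHom.ker_eq_bot_iff]
  exact Subgroup.card_eq_one.1 h4

end Card

section Fixer

variable {X : Type*}

/-- the elements of `P` fixing all points of `F` -/
def fixer (P : Subgroup (Equiv.Perm X)) (F : Set X) : Subgroup (Equiv.Perm X) where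
  carrier := {σ | σ ∈ P ∧ ∀ x ∈ F, σ x = x}
  one_mem' := ⟨P.one_mem, fun _ _ => rfl⟩
  mul_mem' := by
    rintro a b ⟨ha, ha'⟩ ⟨hb, hb'⟩
    refine ⟨P.mul_mem ha hb, fun x hx => ?_⟩
    rw [Equiv.Perm.mul_apply, hb' x hx, ha' x hx]
  inv_mem' := by
    rintro a ⟨ha, ha'⟩
    refine ⟨P.inv_mem ha, fun x hx => ?_⟩
    rw [Equiv.Perm.inv_eq_iff_eq, ha' x hx]

theorem mem_fixer (P : Subgroup (Equiv.Perm X)) (F : Set X) (σ : Equiv.Perm X) :
    σ ∈ fixer P F ↔ σ ∈ P ∧ ∀ x ∈ F, σ x = x := Iff.rfl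

theorem fixer_le (P : Subgroup (Equiv.Perm X)) (F : Set X) : fixer P F ≤ P := fun _ h => h.1

theorem fixer_empty (P : Subgroup (Equiv.Perm X)) : fixer P ∅ = P := by
  ext σ
  simp [mem_fixer]

instance fixer_finite (P : Subgroup (Equiv.Perm X)) [Finite P] (F : Set X) : Finite (fixer P F) :=
  Finite.of_injective (Subgroup.inclusion (fixer_le P F)) (Subgroup.inclusion_injective _)

theorem one_le_card_fixer (P : Subgroup (Equiv.Perm X)) [Finite P] (F : Set X) :
    1 ≤ Nat.card (fixer P F) := Nat.card_pos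

/-- one step of a stabiliser chain -/
theorem fixer_step (P : Subgroup (Equiv.Perm X)) [Finite P] (F : Set X) (b : X) (O : Set X) (m : ℕ)
    (hm : m ≤ O.ncard) (horb : ∀ q ∈ O, ∃ σ ∈ fixer P F, σ b = q) :
    m * Nat.card (fixer P (insert b F)) ≤ Nat.card (fixer P F) := by
  classical
  choose! τ hτ using horb
  let f : O × fixer P (insert b F) → fixer P F := fun p =>
    ⟨τ p.1 * p.2.1, (fixer P F).mul_mem (hτ p.1 p.1.2).1
      ⟨p.2.2.1, fun x hx => p.2.2.2 x (Set.mem_insert_of_mem _ hx)⟩⟩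
  have hf : Function.Injective f := by
    rintro ⟨⟨q, hq⟩, ⟨σ, hσ⟩⟩ ⟨⟨q', hq'⟩, ⟨σ', hσ'⟩⟩ h
    have h' : τ q * σ = τ q' * σ' := congrArg Subtype.val h
    have hb : σ b = b := hσ.2 b (Set.mem_insert _ _)
    have hb' : σ' b = b := hσ'.2 b (Set.mem_insert _ _)
    have e : q = q' := by
      have := congrArg (fun π : Equiv.Perm X => π b) h'
      simp only [Equiv.Perm.mul_apply, hb, hb', (hτ q hq).2, (hτ q' hq').2] at this
      exact this
    subst e
    have e2 : σ = σ' := mul_left_cancel h'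
    subst e2
    rfl
  have h := Nat.card_le_card_of_injective f hf
  rw [Nat.card_prod, Nat.card_coe_set_eq] at h
  exact (Nat.mul_le_mul_right _ hm).trans h

theorem le_of_step {m c' c L : ℕ} (h : m * c' ≤ c) (h' : L ≤ c') : m * L ≤ c :=
  (Nat.mul_le_mul_left m h').trans h

end Fixer

section Count

/-- the points of `B` in a range -/
def cset (W : ℕ) (B : Set ℕ) (a b : ℕ) : Set ℕ := {x | x ∈ B ∧ x % W = 0 ∧ a ≤ x ∧ x < b}

theorem cset_finite (W : ℕ) (B : Set ℕ) (a b : ℕ) : (cset W B a b).Finite :=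
  (Set.finite_lt_nat b).subset (fun _ hx => hx.2.2.2)

theorem cset_add (W : ℕ) (B : Set ℕ) (a b c : ℕ) (hab : a ≤ b) (hbc : b ≤ c) :
    (cset W B a c).ncard = (cset W B a b).ncard + (cset W B b c).ncard := by
  have h : cset W B a c = cset W B a b ∪ cset W B b c := by
    ext x
    simp only [cset, Set.mem_ofPred_eq, Set.mem_union]
    constructor
    · rintro ⟨h1, h2, h3, h4⟩
      by_cases hx : x < b
      · exact Or.inl ⟨h1, h2, h3, hx⟩
      · exact Or.inr ⟨h1, h2, not_lt.1 hx, h4⟩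
    · rintro (⟨h1, h2, h3, h4⟩ | ⟨h1, h2, h3, h4⟩)
      · exact ⟨h1, h2, h3, lt_of_lt_of_le h4 hbc⟩
      · exact ⟨h1, h2, hab.trans h3, h4⟩
  rw [h]
  apply Set.ncard_union_eq _ (cset_finite W B a b) (cset_finite W B b c)
  rw [Set.disjoint_left]
  rintro x ⟨_, _, _, h4⟩ ⟨_, _, h3, _⟩
  exact absurd h4 (not_lt.2 h3)

/-- the classes `[a, b₁), [b₁, b₂), …` are each inside or outside `B` -/
def Classes (W : ℕ) (B : Set ℕ) : ℕ → List ℕ → Prop
  | _, [] => True
  | a, b :: t => a ≤ b ∧ ((∀ x, x % W = 0 → a ≤ x → x < b → x ∈ B) ∨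
      (∀ x, x % W = 0 → a ≤ x → x < b → x ∉ B)) ∧ Classes W B b t

/-- the sizes of the classes -/
def sizes (W : ℕ) : ℕ → List ℕ → List ℕ
  | _, [] => []
  | a, b :: t => (b / W - a / W) :: sizes W b t

/-- the last boundary -/
def lastOf : ℕ → List ℕ → ℕ
  | a, [] => a
  | _, b :: t => lastOf b t

theorem le_lastOf (W : ℕ) (B : Set ℕ) : ∀ (E : List ℕ) (a : ℕ), Classes W B a E → a ≤ lastOf a E
  | [], _, _ => le_rfl
  | b :: t, _, h => h.1.trans (le_lastOf W B t b h.2.2)

theorem sublist_sum (W : ℕ) (hW : 0 < W) (B : Set ℕ) : ∀ (E : List ℕ) (a : ℕ), a % W = 0 →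
    (∀ b ∈ E, b % W = 0) → Classes W B a E →
    ∃ l : List ℕ, l.Sublist (sizes W a E) ∧ (cset W B a (lastOf a E)).ncard = l.sum
  | [], a, _, _, _ => by
    refine ⟨[], List.Sublist.refl _, ?_⟩
    have : cset W B a a = ∅ := by
      ext x
      simp only [cset, Set.mem_ofPred_eq, Set.mem_empty_iff_false, iff_false]
      rintro ⟨_, _, h3, h4⟩
      exact absurd h4 (not_lt.2 h3)
    change (cset W B a a).ncard = 0
    rw [this, Set.ncard_empty]
  | b :: t, a, ha, hE, h => by
    obtain ⟨hab, hcl, ht⟩ := h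
    have hb : b % W = 0 := hE b List.mem_cons_self
    obtain ⟨l, hl, hsum⟩ := sublist_sum W hW B t b hb (fun c hc => hE c (List.mem_cons_of_mem _ hc)) ht
    have hadd := cset_add W B a b (lastOf b t) hab (le_lastOf W B t b ht)
    change ∃ l : List ℕ, l.Sublist ((b / W - a / W) :: sizes W b t) ∧ (cset W B a (lastOf b t)).ncard = l.sum
    rcases hcl with hall | hnone
    · refine ⟨(b / W - a / W) :: l, List.Sublist.cons_cons _ hl, ?_⟩
      have : cset W B a b = {x : ℕ | x % W = 0 ∧ a ≤ x ∧ x < b} := by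
        ext x
        simp only [cset, Set.mem_ofPred_eq]
        exact ⟨fun h => h.2, fun h => ⟨hall x h.1 h.2.1 h.2.2, h⟩⟩
      rw [hadd, this, TcIndex.ncard_range' W a b hW ha hb, hsum, List.sum_cons]
    · refine ⟨l, List.Sublist.cons _ hl, ?_⟩
      have : cset W B a b = ∅ := by
        ext x
        simp only [cset, Set.mem_ofPred_eq, Set.mem_empty_iff_false, iff_false]
        rintro ⟨h1, h2, h3, h4⟩
        exact hnone x h2 h3 h4 h1
      rw [hadd, this, Set.ncard_empty, hsum, zero_add]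

end Count

section Max

variable {G : Type*} [Group G]

/-- the orbit of the base point under a subgroup -/
def Bset (φ : G →* Equiv.Perm ℕ) (M : Subgroup G) : Set ℕ := {x | ∃ m ∈ M, φ m 0 = x}

theorem relIndex_eq_ncard (φ : G →* Equiv.Perm ℕ) (H M : Subgroup G) (hH : H = TcIndex.stab φ 0) :
    H.relIndex M = (Bset φ M).ncard := by
  have h1 : H.subgroupOf M = TcIndex.stab (φ.comp M.subtype) 0 := by
    ext m
    rw [Subgroup.mem_subgroupOf, hH, TcIndex.mem_stab, TcIndex.mem_stab]
    rfl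
  unfold Subgroup.relIndex
  rw [h1]
  apply TcIndex.stab_index
  intro j
  constructor
  · rintro ⟨m, hm, rfl⟩
    exact ⟨⟨m, hm⟩, rfl⟩
  · rintro ⟨m, rfl⟩
    exact ⟨m.1, m.2, rfl⟩

theorem class_all_or_nothing (φ : G →* Equiv.Perm ℕ) (H M : Subgroup G) (hHM : H ≤ M) (R : Set ℕ)
    (lo : ℕ) (hR : {y | ∃ h ∈ H, φ h lo = y} = R) :
    (∀ x ∈ R, x ∈ Bset φ M) ∨ (∀ x ∈ R, x ∉ Bset φ M) := by
  by_cases hlo : lo ∈ Bset φ M
  · left
    obtain ⟨m, hm, rfl⟩ := hlo
    intro x hx
    rw [← hR] at hx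
    obtain ⟨h, hh, rfl⟩ := hx
    exact ⟨h * m, M.mul_mem (hHM hh) hm, by rw [map_mul, Equiv.Perm.mul_apply]⟩
  · right
    intro x hx hxB
    rw [← hR] at hx
    obtain ⟨h, hh, rfl⟩ := hx
    obtain ⟨m, hm, e⟩ := hxB
    apply hlo
    refine ⟨h⁻¹ * m, M.mul_mem (M.inv_mem (hHM hh)) hm, ?_⟩
    rw [map_mul, Equiv.Perm.mul_apply, e, ← Equiv.Perm.mul_apply, ← map_mul]
    simp

/-- maximality of a point stabiliser from the sizes of its orbits -/
theorem isCoatom_of_classes (φ : G →* Equiv.Perm ℕ) (H : Subgroup G) (hH : H = TcIndex.stab φ 0)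
    (W n : ℕ) (hW : 0 < W) (hn : 1 < n) (hidx : H.index = n)
    (hV : ∀ g : G, φ g 0 % W = 0 ∧ φ g 0 < W * n)
    (E : List ℕ) (hE : ∀ b ∈ E, b % W = 0) (hlast : lastOf 0 E = W * n)
    (hcls : ∀ M : Subgroup G, H ≤ M → Classes W (Bset φ M) 0 E)
    (harith : ∀ l ∈ (sizes W 0 E).sublists, l.sum ∣ n → l.sum = 1 ∨ l.sum = n) : IsCoatom H := by
  constructor
  · intro htop
    rw [htop, Subgroup.index_top] at hidx
    omega
  · intro M hM
    have hHM : H ≤ M := le_of_lt hM
    obtain ⟨l, hl, hsum⟩ := sublist_sum W hW (Bset φ M) E 0 (Nat.zero_mod _) hE (hcls M hHM)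
    have hset : cset W (Bset φ M) 0 (lastOf 0 E) = Bset φ M := by
      ext x
      simp only [cset, Set.mem_ofPred_eq]
      constructor
      · exact fun h => h.1
      · intro hx
        obtain ⟨m, _, rfl⟩ := hx
        exact ⟨⟨m, ‹_›, rfl⟩, (hV m).1, Nat.zero_le _, hlast ▸ (hV m).2⟩
    rw [hset, ← relIndex_eq_ncard φ H M hH] at hsum
    have hdvd : l.sum ∣ n := by
      rw [← hsum, ← hidx]
      exact Subgroup.relIndex_dvd_index_of_le hHM
    rcases harith l (List.mem_sublists.2 hl) hdvd with h1 | h1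
    · rw [h1] at hsum
      exact absurd (Subgroup.relIndex_eq_one.1 hsum) (not_le_of_gt hM)
    · rw [h1] at hsum
      have h2 := Subgroup.relIndex_mul_index hHM
      rw [hsum, hidx] at h2
      have h3 : M.index = 1 := by
        have : n * M.index = n * 1 := by rw [h2, mul_one]
        exact Nat.eq_of_mul_eq_mul_left (by omega) this
      exact Subgroup.index_eq_one.1 h3

end Max

section Simple

variable {G : Type*} [Group G]

theorem sup_eq_top_of_coatom (H N : Subgroup G) (hmax : IsCoatom H) (hN : ¬ N ≤ H) : N ⊔ H = ⊤ := by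
  apply hmax.2
  exact lt_of_le_of_ne le_sup_right (fun h => hN (h ▸ le_sup_left))

/-- a normal subgroup not inside a point stabiliser `H1` of a faithful primitive action is
transitive, so its order is divisible by the degree -/
theorem core_eq_bot_of_coatom [Finite G] (φ : G →* Equiv.Perm ℕ) (H1 H' : Subgroup G)
    (hH1 : H1 = TcIndex.stab φ 0) (hmax : IsCoatom H1) (hcore1 : H1.normalCore = ⊥)
    (hndvd : ¬ H1.index ∣ Nat.card H') : H'.normalCore = ⊥ := by
  by_contra hne
  set C := H'.normalCore with hC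
  have hCn : C.Normal := Subgroup.normalCore_normal H'
  have hCH1 : ¬ C ≤ H1 := by
    intro h
    have := (Subgroup.normal_le_normalCore (H := H1) (N := C)).2 h
    rw [hcore1] at this
    exact hne (le_bot_iff.1 this)
  have htop := sup_eq_top_of_coatom H1 C hmax hCH1
  -- C is transitive on the orbit of 0
  have htrans : ∀ g : G, ∃ c ∈ C, φ c 0 = φ g 0 := by
    intro g
    have hg : g ∈ (↑(C ⊔ H1) : Set G) := by rw [htop]; trivial
    rw [Subgroup.normal_mul] at hg
    obtain ⟨c, hc, h, hh, rfl⟩ := hg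
    refine ⟨c, hc, ?_⟩
    rw [map_mul, Equiv.Perm.mul_apply]
    have : h ∈ TcIndex.stab φ 0 := hH1 ▸ hh
    rw [(TcIndex.mem_stab φ 0 h).1 this]
  have h1 : H1.index = {j | ∃ g : G, φ g 0 = j}.ncard := by
    rw [hH1]
    exact TcIndex.stab_index φ 0 _ (fun j => Iff.rfl)
  have h2 : (TcIndex.stab (φ.comp C.subtype) 0).index = {j | ∃ g : G, φ g 0 = j}.ncard := by
    apply TcIndex.stab_index
    intro j
    constructor
    · rintro ⟨g, rfl⟩
      obtain ⟨c, hc, e⟩ := htrans g
      exact ⟨⟨c, hc⟩, e⟩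
    · rintro ⟨c, rfl⟩
      exact ⟨c.1, rfl⟩
  have h3 : H1.index ∣ Nat.card C := by
    rw [h1, ← h2]
    exact Subgroup.index_dvd_card _
  exact hndvd (h3.trans (Subgroup.card_dvd_of_le (Subgroup.normalCore_le H')))

theorem conj_zpowers_of_gens (S' : Set G) (H : Subgroup G) (hH : H = Subgroup.closure S') (t : G)
    (hgen : ∀ s ∈ S', s * t * s⁻¹ = t ∨ s * t * s⁻¹ = t⁻¹) :
    ∀ h ∈ H, ∀ z ∈ Subgroup.zpowers t, h * z * h⁻¹ ∈ Subgroup.zpowers t := by
  have key : ∀ h ∈ Subgroup.closure S', (∀ z ∈ Subgroup.zpowers t, h * z * h⁻¹ ∈ Subgroup.zpowers t) ∧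
      (∀ z ∈ Subgroup.zpowers t, h⁻¹ * z * h ∈ Subgroup.zpowers t) := by
    intro h hh
    induction hh using Subgroup.closure_induction with
    | mem s hs =>
      have h1 := hgen s hs
      have h2 : s⁻¹ * t * s = t ∨ s⁻¹ * t * s = t⁻¹ := by
        rcases h1 with h1 | h1
        · left
          calc s⁻¹ * t * s = s⁻¹ * (s * t * s⁻¹) * s := by rw [h1]
            _ = t := by group
        · right
          have h1' : t = s⁻¹ * t⁻¹ * s := by
            calc t = s⁻¹ * (s * t * s⁻¹) * s := by group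
              _ = s⁻¹ * t⁻¹ * s := by rw [h1]
          calc s⁻¹ * t * s = (s⁻¹ * t⁻¹ * s)⁻¹ := by group
            _ = t⁻¹ := by rw [← h1']
      constructor
      · rintro _ ⟨k, rfl⟩
        change s * t ^ k * s⁻¹ ∈ Subgroup.zpowers t
        rw [← conj_zpow]
        rcases h1 with h1 | h1 <;> rw [h1]
        · exact ⟨k, rfl⟩
        · exact Subgroup.zpow_mem _ (Subgroup.inv_mem _ (Subgroup.mem_zpowers t)) k
      · rintro _ ⟨k, rfl⟩
        change s⁻¹ * t ^ k * s ∈ Subgroup.zpowers t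
        have e : s⁻¹ * t ^ k * s = (s⁻¹ * t * s⁻¹⁻¹) ^ k := by rw [conj_zpow, inv_inv]
        rw [e, inv_inv]
        rcases h2 with h2 | h2 <;> rw [h2]
        · exact ⟨k, rfl⟩
        · exact Subgroup.zpow_mem _ (Subgroup.inv_mem _ (Subgroup.mem_zpowers t)) k
    | one => simp
    | mul a b _ _ iha ihb =>
      constructor
      · intro z hz
        have := iha.1 _ (ihb.1 z hz)
        have e : a * b * z * (a * b)⁻¹ = a * (b * z * b⁻¹) * a⁻¹ := by group
        rw [e]; exact this
      · intro z hz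
        have := ihb.2 _ (iha.2 z hz)
        have e : (a * b)⁻¹ * z * (a * b) = b⁻¹ * (a⁻¹ * z * a) * b := by group
        rw [e]; exact this
    | inv a _ iha =>
      constructor
      · intro z hz
        have := iha.2 z hz
        rw [inv_inv]; exact this
      · intro z hz
        have := iha.1 z hz
        rw [inv_inv]; exact this
  intro h hh
  exact (key h (hH ▸ hh)).1

/-- Iwasawa's criterion in the form used here -/
theorem simple_of_iwasawa [Nontrivial G] (H : Subgroup G) (hmax : IsCoatom H)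
    (hcore : H.normalCore = ⊥) (t : G)
    (hnorm : ∀ h ∈ H, ∀ z ∈ Subgroup.zpowers t, h * z * h⁻¹ ∈ Subgroup.zpowers t)
    (hgen : Subgroup.normalClosure {t} = ⊤) (hperf : commutator G = ⊤) : IsSimpleGroup G := by
  apply IsSimpleGroup.mk
  intro N hN
  by_cases hbot : N = ⊥
  · exact Or.inl hbot
  right
  have hNH : ¬ N ≤ H := by
    intro h
    have := (Subgroup.normal_le_normalCore (H := H) (N := N)).2 h
    rw [hcore] at this
    exact hbot (le_bot_iff.1 this)
  have htop := sup_eq_top_of_coatom H N hmax hNH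
  set Z := Subgroup.zpowers t with hZ
  -- N ⊔ Z is normalised by N and by H
  have hconj : ∀ g : G, g ∈ N ∨ g ∈ H → ∀ x ∈ N ⊔ Z, g * x * g⁻¹ ∈ N ⊔ Z := by
    intro g hg x hx
    have hmap : (N ⊔ Z).map (MulAut.conj g).toMonoidHom ≤ N ⊔ Z := by
      rw [Subgroup.map_sup]
      apply sup_le
      · rintro _ ⟨n, hn, rfl⟩
        exact Subgroup.mem_sup_left (hN.conj_mem n hn g)
      · rintro _ ⟨z, hz, rfl⟩
        change g * z * g⁻¹ ∈ N ⊔ Z
        rcases hg with hg | hg
        · have : g * z * g⁻¹ = (g * (z * g⁻¹ * z⁻¹)) * z := by group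
          rw [this]
          exact (N ⊔ Z).mul_mem (Subgroup.mem_sup_left (N.mul_mem hg (hN.conj_mem _ (N.inv_mem hg) z)))
            (Subgroup.mem_sup_right hz)
        · exact Subgroup.mem_sup_right (hnorm g hg z hz)
    exact hmap ⟨x, hx, rfl⟩
  have hnormal : (N ⊔ Z).Normal := by
    constructor
    intro x hx g
    have hg : g ∈ (↑(N ⊔ H) : Set G) := by rw [htop]; trivial
    rw [Subgroup.normal_mul] at hg
    obtain ⟨n, hn, h, hh, rfl⟩ := hg
    have e : n * h * x * (n * h)⁻¹ = n * (h * x * h⁻¹) * n⁻¹ := by group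
    rw [e]
    exact hconj n (Or.inl hn) _ (hconj h (Or.inr hh) x hx)
  have hNZ : N ⊔ Z = ⊤ := by
    rw [eq_top_iff, ← hgen]
    apply Subgroup.normalClosure_le_normal
    intro x hx
    rw [Set.mem_singleton_iff] at hx
    rw [hx]
    exact Subgroup.mem_sup_right (Subgroup.mem_zpowers t)
  have hcomm : commutator G ≤ N :=
    hN.commutator_le_of_self_sup_commutative_eq_top hNZ (by rw [hZ]; infer_instance)
  rw [hperf] at hcomm
  exact top_le_iff.1 hcomm

end Simple

end Cfsg.Agent.Lib.Helper29.OrdBasic
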