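import Cfsg.Agent.Lib.Helper29.TcCox
import Cfsg.Agent.Lib.Helper29.OrdBasic

/-!
# Consequences of a coset-enumeration certificate for order and simplicity questions

From a certificate `ok : CoxOK …` for a subgroup `H` of a Coxeter-presented group:
the subgroup is the stabiliser of the point `0` (`cox_index_stab`), its orbits on the points
(`cox_orbit`), an upper bound for the order (`card_le_of_cert`, `card_le_base`), maximality of
`H` from the orbit sizes (`isCoatom_of_ok`), triviality of the core for a faithful representation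
(`core_of_injective`) and equality of words through a faithful representation (`lw_eq_of_runL`).
-/

namespace Cfsg.Agent.Lib.Helper29.OrdCox

open Cfsg.Agent.Lib.Helper29.TcTrace Cfsg.Agent.Lib.Helper29.TcCert Cfsg.Agent.Lib.Helper29.TcPerm
open Cfsg.Agent.Lib.Helper29 Cfsg.Agent.Lib.Helper29.TcCox Cfsg.Agent.Lib.Helper29.OrdBasic Cfsg.Spor

variable {α : Type} [DecidableEq α]
variable {edges : List (α × ℕ × α)} {extra : List (FreeGroup α)} {S : Set (FreeGroup α)}
    {nodesL : List α} {extraWords hWords : List (List (α × Bool))} {colOf : α × Bool → ℕ}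
    {colLetters : List (α × Bool)} {invL : List ℕ} {ncolR nH : ℕ}
    {D : Data} {W WN n fuel msk : ℕ} {VL RL : List ℕ} {MG MT PAR PL FIN VERT : ℕ} {vtree : WTree}
    {lay : Layout} {cols : List ℕ} {B N nb : ℕ} {baseL : List (List ℕ)}
    {P : LP} {hb hmsk BL nbL : ℕ}

local notation "OK" => CoxOK edges extra S nodesL extraWords hWords colOf colLetters invL ncolR nH
    D W WN n fuel msk VL RL MG MT PAR PL FIN VERT vtree lay cols B N nb baseL P hb hmsk BL nbL
local notation "γ" => gam edges extra colLetters hWords ncolR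
local notation "LW" => lw edges extra

/-- the subgroup of a certificate, as a closure of word images -/
abbrev Hsub (edges : List (α × ℕ × α)) (extra : List (FreeGroup α)) (hWords : List (List (α × Bool))) :
    Subgroup (CoxPresented α edges extra) :=
  Subgroup.closure {g | ∃ w ∈ hWords, lw edges extra w = g}

local notation "HH" => Hsub edges extra hWords

theorem cox_index_stab (ok : OK) : (HH).index = n ∧ HH = TcIndex.stab (phi ok) 0 := by
  have hup := trace_sound (upper_hyp ok)
  obtain ⟨h0, hΨ0, hcard, hstep⟩ := hup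
  have hDn : D.n = n := by rw [ok.hD]; rfl
  rw [hDn] at hcard
  exact TcIndex.index_eq HH {g | ∃ c, c < ncolR ∧ γ c = g} (gam_gen ok) (Psi γ D)
    (liveSet D N) 0 h0 hΨ0
    (by
      rintro v hv _ ⟨c, hc, rfl⟩
      exact hstep v hv c hc)
    (by
      rintro v hv _ ⟨c, hc, rfl⟩
      rw [← gam_inv ok hc]
      exact hstep v hv _ (invL_lt ok hc))
    (phi ok) 0 {q | ValidL P q} n (ncard_points ok) hcard (orbit_all ok) (H_fix ok)

theorem n_pos (ok : OK) : 0 < n := ok.hn

theorem phi_invalid (ok : OK) (g : CoxPresented α edges extra) (q : ℕ) (hq : ¬ ValidL P q) :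
    phi ok g q = q := by
  induction g using PresentedGroup.induction_on with
  | H z =>
    have : PresentedGroup.mk (coxRelators edges ∪ {r | r ∈ extra}) z = LW z.toWord := by
      unfold lw; rw [FreeGroup.mk_toWord]
    rw [this, phi_lw ok]
    exact permW_invalid (lower_hyp ok) _ hq

theorem phi_zero (ok : OK) (g : CoxPresented α edges extra) :
    phi ok g 0 % P.WL = 0 ∧ phi ok g 0 < P.WL * n := by
  have h := (orbit_all ok (phi ok g 0)).2 ⟨g, rfl⟩
  rw [validL_iff, ok.hPn] at h
  exact h

theorem phi_lw_valid (ok : OK) (w : List (α × Bool)) (q : ℕ) (hq : ValidL P q) :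
    phi ok (LW w) q = runL P (w.map colOf) q := by
  rw [phi_lw ok]
  exact (permW_valid (lower_hyp ok) _ (cols_lt ok w) q hq).2

/-- equality of two words, tested in a faithful permutation representation -/
theorem lw_eq_of_runL (ok : OK) (hinj : Function.Injective (phi ok)) (w1 w2 : List (α × Bool))
    (h : ∀ q, ValidL P q → runL P (w1.map colOf) q = runL P (w2.map colOf) q) : LW w1 = LW w2 := by
  apply hinj
  ext q
  by_cases hq : ValidL P q
  · rw [phi_lw_valid ok w1 q hq, phi_lw_valid ok w2 q hq, h q hq]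
  · rw [phi_invalid ok _ q hq, phi_invalid ok _ q hq]

/-- the core of the point stabiliser of a faithful representation is trivial -/
theorem core_of_injective (ok : OK) (hinj : Function.Injective (phi ok)) : (HH).normalCore = ⊥ := by
  rw [eq_bot_iff]
  intro g hg
  rw [Subgroup.mem_bot]
  apply hinj
  rw [map_one]
  ext q
  rw [Equiv.Perm.one_apply]
  by_cases hq : ValidL P q
  · obtain ⟨x, hx⟩ := (orbit_all ok q).1 hq
    have h1 : x⁻¹ * g * x⁻¹⁻¹ ∈ HH := hg x⁻¹
    rw [(cox_index_stab ok).2, TcIndex.mem_stab] at h1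
    rw [← hx]
    have h2 : phi ok g (phi ok x 0) = phi ok x (phi ok (x⁻¹ * g * x⁻¹⁻¹) 0) := by
      rw [← Equiv.Perm.mul_apply, ← map_mul, ← Equiv.Perm.mul_apply, ← map_mul]
      congr 2
      group
    rw [h2, h1]
  · exact phi_invalid ok g q hq

/-- upper bound for the order: the subgroup lies in a finite subgroup with at most `c` elements -/
theorem card_le_of_cert (ok : OK) (K : Subgroup (CoxPresented α edges extra)) [Finite K] (c : ℕ)
    (hc : Nat.card K ≤ c) (hK : ∀ w ∈ hWords, LW w ∈ K) :
    Finite (CoxPresented α edges extra) ∧ Nat.card (CoxPresented α edges extra) ≤ n * c := by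
  apply card_le_of_index HH K n c ok.hn (cox_index_stab ok).1 _ hc
  rw [Subgroup.closure_le]
  rintro _ ⟨w, hw, rfl⟩
  exact hK w hw

/-- upper bound for the order when the subgroup is generated by one involution -/
theorem card_le_base (ok : OK) (x : α) (hx : x ∈ coxNodes edges) (hw : hWords = [[(x, true)]]) :
    Finite (CoxPresented α edges extra) ∧ Nat.card (CoxPresented α edges extra) ≤ n * 2 := by
  have hsq : (LW [(x, true)]) ^ 2 = 1 := by rw [pow_two]; exact node_sq edges extra hx
  have hfo : IsOfFinOrder (LW [(x, true)]) := isOfFinOrder_iff_pow_eq_one.2 ⟨2, by norm_num, hsq⟩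
  have : Finite (Subgroup.zpowers (LW [(x, true)])) := Set.finite_coe_iff.2 hfo.finite_zpowers
  apply card_le_of_cert ok (Subgroup.zpowers (LW [(x, true)])) 2
  · rw [Nat.card_zpowers]
    exact orderOf_le_of_pow_eq_one (by norm_num) hsq
  · intro w hw'
    rw [hw, List.mem_singleton] at hw'
    rw [hw']
    exact Subgroup.mem_zpowers _

/-- the orbit of the subgroup on a class of points between two consecutive bounds -/
theorem cox_orbit (ok : OK) (lo hi : ℕ) (hlo : lo ∈ P.bounds) (hhi : hi ∈ P.bounds ∨ hi = P.WLn)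
    (hlt : lo < hi) (hsep : ∀ b ∈ P.bounds, b ≤ lo ∨ hi ≤ b) :
    {y | ∃ h ∈ HH, phi ok h lo = y} = {x | x % P.WL = 0 ∧ lo ≤ x ∧ x < hi} := by
  have hloV := ok.hbv lo hlo
  have hhiW : hi ≤ P.WLn := by
    rcases hhi with h | h
    · exact le_of_lt ((validL_iff P hi).1 (ok.hbv hi h)).2
    · exact le_of_eq h
  apply TcIndex.orbit_set_eq {g | ∃ w ∈ hWords, LW w = g} (phi ok) {q | ValidL P q}
    {x | x % P.WL = 0 ∧ lo ≤ x ∧ x < hi} lo
  · intro g x hx
    exact phi_valid ok g x hx
  · rintro x ⟨h1, _, h3⟩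
    exact (validL_iff P x).2 ⟨h1, lt_of_lt_of_le h3 hhiW⟩
  · exact ⟨((validL_iff P lo).1 hloV).1, le_rfl, hlt⟩
  · rintro _ ⟨w, hw, rfl⟩ x hx
    change ValidL P x at hx
    rw [phi_lw ok]
    obtain ⟨hv, he⟩ := permW_valid (lower_hyp ok) _ (cols_lt ok w) x hx
    rw [he]
    have h3 := (pointOK_facts P x ((lower_hyp ok).pointOK hx)).2.2.1 (w.map colOf)
      (by rw [ok.hPhws]; exact List.mem_map_of_mem hw)
    have hv' := (validL_iff P _).1 hv
    have hx' := (validL_iff P _).1 hx
    simp only [Set.mem_ofPred_eq]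
    have e1 := h3 lo hlo
    have e2 : runL P (w.map colOf) x < hi ↔ x < hi := by
      rcases hhi with h | h
      · have := h3 hi h
        constructor <;> intro h' <;> by_contra hc <;> push Not at hc
        · exact absurd (this.2 hc) (not_le.2 h')
        · exact absurd (this.1 hc) (not_le.2 h')
      · rw [h]; exact ⟨fun _ => hx'.2, fun _ => hv'.2⟩
    rw [e1, e2]
    constructor
    · rintro ⟨_, h2, h3⟩; exact ⟨hx'.1, h2, h3⟩
    · rintro ⟨_, h2, h3⟩; exact ⟨hv'.1, h2, h3⟩
  · rintro x ⟨h1, h2, h3⟩ hne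
    have hxV : ValidL P x := (validL_iff P x).2 ⟨h1, lt_of_lt_of_le h3 hhiW⟩
    have hx0 : x ≠ 0 := by omega
    obtain ⟨k, hlt', hor⟩ := (pointOK_facts P x ((lower_hyp ok).pointOK hxV)).2.2.2 hx0
    have hnb : x ∉ P.bounds := by
      intro hb
      rcases hsep x hb with h | h <;> omega
    have hk : k + 1 ≤ P.nH := by
      rcases hor with h | h
      · exact h
      · exact absurd h hnb
    rw [ok.hPnH] at hk
    rcases twl_getD ok k with ⟨_, h⟩ | ⟨h, _⟩
    · rw [h] at hlt'
      have hmem : hWords.getD k [] ∈ hWords := by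
        rw [List.getD_eq_getElem _ _ (by rw [ok.hnH]; omega)]
        exact List.getElem_mem _
      refine ⟨LW (hWords.getD k []), Subgroup.subset_closure ⟨_, hmem, rfl⟩, ?_⟩
      rw [phi_lw ok, (permW_valid (lower_hyp ok) _ (cols_lt ok _) x hxV).2]
      exact hlt'
    · omega

/-- the bounds after `a` are increasing, separate the classes and end at `e` -/
def sepChk (bounds : List ℕ) (e : ℕ) : ℕ → List ℕ → Bool
  | a, [] => decide (a < e) && bounds.all (fun c => decide (c ≤ a) || decide (e ≤ c))
  | a, b :: t => decide (a < b) && bounds.all (fun c => decide (c ≤ a) || decide (b ≤ c)) &&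
      decide (b ∈ bounds) && sepChk bounds e b t

theorem classes_of_sep (ok : OK) (M : Subgroup (CoxPresented α edges extra)) (hHM : HH ≤ M) :
    ∀ (l : List ℕ) (a : ℕ), a ∈ P.bounds → sepChk P.bounds P.WLn a l = true →
      Classes P.WL (Bset (phi ok) M) a (l ++ [P.WLn])
  | [], a, ha, h => by
    simp only [sepChk, Bool.and_eq_true, decide_eq_true_eq, List.all_eq_true, Bool.or_eq_true] at h
    obtain ⟨h1, h2⟩ := h
    have horb := cox_orbit ok a P.WLn ha (Or.inr rfl) h1 h2
    refine ⟨le_of_lt h1, ?_, trivial⟩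
    rcases class_all_or_nothing (phi ok) HH M hHM _ a horb with h | h
    · exact Or.inl fun x hx1 hx2 hx3 => h x ⟨hx1, hx2, hx3⟩
    · exact Or.inr fun x hx1 hx2 hx3 => h x ⟨hx1, hx2, hx3⟩
  | b :: t, a, ha, h => by
    simp only [sepChk, Bool.and_eq_true, decide_eq_true_eq, List.all_eq_true, Bool.or_eq_true] at h
    obtain ⟨⟨⟨h1, h2⟩, h3⟩, h4⟩ := h
    have horb := cox_orbit ok a b ha (Or.inl h3) h1 h2
    refine ⟨le_of_lt h1, ?_, classes_of_sep ok M hHM t b h3 h4⟩
    rcases class_all_or_nothing (phi ok) HH M hHM _ a horb with h | h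
    · exact Or.inl fun x hx1 hx2 hx3 => h x ⟨hx1, hx2, hx3⟩
    · exact Or.inr fun x hx1 hx2 hx3 => h x ⟨hx1, hx2, hx3⟩

theorem lastOf_append (e : ℕ) : ∀ (l : List ℕ) (a : ℕ), lastOf a (l ++ [e]) = e
  | [], _ => rfl
  | b :: t, _ => lastOf_append e t b

/-- maximality of the subgroup of a certificate from its orbit sizes -/
theorem isCoatom_of_ok (ok : OK) (rest : List ℕ) (hb : P.bounds = P.WL :: rest)
    (hsep : sepChk P.bounds P.WLn P.WL rest = true) (hn : 1 < n)
    (harith : ∀ l ∈ (sizes P.WL 0 (P.bounds ++ [P.WLn])).sublists, l.sum ∣ n → l.sum = 1 ∨ l.sum = n) :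
    IsCoatom HH := by
  apply isCoatom_of_classes (phi ok) HH (cox_index_stab ok).2 P.WL n ok.hWL hn (cox_index_stab ok).1
    (phi_zero ok) (P.bounds ++ [P.WLn])
  · intro b hb'
    rcases List.mem_append.1 hb' with h | h
    · exact ((validL_iff P b).1 (ok.hbv b h)).1
    · rw [List.mem_singleton] at h
      rw [h, ok.hPn]
      exact Nat.mul_mod_right _ _
  · rw [lastOf_append, ok.hPn]
  · intro M hHM
    have hWLb : P.WL ∈ P.bounds := by rw [hb]; exact List.mem_cons_self
    have hcl := classes_of_sep ok M hHM rest P.WL hWLb hsep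
    rw [hb]
    refine ⟨Nat.zero_le _, Or.inl ?_, hcl⟩
    intro x hx1 _ hx3
    have hx0 : x = 0 := by
      by_contra hne
      have := Nat.le_of_dvd (Nat.pos_of_ne_zero hne) (Nat.dvd_of_mod_eq_zero hx1)
      omega
    rw [hx0]
    exact ⟨1, M.one_mem, by simp⟩
  · exact harith

end Cfsg.Agent.Lib.Helper29.OrdCox
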