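import Cfsg.Agent.Lib.Helper29.OrdCox

/-!
# Kernel-checkable certificates on the permutation representation of a certificate

* word trees `WT` (words with sharing) and their evaluation `evT` on the point tables;
* `level_step` : one level of a stabiliser chain (orbit of a base point under elements fixing the
  earlier base points), giving a lower bound for the order of the image;
* `lwT_eq_of_chk` : equality of two words tested on all points of a faithful representation.
-/

namespace Cfsg.Agent.Lib.Helper29.OrdPerm

open Cfsg.Agent.Lib.Helper29.TcTrace Cfsg.Agent.Lib.Helper29.TcCert Cfsg.Agent.Lib.Helper29.TcPerm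
open Cfsg.Agent.Lib.Helper29 Cfsg.Agent.Lib.Helper29.TcCox Cfsg.Agent.Lib.Helper29.OrdBasic
open Cfsg.Agent.Lib.Helper29.OrdCox Cfsg.Spor

local notation "cndB(" b ", " t ", " e ")" => Bool.rec (motive := fun _ => Bool) e t b
local notation "cndN(" b ", " t ", " e ")" => Bool.rec (motive := fun _ => ℕ) e t b

/-- words with sharing: letters, products and inverses -/
inductive WT (α : Type) where
  | leaf : α → Bool → WT α
  | mul : WT α → WT α → WT α
  | inv : WT α → WT α

namespace WT

variable {α : Type}

/-- the word of a tree (`f = true`: of its inverse) -/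
def flat : WT α → Bool → List (α × Bool)
  | leaf a b, f => [(a, xor b f)]
  | mul l r, false => flat l false ++ flat r false
  | mul l r, true => flat r true ++ flat l true
  | inv t, f => flat t (!f)

/-- the tree of a non-empty word -/
def ofWord : α × Bool → List (α × Bool) → WT α
  | l, [] => leaf l.1 l.2
  | l, l' :: t => mul (leaf l.1 l.2) (ofWord l' t)

theorem flat_ofWord : ∀ (l : α × Bool) (t : List (α × Bool)), (ofWord l t).flat false = l :: t
  | (a, b), [] => by simp [ofWord, flat]
  | (a, b), l' :: t => by simp [ofWord, flat, flat_ofWord l' t]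

/-- the conjugate `u x u⁻¹` -/
def conj (u x : WT α) : WT α := mul (mul u x) (inv u)

/-- `x` or its inverse -/
def pw (x : WT α) : Bool → WT α
  | true => x
  | false => inv x

/-- a product of conjugates of `x` and its inverse -/
def conjProd (x : WT α) : WT α × Bool → List (WT α × Bool) → WT α
  | p, [] => conj p.1 (pw x p.2)
  | p, p' :: t => mul (conj p.1 (pw x p.2)) (conjProd x p' t)

end WT

variable {α : Type}

theorem runL_append (P : LP) (w w' : List ℕ) (q : ℕ) :
    runL P (w ++ w') q = runL P w (runL P w' q) := by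
  induction w with
  | nil => rfl
  | cons c w ih => rw [List.cons_append, runL_cons, runL_cons, ih]

/-- evaluation of a tree at a point -/
noncomputable def evT (P : LP) (colOf : α × Bool → ℕ) (t : WT α) : Bool → ℕ → ℕ :=
  WT.rec (motive := fun _ => Bool → ℕ → ℕ)
    (fun a b f q => lk P (colOf (a, xor b f)) q)
    (fun _ _ il ir f q => cndN(f, ir true (il true q), il false (ir false q)))
    (fun _ it f q => it (!f) q) t

theorem evT_eq (P : LP) (colOf : α × Bool → ℕ) (t : WT α) :
    ∀ (f : Bool) (q : ℕ), evT P colOf t f q = runL P ((t.flat f).map colOf) q := by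
  induction t with
  | leaf a b => intro f q; rfl
  | mul l r ihl ihr =>
    intro f q
    cases f with
    | false =>
      change evT P colOf l false (evT P colOf r false q) = _
      rw [ihl, ihr, WT.flat, List.map_append, runL_append]
    | true =>
      change evT P colOf r true (evT P colOf l true q) = _
      rw [ihl, ihr, WT.flat, List.map_append, runL_append]
  | inv t ih =>
    intro f q
    change evT P colOf t (!f) q = _
    rw [ih, WT.flat]

/-- the `k`-th tree of a list -/
noncomputable def nth (gens : List (WT α)) : ℕ → Option (WT α) :=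
  List.rec (motive := fun _ => ℕ → Option (WT α)) (fun _ => none)
    (fun s _ ih k => Nat.rec (motive := fun _ => Option (WT α)) (some s) (fun k' _ => ih k') k) gens

theorem nth_mem : ∀ (gens : List (WT α)) (k : ℕ) (s : WT α), nth gens k = some s → s ∈ gens
  | [], _, _, h => by cases h
  | s0 :: t, 0, s, h => by
    have : s0 = s := Option.some.inj h
    rw [this]; exact List.mem_cons_self
  | s0 :: t, k + 1, s, h => List.mem_cons_of_mem _ (nth_mem t k s h)

/-- the trees fix the given points -/
noncomputable def fixChk (P : LP) (colOf : α × Bool → ℕ) (gens : List (WT α)) (bs : List ℕ) : Bool :=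
  List.rec (motive := fun _ => Bool) true
    (fun s _ ih => cndB(List.rec (motive := fun _ => Bool) true
      (fun x _ ih2 => cndB(Nat.beq (evT P colOf s false x) x, ih2, false)) bs, ih, false)) gens

theorem fixChk_sound (P : LP) (colOf : α × Bool → ℕ) (gens : List (WT α)) (bs : List ℕ)
    (h : fixChk P colOf gens bs = true) : ∀ s ∈ gens, ∀ x ∈ bs, evT P colOf s false x = x := by
  intro s hs x hx
  have h1 := all_rec_sound (fun s => List.rec (motive := fun _ => Bool) true
      (fun x _ ih2 => cndB(Nat.beq (evT P colOf s false x) x, ih2, false)) bs) gens h s hs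
  exact Nat.eq_of_beq_eq_true (all_rec_sound (fun x => Nat.beq (evT P colOf s false x) x) bs h1 x hx)

/-- check of one point of a level: prefix count and descent in the orbit tree -/
noncomputable def chkOrb (P : LP) (colOf : α × Bool → ℕ) (gens : List (WT α)) (b D HT CT : ℕ)
    (q : ℕ) : Bool :=
  cndB(Nat.beq (look P.mskL CT (Nat.add q P.WL))
      (Nat.add (look P.mskL CT q) (cndN(Nat.beq (look P.mskL D q) 0, 0, 1))),
    Nat.rec (motive := fun _ => Bool) true
      (fun d' _ => Nat.rec (motive := fun _ => Bool) (Nat.beq q b)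
        (fun d'' _ => Option.rec (motive := fun _ => Bool) false
          (fun s => Nat.beq (look P.mskL D (evT P colOf s false q)) (Nat.succ d''))
          (nth gens (look P.mskL HT q))) d')
      (look P.mskL D q),
    false)

/-- a check at `cnt` consecutive points from `q` -/
noncomputable def allPts (f : ℕ → Bool) (WL : ℕ) : ℕ → ℕ → Bool :=
  Nat.rec (motive := fun _ => ℕ → Bool) (fun _ => true)
    (fun _ ih q => cndB(f q, ih (Nat.add q WL), false))

theorem allPts_sound (f : ℕ → Bool) (WL : ℕ) (cnt : ℕ) :
    ∀ q, allPts f WL cnt q = true → ∀ i, i < cnt → f (q + WL * i) = true := by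
  induction cnt with
  | zero => intro q _ i hi; omega
  | succ cnt ih =>
    intro q h i hi
    have h' : cndB(f q, allPts f WL cnt (Nat.add q WL), false) = true := h
    rw [cndB_eq_true] at h'
    rcases h' with ⟨h1, h2⟩ | ⟨_, h2⟩
    · cases i with
      | zero => simpa using h1
      | succ i =>
        have := ih _ h2 i (by omega)
        have e : Nat.add q WL + WL * i = q + WL * (i + 1) := by
          change q + WL + WL * i = q + WL * (i + 1)
          ring
        rw [e] at this
        exact this
    · exact absurd h2 (by simp)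

/-- a check at all points, from checks of blocks of `B` points -/
theorem allPts_blocks (f : ℕ → Bool) (WL B n nb : ℕ) (hB : 0 < B) (hcov : n ≤ B * nb)
    (h : ∀ k, k < nb → allPts f WL (min B (n - B * k)) (WL * (B * k)) = true) :
    ∀ i, i < n → f (WL * i) = true := by
  intro i hi
  have hk : i / B < nb := by
    rw [Nat.div_lt_iff_lt_mul hB, Nat.mul_comm]
    exact lt_of_lt_of_le hi hcov
  have hdm := Nat.div_add_mod i B
  have hm := Nat.mod_lt i hB
  have hcnt : i % B < min B (n - B * (i / B)) := by
    rw [lt_min_iff]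
    exact ⟨hm, by omega⟩
  have := allPts_sound f WL _ _ (h (i / B) hk) (i % B) hcnt
  have e : WL * (B * (i / B)) + WL * (i % B) = WL * i := by
    rw [← Nat.mul_add, hdm]
  rw [e] at this
  exact this

theorem chkOrb_facts (P : LP) (colOf : α × Bool → ℕ) (gens : List (WT α)) (b D HT CT : ℕ) (q : ℕ)
    (h : chkOrb P colOf gens b D HT CT q = true) :
    look P.mskL CT (q + P.WL) = look P.mskL CT q + (if look P.mskL D q = 0 then 0 else 1) ∧
    (look P.mskL D q = 1 → q = b) ∧
    (2 ≤ look P.mskL D q → ∃ s ∈ gens, look P.mskL D (evT P colOf s false q) + 1 = look P.mskL D q) := by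
  unfold chkOrb at h
  rw [cndB_eq_true] at h
  rcases h with ⟨h1, h2⟩ | ⟨_, h2⟩
  swap
  · exact absurd h2 (by simp)
  refine ⟨?_, ?_, ?_⟩
  · have := Nat.eq_of_beq_eq_true h1
    change look P.mskL CT (q + P.WL) = look P.mskL CT q + _ at this
    rw [this]
    congr 1
    by_cases hd : look P.mskL D q = 0
    · rw [if_pos hd, hd]; rfl
    · rw [if_neg hd]
      have : Nat.beq (look P.mskL D q) 0 = false := by
        cases hb : Nat.beq (look P.mskL D q) 0 with
        | false => rfl
        | true => exact absurd (Nat.eq_of_beq_eq_true hb) hd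
      rw [this]
  · intro hd
    rw [hd] at h2
    exact Nat.eq_of_beq_eq_true h2
  · intro hd
    obtain ⟨d'', hd''⟩ : ∃ d'', look P.mskL D q = d'' + 2 := ⟨look P.mskL D q - 2, by omega⟩
    rw [hd''] at h2 ⊢
    change Option.rec (motive := fun _ => Bool) false
      (fun s => Nat.beq (look P.mskL D (evT P colOf s false q)) (Nat.succ d''))
      (nth gens (look P.mskL HT q)) = true at h2
    cases hn : nth gens (look P.mskL HT q) with
    | none => rw [hn] at h2; exact absurd h2 (by simp)
    | some s =>
      rw [hn] at h2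
      exact ⟨s, nth_mem gens _ s hn, by rw [Nat.eq_of_beq_eq_true h2]⟩

/-- the prefix counts count the points of the orbit -/
theorem count_eq (W n : ℕ) (hW : 0 < W) (c d : ℕ → ℕ)
    (h : ∀ i, i < n → c (W * (i + 1)) = c (W * i) + (if d (W * i) = 0 then 0 else 1)) :
    ∀ j, j ≤ n → c (W * j) = c 0 + {q : ℕ | q % W = 0 ∧ q < W * j ∧ d q ≠ 0}.ncard := by
  intro j
  induction j with
  | zero =>
    intro _
    have : {q : ℕ | q % W = 0 ∧ q < W * 0 ∧ d q ≠ 0} = ∅ := by
      ext q; simp
    rw [this, Set.ncard_empty]; rfl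
  | succ j ih =>
    intro hj
    rw [h j (by omega), ih (by omega), Nat.add_assoc]
    congr 1
    have hfin : {q : ℕ | q % W = 0 ∧ q < W * j ∧ d q ≠ 0}.Finite :=
      (Set.finite_lt_nat (W * j)).subset (fun _ hx => hx.2.1)
    by_cases hd : d (W * j) = 0
    · rw [if_pos hd, Nat.add_zero]
      congr 1
      ext q
      simp only [Set.mem_ofPred_eq]
      constructor
      · rintro ⟨h1, h2, h3⟩
        exact ⟨h1, lt_of_lt_of_le h2 (Nat.mul_le_mul_left W (Nat.le_succ j)), h3⟩
      · rintro ⟨h1, h2, h3⟩
        refine ⟨h1, ?_, h3⟩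
        by_contra hlt
        have hq : q = W * j := by
          obtain ⟨k, rfl⟩ := Nat.dvd_of_mod_eq_zero h1
          have h4 : k < j + 1 := Nat.lt_of_mul_lt_mul_left h2
          have h5 : j ≤ k := by
            by_contra hk
            exact hlt (Nat.mul_lt_mul_of_pos_left (not_le.1 hk) hW)
          rw [show k = j by omega]
        exact h3 (hq ▸ hd)
    · rw [if_neg hd]
      have : {q : ℕ | q % W = 0 ∧ q < W * (j + 1) ∧ d q ≠ 0} =
          insert (W * j) {q : ℕ | q % W = 0 ∧ q < W * j ∧ d q ≠ 0} := by
        ext q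
        simp only [Set.mem_ofPred_eq, Set.mem_insert_iff]
        constructor
        · rintro ⟨h1, h2, h3⟩
          by_cases hq : q = W * j
          · exact Or.inl hq
          · right
            refine ⟨h1, ?_, h3⟩
            obtain ⟨k, rfl⟩ := Nat.dvd_of_mod_eq_zero h1
            have h4 : k < j + 1 := Nat.lt_of_mul_lt_mul_left h2
            have h5 : k ≠ j := fun e => hq (e ▸ rfl)
            exact Nat.mul_lt_mul_of_pos_left (by omega) hW
        · rintro (rfl | ⟨h1, h2, h3⟩)
          · exact ⟨Nat.mul_mod_right W j, Nat.mul_lt_mul_of_pos_left (Nat.lt_succ_self j) hW, hd⟩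
          · exact ⟨h1, lt_of_lt_of_le h2 (Nat.mul_le_mul_left W (Nat.le_succ j)), h3⟩
      rw [this, Set.ncard_insert_of_notMem (fun hmem => absurd hmem.2.1 (lt_irrefl _)) hfin, Nat.add_comm]

variable [DecidableEq α]
variable {edges : List (α × ℕ × α)} {extra : List (FreeGroup α)} {S : Set (FreeGroup α)}
    {nodesL : List α} {extraWords hWords : List (List (α × Bool))} {colOf : α × Bool → ℕ}
    {colLetters : List (α × Bool)} {invL : List ℕ} {ncolR nH : ℕ}
    {D : Data} {W WN n fuel msk : ℕ} {VL RL : List ℕ} {MG MT PAR PL FIN VERT : ℕ} {vtree : WTree}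
    {lay : Layout} {cols : List ℕ} {B N nb : ℕ} {baseL : List (List ℕ)}
    {P : LP} {hb hmsk BL nbL : ℕ}

local notation "OK" => CoxOK edges extra S nodesL extraWords hWords colOf colLetters invL ncolR nH
    D W WN n fuel msk VL RL MG MT PAR PL FIN VERT vtree lay cols B N nb baseL P hb hmsk BL nbL
local notation "LW" => lw edges extra

/-- the group element of a tree -/
noncomputable def lwT (edges : List (α × ℕ × α)) (extra : List (FreeGroup α)) (t : WT α) :
    CoxPresented α edges extra := lw edges extra (t.flat false)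

local notation "LT" => lwT edges extra

theorem lw_flat_not (t : WT α) : ∀ f : Bool, LW (t.flat (!f)) = (LW (t.flat f))⁻¹ := by
  induction t with
  | leaf a b =>
    intro f
    cases b <;> cases f <;> simp only [WT.flat, Bool.not_true, Bool.not_false, Bool.xor_true,
      Bool.xor_false]
    · exact lw_inv_letter edges extra a false
    · rw [eq_inv_iff_mul_eq_one, ← inv_inv (LW [(a, false)]), ← lw_inv_letter edges extra a false]
      simp
    · exact lw_inv_letter edges extra a true
    · rw [eq_inv_iff_mul_eq_one, ← inv_inv (LW [(a, true)]), ← lw_inv_letter edges extra a true]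
      simp
  | mul l r ihl ihr =>
    intro f
    cases f with
    | false =>
      have h1 := ihl false
      have h2 := ihr false
      simp only [Bool.not_false] at h1 h2 ⊢
      rw [WT.flat, WT.flat, lw_append, lw_append, h1, h2, mul_inv_rev]
    | true =>
      have h1 := ihl true
      have h2 := ihr true
      simp only [Bool.not_true] at h1 h2 ⊢
      rw [WT.flat, WT.flat, lw_append, lw_append, h1, h2, mul_inv_rev]
  | inv t ih =>
    intro f
    rw [WT.flat, WT.flat]
    exact ih (!f)

theorem lwT_mul (l r : WT α) : LT (WT.mul l r) = LT l * LT r := by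
  unfold lwT
  rw [WT.flat, lw_append]

theorem lwT_inv (t : WT α) : LT (WT.inv t) = (LT t)⁻¹ := by
  unfold lwT
  rw [WT.flat]
  exact lw_flat_not t false

theorem lwT_leaf (a : α) : LT (WT.leaf a true) = LW [(a, true)] := rfl

theorem lwT_ofWord (l : α × Bool) (t : List (α × Bool)) : LT (WT.ofWord l t) = LW (l :: t) := by
  unfold lwT
  rw [WT.flat_ofWord]

theorem lwT_conj (u x : WT α) : LT (WT.conj u x) = LT u * LT x * (LT u)⁻¹ := by
  unfold WT.conj
  rw [lwT_mul, lwT_mul, lwT_inv]

theorem lwT_pw_mem (x : WT α) (e : Bool) (N : Subgroup (CoxPresented α edges extra))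
    (hx : LT x ∈ N) : LT (WT.pw x e) ∈ N := by
  cases e with
  | true => exact hx
  | false =>
    change LT (WT.inv x) ∈ N
    rw [lwT_inv]
    exact N.inv_mem hx

/-- a product of conjugates lies in every normal subgroup containing the element -/
theorem lwT_conjProd_mem (x : WT α) (N : Subgroup (CoxPresented α edges extra)) [hN : N.Normal]
    (hx : LT x ∈ N) : ∀ (p : WT α × Bool) (l : List (WT α × Bool)), LT (WT.conjProd x p l) ∈ N
  | p, [] => by
    change LT (WT.conj p.1 (WT.pw x p.2)) ∈ N
    rw [lwT_conj]
    exact hN.conj_mem _ (lwT_pw_mem x p.2 N hx) _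
  | p, p' :: t => by
    change LT (WT.mul (WT.conj p.1 (WT.pw x p.2)) (WT.conjProd x p' t)) ∈ N
    rw [lwT_mul, lwT_conj]
    exact N.mul_mem (hN.conj_mem _ (lwT_pw_mem x p.2 N hx) _) (lwT_conjProd_mem x N hx p' t)

theorem phi_lwT_valid (ok : OK) (t : WT α) (q : ℕ) (hq : ValidL P q) :
    phi ok (LT t) q = evT P colOf t false q := by
  unfold lwT
  rw [phi_lw_valid ok _ q hq, evT_eq]

theorem valid_eq_mul (ok : OK) (q : ℕ) (hq : ValidL P q) : ∃ i, i < n ∧ q = 0 + P.WL * i := by
  rw [validL_iff, ok.hPn] at hq
  refine ⟨q / P.WL, ?_, ?_⟩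
  · rw [Nat.div_lt_iff_lt_mul ok.hWL, Nat.mul_comm]; exact hq.2
  · rw [Nat.zero_add, Nat.mul_div_cancel' (Nat.dvd_of_mod_eq_zero hq.1)]

/-- equality of two words with sharing, tested in a faithful permutation representation -/
theorem lwT_eq_of_chk (ok : OK) (hinj : Function.Injective (phi ok)) (t1 t2 : WT α)
    (h : ∀ i, i < n → Nat.beq (evT P colOf t1 false (P.WL * i)) (evT P colOf t2 false (P.WL * i)) = true) :
    LT t1 = LT t2 := by
  apply lw_eq_of_runL ok hinj
  intro q hq
  obtain ⟨i, hi, rfl⟩ := valid_eq_mul ok q hq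
  rw [← evT_eq, ← evT_eq, Nat.zero_add]
  exact Nat.eq_of_beq_eq_true (h i hi)

/-- one level of a stabiliser chain -/
theorem level_step (ok : OK) [Finite (CoxPresented α edges extra)] (gens : List (WT α))
    (bs : List ℕ) (b DT HT CT m : ℕ)
    (hfix : fixChk P colOf gens bs = true) (hbs : ∀ x ∈ bs, ValidL P x)
    (hchk : ∀ i, i < n → chkOrb P colOf gens b DT HT CT (P.WL * i) = true)
    (hcnt : look P.mskL CT 0 + m ≤ look P.mskL CT (P.WL * n)) :
    m * Nat.card (fixer (phi ok).range {x | x ∈ b :: bs}) ≤
      Nat.card (fixer (phi ok).range {x | x ∈ bs}) := by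
  have hfinR : Finite (phi ok).range :=
    Finite.of_surjective (phi ok).rangeRestrict (phi ok).rangeRestrict_surjective
  have hfacts : ∀ q, ValidL P q → (look P.mskL DT q = 1 → q = b) ∧
      (2 ≤ look P.mskL DT q → ∃ s ∈ gens,
        look P.mskL DT (evT P colOf s false q) + 1 = look P.mskL DT q) := by
    intro q hq
    obtain ⟨i, hi, e⟩ := valid_eq_mul ok q hq
    rw [Nat.zero_add] at e
    rw [e]
    exact (chkOrb_facts P colOf gens b DT HT CT _ (hchk i hi)).2
  -- the generators of the level lie in the fixer
  have hgen : ∀ s ∈ gens, phi ok (LT s) ∈ fixer (phi ok).range {x | x ∈ bs} := by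
    intro s hs
    refine ⟨⟨_, rfl⟩, fun x hx => ?_⟩
    rw [phi_lwT_valid ok s x (hbs x hx)]
    exact fixChk_sound P colOf gens bs hfix s hs x hx
  -- the orbit
  have horb : ∀ d q, ValidL P q → look P.mskL DT q = d → d ≠ 0 →
      ∃ σ ∈ fixer (phi ok).range {x | x ∈ bs}, σ b = q := by
    intro d
    induction d using Nat.strong_induction_on with
    | _ d ih =>
      intro q hq hd hd0
      obtain ⟨h1, h2⟩ := hfacts q hq
      by_cases hd1 : d = 1
      · refine ⟨1, Subgroup.one_mem _, ?_⟩
        rw [h1 (hd.trans hd1)]; rfl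
      · obtain ⟨s, hs, hsd⟩ := h2 (by omega)
        have hv : ValidL P (evT P colOf s false q) := by
          rw [← phi_lwT_valid ok s q hq]
          exact phi_valid ok _ q hq
        obtain ⟨σ, hσ, hσb⟩ := ih (d - 1) (by omega) _ hv (by omega) (by omega)
        refine ⟨(phi ok (LT s))⁻¹ * σ, Subgroup.mul_mem _ (Subgroup.inv_mem _ (hgen s hs)) hσ, ?_⟩
        rw [Equiv.Perm.mul_apply, hσb, Equiv.Perm.inv_eq_iff_eq, phi_lwT_valid ok s q hq]
  -- the count
  have hcount := count_eq P.WL n ok.hWL (fun q => look P.mskL CT q) (fun q => look P.mskL DT q)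
    (fun i hi => (chkOrb_facts P colOf gens b DT HT CT _ (hchk i hi)).1) n le_rfl
  have hm : m ≤ {q : ℕ | q % P.WL = 0 ∧ q < P.WL * n ∧ look P.mskL DT q ≠ 0}.ncard := by omega
  have hstep := fixer_step (phi ok).range {x | x ∈ bs} b _ m hm (fun q hq =>
    horb _ q ((validL_iff P q).2 ⟨hq.1, ok.hPn ▸ hq.2.1⟩) rfl hq.2.2)
  have hset : insert b {x | x ∈ bs} = {x | x ∈ b :: bs} := by
    ext x
    simp [Set.mem_insert_iff, List.mem_cons]
  rw [hset] at hstep
  exact hstep

end Cfsg.Agent.Lib.Helper29.OrdPerm
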