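import Cfsg.Agent.Lib.Helper29.OrdCox

/-!
# Sub-presentations of a Coxeter-presented group

The group presented on the same generators by the sub-diagram on a set `J` of nodes, some of the
further relators and the generators outside `J` killed maps to the big group (`subHom`); its image
contains the generators in `J`.  This bounds the order of the subgroup generated by `J`
(`card_le_chain`).
-/

namespace Cfsg.Agent.Lib.Helper29.OrdSub

open Cfsg.Agent.Lib.Helper29.TcTrace Cfsg.Agent.Lib.Helper29.TcCert Cfsg.Agent.Lib.Helper29.TcPerm
open Cfsg.Agent.Lib.Helper29 Cfsg.Agent.Lib.Helper29.TcCox Cfsg.Agent.Lib.Helper29.OrdBasic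
open Cfsg.Agent.Lib.Helper29.OrdCox Cfsg.Spor

variable {α : Type} [DecidableEq α]

/-- the letters on nodes of the sub-diagram -/
def inJ (edges' : List (α × ℕ × α)) (l : α × Bool) : Bool := decide (l.1 ∈ coxNodes edges')

/-- generators of the sub-diagram go to themselves, the others to `1` -/
noncomputable def subGen (edges edges' : List (α × ℕ × α)) (extra : List (FreeGroup α)) (x : α) :
    CoxPresented α edges extra :=
  if x ∈ coxNodes edges' then lw edges extra [(x, true)] else 1

theorem lift_filter (edges edges' : List (α × ℕ × α)) (extra : List (FreeGroup α))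
    (w : List (α × Bool)) :
    FreeGroup.lift (subGen edges edges' extra) (FreeGroup.mk w) =
      lw edges extra (w.filter (inJ edges')) := by
  induction w with
  | nil =>
    rw [← FreeGroup.one_eq_mk, map_one]
    exact (lw_nil edges extra).symm
  | cons l w ih =>
    have e : (FreeGroup.mk (l :: w) : FreeGroup α) = FreeGroup.mk [l] * FreeGroup.mk w := by
      rw [FreeGroup.mul_mk]; rfl
    rw [e, map_mul, ih]
    obtain ⟨x, b⟩ := l
    have h1 : FreeGroup.lift (subGen edges edges' extra) (FreeGroup.mk [(x, b)]) =
        if x ∈ coxNodes edges' then lw edges extra [(x, b)] else 1 := by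
      cases b with
      | true =>
        change FreeGroup.lift (subGen edges edges' extra) (FreeGroup.of x) = _
        rw [FreeGroup.lift_apply_of]
        rfl
      | false =>
        have : (FreeGroup.mk [(x, false)] : FreeGroup α) = (FreeGroup.of x)⁻¹ := by
          rw [FreeGroup.of, FreeGroup.inv_mk]; rfl
        rw [this, map_inv, FreeGroup.lift_apply_of]
        unfold subGen
        by_cases hx : x ∈ coxNodes edges'
        · rw [if_pos hx, if_pos hx]
          exact (lw_inv_letter edges extra x true).symm
        · rw [if_neg hx, if_neg hx, inv_one]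
    rw [h1, List.filter_cons]
    by_cases hx : x ∈ coxNodes edges'
    · have : inJ edges' (x, b) = true := by simp [inJ, hx]
      rw [if_pos hx, this, if_pos rfl]
      exact (lw_cons edges extra (x, b) _).symm
    · have : inJ edges' (x, b) = false := by simp [inJ, hx]
      rw [if_neg hx, this, one_mul]
      rfl

section Hom

variable (edges edges' : List (α × ℕ × α)) (extra : List (FreeGroup α))
  (extraWords extraWords' : List (List (α × Bool)))
  (hextra : extra = extraWords.map FreeGroup.mk)
  (h1 : ∀ x ∈ coxNodes edges', x ∈ coxNodes edges)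
  (h2 : ∀ x ∈ coxNodes edges', ∀ y ∈ coxNodes edges', coxLabel edges' x y = coxLabel edges x y)
  (h3 : ∀ w ∈ extraWords', w.filter (inJ edges') = [] ∨ w.filter (inJ edges') ∈ extraWords)

include hextra h1 h2 h3 in
theorem subGen_rel : ∀ r ∈ coxRelators edges' ∪ {r | r ∈ extraWords'.map FreeGroup.mk},
    FreeGroup.lift (subGen edges edges' extra) r = 1 := by
  rintro r (⟨x, hx, y, hy, rfl⟩ | hr)
  · rw [map_pow, map_mul, FreeGroup.lift_apply_of, FreeGroup.lift_apply_of, h2 x hx y hy]
    unfold subGen
    rw [if_pos hx, if_pos hy]
    have := pair_rel edges extra (h1 x hx) (h1 y hy)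
    unfold coxWord at this
    rw [lw_replicate] at this
    exact this
  · change r ∈ extraWords'.map FreeGroup.mk at hr
    obtain ⟨w, hw, rfl⟩ := List.mem_map.1 hr
    rw [lift_filter]
    rcases h3 w hw with h | h
    · rw [h, lw_nil]
    · apply lw_of_mem_rels
      right
      change FreeGroup.mk _ ∈ extra
      rw [hextra]
      exact List.mem_map_of_mem h

/-- the homomorphism from a sub-presentation -/
noncomputable def subHom :
    CoxPresented α edges' (extraWords'.map FreeGroup.mk) →* CoxPresented α edges extra :=
  PresentedGroup.toGroup (subGen_rel edges edges' extra extraWords extraWords' hextra h1 h2 h3)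

theorem subHom_lw (w : List (α × Bool)) :
    subHom edges edges' extra extraWords extraWords' hextra h1 h2 h3
      (lw edges' (extraWords'.map FreeGroup.mk) w) = lw edges extra (w.filter (inJ edges')) := by
  rw [← lift_filter]
  rfl

end Hom

variable {edges : List (α × ℕ × α)} {extra : List (FreeGroup α)} {S : Set (FreeGroup α)}
    {nodesL : List α} {extraWords hWords : List (List (α × Bool))} {colOf : α × Bool → ℕ}
    {colLetters : List (α × Bool)} {invL : List ℕ} {ncolR nH : ℕ}
    {D : Data} {W WN n fuel msk : ℕ} {VL RL : List ℕ} {MG MT PAR PL FIN VERT : ℕ} {vtree : WTree}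
    {lay : Layout} {cols : List ℕ} {B N nb : ℕ} {baseL : List (List ℕ)}
    {P : LP} {hb hmsk BL nbL : ℕ}

/-- one step of the chain of upper bounds: the subgroup of the certificate is generated by letters
of a sub-diagram whose presented group has at most `c` elements -/
theorem card_le_chain
    (ok : CoxOK edges extra S nodesL extraWords hWords colOf colLetters invL ncolR nH
      D W WN n fuel msk VL RL MG MT PAR PL FIN VERT vtree lay cols B N nb baseL P hb hmsk BL nbL)
    (edges' : List (α × ℕ × α)) (extraWords' : List (List (α × Bool)))
    (h1 : ∀ x ∈ coxNodes edges', x ∈ coxNodes edges)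
    (h2 : ∀ x ∈ coxNodes edges', ∀ y ∈ coxNodes edges', coxLabel edges' x y = coxLabel edges x y)
    (h3 : ∀ w ∈ extraWords', w.filter (inJ edges') = [] ∨ w.filter (inJ edges') ∈ extraWords)
    (h4 : ∀ w ∈ hWords, w.filter (inJ edges') = w) (c : ℕ)
    (hfin : Finite (CoxPresented α edges' (extraWords'.map FreeGroup.mk)))
    (hc : Nat.card (CoxPresented α edges' (extraWords'.map FreeGroup.mk)) ≤ c) :
    Finite (CoxPresented α edges extra) ∧ Nat.card (CoxPresented α edges extra) ≤ n * c := by
  set ψ := subHom edges edges' extra extraWords extraWords' ok.hextra h1 h2 h3 with hψ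
  have hfinK : Finite ψ.range := Finite.of_surjective ψ.rangeRestrict ψ.rangeRestrict_surjective
  apply card_le_of_cert ok ψ.range c ((card_range_le ψ).trans hc)
  intro w hw
  refine ⟨lw edges' (extraWords'.map FreeGroup.mk) w, ?_⟩
  rw [hψ, subHom_lw, h4 w hw]

end Cfsg.Agent.Lib.Helper29.OrdSub
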