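import Mathlib
import Cfsg.Agent.Lib.Helper27.OzStmt

/-!
# S5388, piece GENO (helper29): four matrices generate a large subgroup of `O₈⁺(2)`

A subgroup `H` of the orthogonal group containing the matrices `omat 0 .. omat 3` has at least
`120 * 72 * 35 * 18 * 8 * 4 = 174182400` elements: a chain of stabilisers for the action on the
256 vectors of `𝔽₂⁸`, with explicit words in the four matrices moving the next base vector to the
required number of distinct vectors; the action of the four matrices on the 256 vectors is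
tabulated (`tab_ok`).
-/

set_option autoImplicit false

namespace Cfsg.Agent.Lib.Helper29.OzGENO

open Matrix Cfsg.Agent.Lib.Helper27.OzStmt

/-- the matrix of an element of the orthogonal group -/
abbrev mt (g : O8) : M8 := ((g : Matrix.GeneralLinearGroup I8 (ZMod 2)) : M8)

theorem mt_mul (g h : O8) : mt (g * h) = mt g * mt h := rfl

theorem mt_one : mt (1 : O8) = 1 := rfl

/-- the vector with code `v` -/
def vecOf (v : ℕ) : V8 := fun i => if v.testBit (enc8 i) = true then 1 else 0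

theorem vecOf_inj {a b : ℕ} (ha : a < 256) (hb : b < 256) (h : vecOf a = vecOf b) : a = b := by
  apply Nat.eq_of_testBit_eq
  intro i
  by_cases hi : i < 8
  · have key : ∀ idx : I8, a.testBit (enc8 idx) = b.testBit (enc8 idx) := by
      intro idx
      have h1 := congrFun h idx
      simp only [vecOf] at h1
      by_cases h2 : a.testBit (enc8 idx) = true <;> by_cases h3 : b.testBit (enc8 idx) = true
      · rw [h2, h3]
      · rw [if_pos h2, if_neg h3] at h1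
        exact absurd h1 (by decide)
      · rw [if_neg h2, if_pos h3] at h1
        exact absurd h1 (by decide)
      · simp only [Bool.not_eq_true] at h2 h3
        rw [h2, h3]
    interval_cases i
    · exact key (Sum.inl 0)
    · exact key (Sum.inl 1)
    · exact key (Sum.inl 2)
    · exact key (Sum.inl 3)
    · exact key (Sum.inr 0)
    · exact key (Sum.inr 1)
    · exact key (Sum.inr 2)
    · exact key (Sum.inr 3)
  · have h8 : 256 ≤ 2 ^ i := by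
      calc 256 = 2 ^ 8 := by norm_num
        _ ≤ 2 ^ i := Nat.pow_le_pow_right (by norm_num) (by omega)
    rw [Nat.testBit_eq_false_of_lt (lt_of_lt_of_le ha h8),
      Nat.testBit_eq_false_of_lt (lt_of_lt_of_le hb h8)]

/-- the stabiliser of a vector -/
def stabV (b : V8) : Subgroup O8 where
  carrier := {g | mt g *ᵥ b = b}
  mul_mem' := by
    intro g h hg hh
    show mt (g * h) *ᵥ b = b
    have hg' : mt g *ᵥ b = b := hg
    have hh' : mt h *ᵥ b = b := hh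
    rw [mt_mul, ← Matrix.mulVec_mulVec, hh', hg']
  one_mem' := by
    show mt (1 : O8) *ᵥ b = b
    rw [mt_one, Matrix.one_mulVec]
  inv_mem' := by
    intro g hg
    show mt g⁻¹ *ᵥ b = b
    have hg' : mt g *ᵥ b = b := hg
    have h1 : mt g⁻¹ * mt g = 1 := by
      rw [← mt_mul, inv_mul_cancel]
      rfl
    calc mt g⁻¹ *ᵥ b = mt g⁻¹ *ᵥ (mt g *ᵥ b) := by rw [hg']
      _ = b := by rw [Matrix.mulVec_mulVec, h1, Matrix.one_mulVec]

theorem mem_stabV (b : V8) (g : O8) : g ∈ stabV b ↔ mt g *ᵥ b = b := Iff.rfl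

/-- orbit-stabiliser lower bound -/
theorem card_ge (K : Subgroup O8) (b : V8) (n : ℕ) (t : Fin n → O8) (ht : ∀ j, t j ∈ K)
    (hinj : ∀ j j', mt (t j) *ᵥ b = mt (t j') *ᵥ b → j = j') :
    n * Nat.card ↥(K ⊓ stabV b) ≤ Nat.card ↥K := by
  have key : Nat.card (Fin n × ↥(K ⊓ stabV b)) ≤ Nat.card ↥K := by
    apply Nat.card_le_card_of_injective (fun p : Fin n × ↥(K ⊓ stabV b) =>
      (⟨t p.1 * p.2.1, K.mul_mem (ht p.1) p.2.2.1⟩ : ↥K))
    rintro ⟨j, s⟩ ⟨j', s'⟩ h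
    have h1 : t j * s.1 = t j' * s'.1 := congrArg Subtype.val h
    have e1 : ∀ (i : Fin n) (r : ↥(K ⊓ stabV b)),
        mt (t i * r.1) *ᵥ b = mt (t i) *ᵥ b := by
      intro i r
      have hr : mt r.1 *ᵥ b = b := r.2.2
      rw [mt_mul, ← Matrix.mulVec_mulVec, hr]
    have h2 : mt (t j) *ᵥ b = mt (t j') *ᵥ b := by
      rw [← e1 j s, ← e1 j' s', h1]
    have hj := hinj j j' h2
    subst hj
    have h3 : s.1 = s'.1 := mul_left_cancel h1
    exact Prod.ext rfl (Subtype.ext h3)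
  rwa [Nat.card_prod, Nat.card_fin] at key

/-! ### the data -/

/-- the action of `omat 0 .. omat 3` on the codes of the vectors -/
def tabs : List (List ℕ) := [[0, 59, 52, 15, 175, 148, 155, 160, 4, 63, 48, 11, 171, 144, 159, 164, 28, 39, 40, 19, 179, 136, 135, 188, 24, 35, 44, 23, 183, 140, 131, 184, 189, 134, 137, 178, 18, 41, 38, 29, 185, 130, 141, 182, 22, 45, 34, 25, 161, 154, 149, 174, 14, 53, 58, 1, 165, 158, 145, 170, 10, 49, 62, 5, 60, 7, 8, 51, 147, 168, 167, 156, 56, 3, 12, 55, 151, 172, 163, 152, 32, 27, 20, 47, 143, 180, 187, 128, 36, 31, 16, 43, 139, 176, 191, 132, 129, 186, 181, 142, 46, 21, 26, 33, 133, 190, 177, 138, 42, 17, 30, 37, 157, 166, 169, 146, 50, 9, 6, 61, 153, 162, 173, 150, 54, 13, 2, 57, 97, 90, 85, 110, 206, 245, 250, 193, 101, 94, 81, 106, 202, 241, 254, 197, 125, 70, 73, 114, 210, 233, 230, 221, 121, 66, 77, 118, 214, 237, 226, 217, 220, 231, 232,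 211, 115, 72, 71, 124, 216, 227, 236, 215, 119, 76, 67, 120, 192, 251, 244, 207, 111, 84, 91, 96, 196, 255, 240, 203, 107, 80, 95, 100, 93, 102, 105, 82, 242, 201, 198, 253, 89, 98, 109, 86, 246, 205, 194, 249, 65, 122, 117, 78, 238, 213, 218, 225, 69, 126, 113, 74, 234, 209, 222, 229, 224, 219, 212, 239, 79, 116, 123, 64, 228, 223, 208, 235, 75, 112, 127, 68, 252, 199, 200, 243, 83, 104, 103, 92, 248, 195, 204, 247, 87, 108, 99, 88],
  [0, 204, 207, 3, 186, 118, 117, 185, 123, 183, 180, 120, 193, 13, 14, 194, 174, 98, 97, 173, 20, 216, 219, 23, 213, 25, 26, 214, 111, 163, 160, 108, 237, 33, 34, 238, 87, 155, 152, 84, 150, 90, 89, 149, 44, 224, 227, 47, 67, 143, 140, 64, 249, 53, 54, 250, 56, 244, 247, 59, 130, 78, 77, 129, 51, 255, 252, 48, 137, 69, 70, 138, 72, 132, 135, 75, 242, 62, 61, 241, 157, 81, 82, 158, 39, 235, 232, 36, 230, 42, 41, 229, 92, 144, 147, 95, 222, 18, 17, 221,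 100, 168, 171, 103, 165, 105, 106, 166, 31, 211, 208, 28, 112, 188, 191, 115, 202, 6, 5, 201, 11, 199, 196, 8, 177, 125, 126, 178, 243, 63, 60, 240, 73, 133, 134, 74, 136, 68, 71, 139, 50, 254, 253, 49, 93, 145, 146, 94, 231, 43, 40, 228, 38, 234, 233, 37, 156, 80, 83, 159, 30, 210, 209, 29, 164, 104, 107, 167, 101, 169, 170, 102, 223, 19, 16, 220, 176, 124, 127, 179, 10, 198, 197, 9, 203, 7, 4, 200, 113, 189, 190, 114, 192, 12, 15, 195, 122, 182, 181, 121, 187, 119, 116, 184, 1, 205, 206, 2, 110, 162, 161, 109, 212, 24, 27, 215, 21, 217, 218, 22, 175, 99, 96, 172, 45, 225, 226, 46, 151, 91, 88, 148, 86, 154, 153, 85, 236, 32, 35, 239, 131, 79, 76, 128, 57, 245, 246, 58, 248, 52, 55, 251, 66, 142, 141, 65],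
  [0, 20, 176, 164, 115, 103, 195, 215, 87, 67, 231, 243, 36, 48, 148, 128, 90, 78, 234, 254, 41, 61, 153, 141, 13, 25, 189, 169, 126, 106, 206, 218, 8, 28, 184, 172, 123, 111, 203, 223, 95, 75, 239, 251, 44, 56, 156, 136, 82, 70, 226, 246, 33, 53, 145, 133, 5, 17, 181, 161, 118, 98, 198, 210, 10, 30, 186, 174, 121, 109, 201, 221, 93, 73, 237, 249, 46, 58, 158, 138, 80, 68, 224, 244, 35, 55, 147, 135, 7, 19, 183, 163, 116, 96, 196, 208, 2, 22, 178, 166, 113, 101, 193, 213, 85, 65, 229, 241, 38, 50, 150, 130, 88, 76, 232, 252, 43, 63, 155, 143, 15, 27, 191, 171, 124, 104, 204, 216, 26, 14, 170, 190, 105, 125, 217, 205, 77, 89, 253, 233, 62, 42, 142, 154, 64, 84, 240, 228, 51, 39, 131, 151, 23, 3, 167, 179, 100, 112, 212, 192, 18, 6, 162, 182, 97, 117, 209, 197, 69, 81, 245, 225, 54, 34, 134, 146, 72, 92, 248, 236, 59, 47, 139, 159, 31, 11, 175, 187, 108, 120, 220, 200, 16, 4, 160,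 180, 99, 119, 211, 199, 71, 83, 247, 227, 52, 32, 132, 144, 74, 94, 250, 238, 57, 45, 137, 157, 29, 9, 173, 185, 110, 122, 222, 202, 24, 12, 168, 188, 107, 127, 219, 207, 79, 91, 255, 235, 60, 40, 140, 152, 66, 86, 242, 230, 49, 37, 129, 149, 21, 1, 165, 177, 102, 114, 214, 194],
  [0, 236, 225, 13, 120, 148, 153, 117, 231, 11, 6, 234, 159, 115, 126, 146, 30, 242, 255, 19, 102, 138, 135, 107, 249, 21, 24, 244, 129, 109, 96, 140, 59, 215, 218, 54, 67, 175, 162, 78, 220, 48, 61, 209, 164, 72, 69, 169, 37, 201, 196, 40, 93, 177, 188, 80, 194, 46, 35, 207, 186, 86, 91, 183, 235, 7, 10, 230, 147, 127, 114, 158, 12, 224, 237, 1, 116, 152, 149, 121, 245, 25, 20, 248, 141, 97, 108, 128, 18, 254, 243, 31, 106, 134, 139, 103, 208, 60, 49, 221, 168, 68, 73, 165, 55, 219, 214, 58, 79, 163, 174, 66, 206, 34, 47, 195, 182, 90, 87, 187, 41, 197, 200, 36, 81, 189, 176, 92, 85, 185, 180, 88, 45,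 193, 204, 32, 178, 94, 83, 191, 202, 38, 43, 199, 75, 167, 170, 70, 51, 223, 210, 62, 172, 64, 77, 161, 212, 56, 53, 217, 110, 130, 143, 99, 22, 250, 247, 27, 137, 101, 104, 132, 241, 29, 16, 252, 112, 156, 145, 125, 8, 228, 233, 5, 151, 123, 118, 154, 239, 3, 14, 226, 190, 82, 95, 179, 198, 42, 39, 203, 89, 181, 184, 84, 33, 205, 192, 44, 160, 76, 65, 173, 216, 52, 57, 213, 71, 171, 166, 74, 63, 211, 222, 50, 133, 105, 100, 136, 253, 17, 28, 240, 98, 142, 131, 111, 26, 246, 251, 23, 155, 119, 122, 150, 227, 15, 2, 238, 124, 144, 157, 113, 4, 232, 229, 9]]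

/-- the action of the `k`-th matrix on codes -/
def tab (k v : ℕ) : ℕ := (tabs.getD k []).getD v v

/-- the action of a word on codes -/
def actW (w : List ℕ) (v : ℕ) : ℕ := w.foldr tab v

/-- base vectors and words: the words of each level fix the earlier base vectors and move the
base vector of the level to distinct vectors -/
def levels : List (ℕ × List (List ℕ)) := [(53, [[3, 2, 3, 2, 3], [1, 2, 0, 0, 3, 3], [3, 3, 3, 1, 3], [0, 0, 3, 1, 3], [3, 3, 1, 3], [0, 3, 1, 3], [2, 3, 3, 3, 3], [1, 2, 1, 3, 0, 3], [3, 3, 0, 3], [3, 1, 0, 0, 3], [2, 2, 1, 3, 0, 3], [2, 2, 0, 0, 3], [0, 2, 1, 3, 0, 3], [2, 2, 2, 3], [0, 2, 3, 3], [2, 2, 1, 0, 0, 3], [2, 3, 0, 3, 1, 3], [0, 2, 2, 3], [], [0, 1, 3], [3, 0, 3, 3], [1, 0, 0, 3], [2, 3, 3, 3, 1, 3], [2, 2, 3, 0, 0, 3], [2, 3, 1, 3], [3, 0, 2, 3, 3], [0, 2, 0, 1, 3], [0, 0, 3, 0, 3], [2, 3, 0, 3], [0, 1, 2, 0, 2, 3], [3, 2, 2, 0, 0, 3], [3,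 2, 1, 3, 0, 3], [3, 1, 3], [0, 3, 0, 3, 1, 3], [2, 2, 0, 1, 3], [2, 2, 1, 0, 3, 0, 3], [2, 2, 0, 3, 3], [2, 2, 0, 2, 3], [2, 3], [0, 2, 0, 3, 3], [1, 3, 2, 3, 2, 3], [2, 3, 0, 2, 2, 3], [2, 3, 3], [1, 3, 2, 3, 3], [3, 2, 3], [1, 0, 3, 0, 3], [2, 1, 3, 0, 3], [0, 1, 2, 2, 3], [3, 0, 3], [1, 3, 0, 2, 3], [2, 2, 3], [2, 1, 3, 2, 2, 3], [2, 2, 3, 1, 3], [0, 2, 0, 3, 0, 3], [1, 3], [0, 3, 0, 0, 3], [0, 3, 3, 3, 1, 3], [2, 0, 3, 3], [1, 0, 0, 3, 0, 3], [0, 2, 3], [2, 3, 0, 0, 3], [3, 2, 2, 0, 1, 3], [3, 2, 0, 2, 3], [0, 2, 2, 0, 1, 3], [2, 0, 1, 3], [0, 2, 3, 1, 3], [2, 0, 0, 3], [0, 2, 3, 0, 3], [2, 3, 1, 3, 0, 3], [1, 2, 0, 2, 3], [3, 3], [0, 3, 0, 3, 3], [1, 2, 0, 3, 0, 3], [2, 2, 2, 0, 2, 3], [0, 3, 0, 3], [3, 2, 0, 1, 3], [3, 2, 3, 3], [2, 0, 3, 1, 3], [2, 3, 1, 0, 0, 3], [2, 0, 0, 3, 3], [3], [0, 3, 1, 0, 0, 3], [2, 1, 0, 0, 3], [3, 2, 2, 3], [2, 3, 3, 0, 3], [1, 2, 3, 0, 2, 3],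 [1, 3, 0, 3], [3, 0, 2, 3], [3, 0, 2, 2, 3], [1, 3, 2, 2, 3], [1, 2, 1, 0, 0, 3], [1, 2, 2, 3, 1, 3], [2, 3, 0, 2, 3], [2, 0, 2, 0, 1, 3], [1, 2, 2, 3], [1, 2, 3, 3, 0, 3], [2, 0, 3, 0, 3], [1, 0, 1, 2, 2, 3], [3, 3, 3], [0, 3, 3], [3, 3, 3, 3], [0, 0, 3, 3], [2, 0, 0, 3, 0, 3], [3, 2, 0, 0, 3], [3, 3, 0, 2, 3], [1, 0, 2, 3, 3], [3, 2, 1, 0, 0, 3], [2, 3, 2, 3], [2, 1, 3, 0, 2, 3], [2, 0, 2, 3], [3, 0, 0, 3], [3, 1, 3, 0, 3], [2, 1, 0, 3, 0, 3], [1, 2, 3, 0, 3], [3, 0, 3, 1, 3], [0, 0, 3], [2, 0, 3, 1, 0, 0, 3], [0, 3], [1, 3, 2, 0, 2, 3], [0, 3, 2, 0, 2, 3]]),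
  (1, [[], [1, 0, 0, 2], [0, 1, 2, 0, 1], [2, 2, 0], [0, 0, 1, 2, 0], [0, 2, 0, 0, 0], [2, 1, 2, 0, 0, 1], [0, 2, 1], [0, 1, 2, 2], [2], [1, 2, 0, 0, 1], [2, 2, 2, 1], [2, 2, 1], [2, 2, 0, 0], [2, 2], [2, 2, 0, 0, 1], [0, 0, 2, 0, 0, 0], [1, 0, 0, 2, 0], [2, 1], [0, 2, 2, 2], [2, 2, 2, 0, 0, 1], [0], [2, 0, 0, 0], [1, 2, 0, 1], [0, 0, 2, 0], [2, 0, 0, 1, 2, 0], [0, 1, 0, 2, 0, 0], [2, 2, 2], [0, 2, 2, 2, 0], [0, 0, 2, 2], [1, 2, 2], [1, 2, 0, 0, 2], [0, 2, 1, 2, 2], [0, 0, 1], [0, 2, 0, 0], [2, 2, 2, 0, 0], [0, 1, 2, 0], [2, 2, 0, 0, 0], [0, 2, 0, 0, 2], [2, 2, 2, 2, 1], [2, 0, 1], [0, 2, 2], [0, 0, 2, 0, 0], [0, 2, 2, 1], [2, 0, 0, 2], [1, 0, 2, 0], [0, 2, 2, 0], [0, 0, 2, 1], [2, 0], [1, 0, 2, 0, 0], [0, 0], [1, 0, 1, 2, 2], [2, 1, 0, 0, 2], [0, 2], [2, 2, 2, 2, 0], [2, 1, 2, 2], [2, 0, 0, 2, 1], [2, 2, 2, 0], [1], [0, 0, 2], [1, 2, 0], [2, 0, 0, 1], [0, 0, 0, 2, 1], [1, 0, 2,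 1, 2, 2], [2, 0, 2, 2, 2, 0], [0, 2, 0], [1, 0, 0, 2, 2], [0, 0, 0], [2, 0, 0], [0, 1], [1, 2, 1], [2, 1, 2, 0]]),
  (2, [[], [1, 2, 2, 0, 0, 0, 2, 0, 1], [2, 0, 0, 2, 1, 2, 2, 0, 0], [1, 0, 2, 1, 2, 0], [2, 2, 1, 2, 2, 2], [0, 0, 1, 2, 2, 2], [1, 0, 2, 1, 2, 1, 0], [2, 0, 2, 2, 0, 2, 0, 0, 0], [0, 1, 2, 1, 2, 0], [0, 0, 1, 0, 2, 0, 2], [1, 2, 2, 1, 2, 1, 0, 2, 2, 0], [0, 2, 2, 0, 1, 2, 0, 0], [2, 2, 0, 0, 0, 0], [2, 0, 0, 0, 2], [2, 2, 0, 0, 0, 1, 0], [2, 1, 2, 1], [0, 2, 0, 0, 0, 2, 2, 0, 0], [2, 1, 0, 1, 0, 0, 2], [0, 1, 0, 0, 2, 2, 1], [0, 2, 0, 1, 2, 0, 0, 0], [1, 2, 0, 2, 1, 0, 2, 2, 1], [0, 1, 2, 0, 1, 0, 2, 0], [2, 2, 0, 1, 2, 0, 2], [0, 1, 0, 0, 1, 2, 2, 1], [1, 2, 0, 0, 0, 0, 2, 1], [2, 2, 1, 0, 2, 0, 2], [0, 0, 0, 1, 2, 0, 2], [0, 0, 2, 2, 2], [0, 1, 2, 1, 2, 1, 0], [2, 0, 2, 0, 2, 0], [0, 0, 0, 0, 0, 1, 0], [2, 2, 1, 0, 1, 2, 0, 2], [0, 0, 1, 0, 1, 2, 0, 2], [0, 1, 0,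 1, 0, 2, 2, 1], [0, 2, 2, 0, 2, 0, 1, 0]]),
  (4, [[], [0, 0, 0, 1, 0, 0, 0], [0, 0, 0, 1, 0, 1, 0, 0], [0, 0, 0, 0, 1, 0, 0], [2, 2, 0, 1, 2, 2, 0, 2, 2, 0], [1, 2, 2, 0, 2, 2, 1, 0, 2, 2, 0, 1], [0, 0, 1, 0, 1, 0, 1, 0, 0], [0, 0, 1, 0, 0, 1, 0, 0], [1, 2, 1, 0, 1, 2, 0, 2, 2, 1], [0, 2, 1, 0, 1, 2, 0, 1, 2, 0, 0], [0, 0, 1, 0, 0, 0, 0], [0, 0, 1, 0, 1, 0, 0, 0], [0, 2, 1, 0, 0, 2, 1, 0, 0, 2, 2], [2, 0, 2, 1, 2, 1, 2, 2, 0, 1], [0, 1, 0, 0, 2, 1, 2, 1, 0, 0, 0, 0], [2, 2, 2, 0, 0, 0, 2, 0, 1, 2, 1], [2, 1, 2, 1, 2, 1, 2, 1], [2, 0, 2, 1, 2, 2, 2, 0, 1]]),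
  (16, [[], [2, 2, 2, 2, 1, 2], [2, 0, 0, 0, 2, 0, 0, 2, 2, 1, 2], [2, 0, 0, 0, 2, 0, 0, 2, 2, 2], [2, 0, 2, 2, 0, 2, 2, 1, 0, 1, 2], [2, 0, 2, 2, 0, 2, 2, 1, 0, 2], [1, 0, 0, 2, 0, 1, 0, 0, 2, 0], [2, 2, 0, 0, 0, 2, 0, 0, 0, 2, 2]]),
  (64, [[], [0, 2, 2, 0, 1, 2, 2, 0, 2, 2], [0, 1, 2, 2, 0, 1, 0, 1, 2, 2, 2, 1, 0, 0], [2, 2, 0, 0, 2, 1, 2, 1, 0, 2, 0, 2, 2]])]

set_option maxRecDepth 1000000 in
theorem tab_ok : ∀ k : Fin 4, ∀ v : Fin 256, ∀ i : I8,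
    (omat k).mulVec (vecOf v) i = vecOf (tab k v) i := by
  decide +kernel

set_option maxRecDepth 1000000 in
theorem tab_lt : ∀ k : Fin 4, ∀ v : Fin 256, tab k v < 256 := by
  decide +kernel

theorem tab_ge (k v : ℕ) (hk : 4 ≤ k) : tab k v = v := by
  unfold tab
  have hl : tabs.length = 4 := rfl
  have h1 : tabs.getD k [] = [] := List.getD_eq_default _ _ (by rw [hl]; exact hk)
  rw [h1]
  rfl

/-- one level of the check -/
def levelOK (prev : List ℕ) (b : ℕ) (ws : List (List ℕ)) : Bool :=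
  ws.all (fun w => prev.all (fun c => actW w c == c)) &&
    decide ((ws.map (fun w => actW w b)).Nodup)

/-- the whole check -/
def chkAll : List ℕ → List (ℕ × List (List ℕ)) → Bool
  | _, [] => true
  | prev, (b, ws) :: rest =>
    decide (b < 256) && prev.all (fun c => decide (c < 256)) && levelOK prev b ws &&
      chkAll (b :: prev) rest

set_option maxRecDepth 1000000 in
theorem chk_ok : chkAll [] levels = true := by
  decide +kernel

set_option maxRecDepth 1000000 in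
theorem prod_levels : (levels.map (fun l => l.2.length)).prod = 174182400 := by
  decide +kernel

/-! ### the chain -/

section

variable (H : Subgroup O8) (hH : ∀ m < 4, ∃ h ∈ H, mt h = omat m)

/-- elements of `H` with the four matrices -/
noncomputable def gen (k : ℕ) : O8 :=
  if h : k < 4 then Classical.choose (hH k h) else 1

theorem gen_mem (k : ℕ) : gen H hH k ∈ H := by
  unfold gen
  split_ifs with h
  · exact (Classical.choose_spec (hH k h)).1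
  · exact H.one_mem

theorem gen_coe (k : ℕ) (hk : k < 4) : mt (gen H hH k) = omat k := by
  unfold gen
  rw [dif_pos hk]
  exact (Classical.choose_spec (hH k hk)).2

theorem gen_ge (k : ℕ) (hk : ¬ k < 4) : gen H hH k = 1 := by
  unfold gen
  rw [dif_neg hk]

/-- the element of a word -/
noncomputable def prodW (w : List ℕ) : O8 := (w.map (gen H hH)).prod

theorem prodW_mem (w : List ℕ) : prodW H hH w ∈ H := by
  unfold prodW
  apply Subgroup.list_prod_mem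
  intro x hx
  obtain ⟨k, _, rfl⟩ := List.mem_map.1 hx
  exact gen_mem H hH k

theorem act_prodW (w : List ℕ) : ∀ v : ℕ, v < 256 →
    mt (prodW H hH w) *ᵥ vecOf v = vecOf (actW w v) ∧ actW w v < 256 := by
  induction w with
  | nil =>
    intro v hv
    have e : mt (prodW H hH []) = 1 := rfl
    rw [e, Matrix.one_mulVec]
    exact ⟨rfl, hv⟩
  | cons k w ih =>
    intro v hv
    obtain ⟨h1, h2⟩ := ih v hv
    have e : mt (prodW H hH (k :: w)) = mt (gen H hH k) * mt (prodW H hH w) := by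
      unfold prodW
      rw [List.map_cons, List.prod_cons]
      rfl
    have a : actW (k :: w) v = tab k (actW w v) := rfl
    rw [e, a, ← Matrix.mulVec_mulVec, h1]
    by_cases hk : k < 4
    · rw [gen_coe H hH k hk]
      constructor
      · funext i
        exact tab_ok ⟨k, hk⟩ ⟨actW w v, h2⟩ i
      · exact tab_lt ⟨k, hk⟩ ⟨actW w v, h2⟩
    · rw [gen_ge H hH k hk, tab_ge k _ (by omega)]
      rw [mt_one, Matrix.one_mulVec]
      exact ⟨rfl, h2⟩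

/-- the chain of stabilisers -/
def Kc : List ℕ → Subgroup O8
  | [] => H
  | c :: cs => Kc cs ⊓ stabV (vecOf c)

theorem mem_Kc (prev : List ℕ) (g : O8) :
    g ∈ Kc H prev ↔ g ∈ H ∧ ∀ c ∈ prev, mt g *ᵥ vecOf c = vecOf c := by
  induction prev with
  | nil =>
    constructor
    · intro h
      exact ⟨h, fun c hc => absurd hc List.not_mem_nil⟩
    · intro h
      exact h.1
  | cons c cs ih =>
    show g ∈ Kc H cs ⊓ stabV (vecOf c) ↔ _
    rw [Subgroup.mem_inf, ih, mem_stabV]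
    constructor
    · rintro ⟨⟨h1, h2⟩, h3⟩
      refine ⟨h1, fun x hx => ?_⟩
      rcases List.mem_cons.1 hx with rfl | hx
      · exact h3
      · exact h2 x hx
    · rintro ⟨h1, h2⟩
      exact ⟨⟨h1, fun x hx => h2 x (List.mem_cons_of_mem _ hx)⟩, h2 c List.mem_cons_self⟩

theorem chain (hH' : ∀ m < 4, ∃ h ∈ H, mt h = omat m) :
    ∀ (lv : List (ℕ × List (List ℕ))) (prev : List ℕ), chkAll prev lv = true →
    (lv.map (fun l => l.2.length)).prod ≤ Nat.card ↥(Kc H prev)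
  | [], prev, _ => by
    rw [List.map_nil, List.prod_nil]
    exact Nat.card_pos
  | (b, ws) :: rest, prev, h => by
    simp only [chkAll, Bool.and_eq_true, decide_eq_true_eq] at h
    obtain ⟨⟨⟨hb, hprev⟩, hlev⟩, hrest⟩ := h
    have hH := hH'
    have ih := chain hH' rest (b :: prev) hrest
    simp only [levelOK, Bool.and_eq_true, decide_eq_true_eq, List.all_eq_true, beq_iff_eq] at hlev
    obtain ⟨hfix, hnd⟩ := hlev
    rw [List.all_eq_true] at hprev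
    have hcard := card_ge (Kc H prev) (vecOf b) ws.length (fun j => prodW H hH (ws[j])) (by
        intro j
        rw [mem_Kc]
        refine ⟨prodW_mem H hH _, fun c hc => ?_⟩
        have hc256 : c < 256 := by
          have := hprev c hc
          simpa using this
        rw [(act_prodW H hH (ws[j]) c hc256).1, hfix (ws[j]) (List.getElem_mem _) c hc]) (by
        intro j j' hjj
        rw [(act_prodW H hH (ws[j]) b hb).1, (act_prodW H hH (ws[j']) b hb).1] at hjj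
        have h1 := vecOf_inj (act_prodW H hH (ws[j]) b hb).2 (act_prodW H hH (ws[j']) b hb).2 hjj
        have h2 : (ws.map (fun w => actW w b))[(j : ℕ)]'(by simp) =
            (ws.map (fun w => actW w b))[(j' : ℕ)]'(by simp) := by
          rw [List.getElem_map, List.getElem_map]
          exact h1
        have h3 := (List.Nodup.getElem_inj_iff hnd).1 h2
        exact Fin.ext h3)
    rw [List.map_cons, List.prod_cons]
    calc ws.length * (rest.map (fun l => l.2.length)).prod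
        ≤ ws.length * Nat.card ↥(Kc H (b :: prev)) := Nat.mul_le_mul_left _ ih
      _ ≤ Nat.card ↥(Kc H prev) := hcard

end

/-- **[GENO]** -/
theorem main : Cfsg.Agent.Lib.Helper27.OzStmt.GenO := by
  intro H hH
  have h1 := chain H hH levels [] chk_ok
  rw [prod_levels] at h1
  exact h1

end Cfsg.Agent.Lib.Helper29.OzGENO
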