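import Mathlib
import Cfsg.Agent.Lib.Helper7.ReeSolvStmt
import Cfsg.Agent.Lib.Helper78.Fitting
import Cfsg.Agent.S0009
import Cfsg.Agent.S0044

/-!
# Piece FIT2 of S2361
-/

set_option autoImplicit false

namespace Cfsg.Agent.Lib.Helper29.RSFIT2

open Cfsg.Agent.Lib.Helper7.ReeSolvStmt Cfsg.Agent.Lib.Helper78.Fitting

universe u

theorem main : Fit2.{u} := by
  intro L _ _ hsolv hodd
  have h1 : Cfsg.fittingSubgroup L = Cfsg.pCore 2 L := by
    rw [Cfsg.Agent.S0009.result]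
    apply le_antisymm
    · apply iSup_le
      intro p
      by_cases hp2 : (p : ℕ) = 2
      · rw [hp2]
      · have : Fact (p : ℕ).Prime := ⟨p.2⟩
        rw [hodd p p.2 hp2 _ (pCore_normal p) (pCore_isPGroup p)]
        exact bot_le
    · exact le_iSup (fun p : Nat.Primes => Cfsg.pCore (p : ℕ) L) ⟨2, Nat.prime_two⟩
  have : Fact (Nat.Prime 2) := ⟨Nat.prime_two⟩
  refine ⟨Cfsg.fittingSubgroup L, fitting_normal, ?_, Cfsg.Agent.S0044.result⟩
  rw [h1]
  exact pCore_isPGroup 2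

end Cfsg.Agent.Lib.Helper29.RSFIT2
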