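import Mathlib
import Cfsg.Agent.Lib.Helper7.ReeSolvStmt

/-!
# Piece FITG of S2361
-/

set_option autoImplicit false

namespace Cfsg.Agent.Lib.Helper29.RSFITG

open Cfsg.Agent.Lib.Helper7.ReeSolvStmt

universe u

theorem le_normalizer_map {G : Type u} [Group G] (L : Subgroup G) (M0 : Subgroup ↥L)
    (hn : M0.Normal) : L ≤ Subgroup.normalizer ((M0.map L.subtype : Subgroup G) : Set G) := by
  intro x hx
  rw [Subgroup.mem_normalizer_iff]
  intro g
  constructor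
  · rintro ⟨f, hf, rfl⟩
    exact ⟨⟨x, hx⟩ * f * ⟨x, hx⟩⁻¹, hn.conj_mem f hf ⟨x, hx⟩, rfl⟩
  · rintro ⟨f, hf, hfe⟩
    refine ⟨⟨x, hx⟩⁻¹ * f * ⟨x, hx⟩, ?_, ?_⟩
    · have h1 := hn.conj_mem f hf ⟨x, hx⟩⁻¹
      rw [inv_inv] at h1
      exact h1
    · show x⁻¹ * (f : G) * x = g
      have h2 : (f : G) = x * g * x⁻¹ := hfe
      rw [h2]
      group

theorem main (h : Fit2.{u}) : FitG.{u} := by
  intro G _ _ L hsolv hL
  obtain ⟨F0, hF0n, hF0p, hF0c⟩ := h ↥L hsolv (by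
    intro p hp hp2 M0 hM0n hM0p
    have hM : M0.map L.subtype = ⊥ :=
      hL p hp hp2 (M0.map L.subtype) (Subgroup.map_subtype_le M0) (le_normalizer_map L M0 hM0n)
        (hM0p.map _)
    exact (Subgroup.map_eq_bot_iff_of_injective M0 L.subtype_injective).mp hM)
  refine ⟨F0.map L.subtype, Subgroup.map_subtype_le F0, le_normalizer_map L F0 hF0n,
    hF0p.map _, ?_⟩
  intro x hx hcomm
  have h1 : (⟨x, hx⟩ : ↥L) ∈ Subgroup.centralizer (F0 : Set ↥L) := by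
    rw [Subgroup.mem_centralizer_iff]
    intro f hf
    apply Subtype.ext
    exact (hcomm (f : G) ⟨f, hf, rfl⟩).symm
  exact ⟨⟨x, hx⟩, hF0c h1, rfl⟩

end Cfsg.Agent.Lib.Helper29.RSFITG
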