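import Mathlib
import Cfsg.Agent.Lib.Helper42.ReeDegStmt

set_option autoImplicit false
universe u v

namespace Cfsg.Agent.Lib.Helper29.ReeDegPARH

open Cfsg.Agent.Lib.Helper42.ReeDegStmt

section lemmas

variable {Γ : Type u} [Group Γ] {R : Subgroup Γ} {K : Type v} [Field K] [Fintype K]
  {φ : K →+* K} {x : K → K → K → Γ} {e : K → Γ}

theorem x_congr' (x : K → K → K → Γ) {a b c a' b' c' : K} (h1 : a = a') (h2 : b = b')
    (h3 : c = c') : x a b c = x a' b' c' := by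
  subst h1; subst h2; subst h3; rfl

theorem e_one (h : Par R K φ x e) : e 1 = 1 := by
  have h1 := h.e_mul 1 1 one_ne_zero one_ne_zero
  rw [mul_one] at h1
  exact mul_left_cancel (a := e 1) (by rw [← h1, mul_one])

theorem e_inv (h : Par R K φ x e) (s : K) (hs : s ≠ 0) : (e s)⁻¹ = e s⁻¹ := by
  rw [inv_eq_iff_mul_eq_one, ← h.e_mul s s⁻¹ hs (inv_ne_zero hs), mul_inv_cancel₀ hs, e_one h]

/-- `e(s) x(0,u,v) e(s)⁻¹ = x(0, φ(s)³/s u, s v)` -/
theorem e_conj (h : Par R K φ x e) (s : K) (hs : s ≠ 0) (u v : K) :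
    e s * x 0 u v * (e s)⁻¹ = x 0 (φ s ^ 3 / s * u) (s * v) := by
  rw [mul_inv_eq_iff_eq_mul, h.e_x s hs]
  congr 1
  apply x_congr' <;> ring

theorem x_mulZ (h : Par R K φ x e) (v v' : K) :
    x 0 0 v * x 0 0 v' = x 0 0 (v + v') := by
  rw [h.x_mul]
  simp only [map_zero]
  apply x_congr' <;> ring

end lemmas

/-- `PARH` of the S2343 plan. -/
theorem main : Cfsg.Agent.Lib.Helper42.ReeDegStmt.ParHP.{u, v} := by
  intro Γ _ R K _ _ φ x e h Z A U hM
  classical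
  -- the torus
  let H : Subgroup ↥R :=
    { carrier := {g | ∃ s : K, s ≠ 0 ∧ (g : Γ) = e s}
      mul_mem' := by
        rintro a b ⟨s, hs, ha⟩ ⟨s', hs', hb⟩
        refine ⟨s * s', mul_ne_zero hs hs', ?_⟩
        rw [Subgroup.coe_mul, ha, hb, h.e_mul s s' hs hs']
      one_mem' := ⟨1, one_ne_zero, by rw [Subgroup.coe_one, e_one h]⟩
      inv_mem' := by
        rintro a ⟨s, hs, ha⟩
        refine ⟨s⁻¹, inv_ne_zero hs, ?_⟩
        rw [Subgroup.coe_inv, ha, e_inv h s hs] }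
  have hHmem : ∀ g : ↥R, g ∈ H ↔ ∃ s : K, s ≠ 0 ∧ (g : Γ) = e s := fun g => Iff.rfl
  have hm1 : (-1 : K) ≠ 0 := neg_ne_zero.mpr one_ne_zero
  refine ⟨H, ⟨e (-1), h.e_mem (-1) hm1⟩, ?_, ?_, ?_, ?_, ?_, ?_⟩
  · -- normHA
    intro g hg a ha
    obtain ⟨s, hs, hgs⟩ := (hHmem g).mp hg
    obtain ⟨u, v, hv⟩ := (hM.memA a).mp ha
    refine (hM.memA _).mpr ⟨φ s ^ 3 / s * u, s * v, ?_⟩
    rw [Subgroup.coe_mul, Subgroup.coe_mul, Subgroup.coe_inv, hgs, hv, e_conj h s hs]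
  · -- normHZ
    intro g hg z hz
    obtain ⟨s, hs, hgs⟩ := (hHmem g).mp hg
    obtain ⟨v, hv⟩ := (hM.memZ z).mp hz
    refine (hM.memZ _).mpr ⟨s * v, ?_⟩
    rw [Subgroup.coe_mul, Subgroup.coe_mul, Subgroup.coe_inv, hgs, hv, e_conj h s hs]
    apply x_congr' <;> ring
  · -- cardH
    have hH : Nat.card H = Nat.card Kˣ := by
      symm
      apply Nat.card_eq_of_bijective
        (fun s : Kˣ => (⟨⟨e (s : K), h.e_mem _ s.ne_zero⟩, ⟨(s : K), s.ne_zero, rfl⟩⟩ : ↥H))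
      constructor
      · intro s s' hss
        have h1 : e (s : K) = e (s' : K) := congrArg (fun g : ↥H => ((g : ↥R) : Γ)) hss
        exact Units.ext (h.e_inj _ _ s.ne_zero s'.ne_zero h1)
      · intro g
        obtain ⟨s, hs, hgs⟩ := (hHmem g.1).mp g.2
        exact ⟨Units.mk0 s hs, Subtype.ext (Subtype.ext hgs.symm)⟩
    rw [hH, Nat.card_eq_fintype_card, Fintype.card_units]
  · -- stabH
    intro g hg hg1 z hz
    obtain ⟨s, hs, hgs⟩ := (hHmem g).mp hg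
    obtain ⟨v, hv⟩ := (hM.memZ z).mp hz
    have hs1 : s - 1 ≠ 0 := by
      intro h0
      apply hg1
      apply Subtype.ext
      rw [hgs, sub_eq_zero.mp h0, e_one h, Subgroup.coe_one]
    refine ⟨⟨x 0 0 (v / (s - 1)), h.x_mem _ _ _⟩, (hM.memZ _).mpr ⟨_, rfl⟩, ?_⟩
    apply Subtype.ext
    rw [Subgroup.coe_mul, Subgroup.coe_mul, Subgroup.coe_mul, Subgroup.coe_inv, Subgroup.coe_inv,
      hgs, hv]
    show e s * x 0 0 (v / (s - 1)) * (e s)⁻¹ * (x 0 0 (v / (s - 1)))⁻¹ = x 0 0 v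
    rw [e_conj h s hs, mul_inv_eq_iff_eq_mul, x_mulZ h]
    apply x_congr'
    · ring
    · ring
    · field_simp
      ring
  · -- tH
    exact ⟨-1, hm1, rfl⟩
  · -- tInv
    have : Fact (Nat.Prime 2) := ⟨Nat.prime_two⟩
    apply orderOf_eq_prime
    · apply Subtype.ext
      rw [pow_two, Subgroup.coe_mul, Subgroup.coe_one]
      show e (-1) * e (-1) = 1
      rw [← h.e_mul (-1) (-1) hm1 hm1]
      have h2 : (-1 : K) * (-1) = 1 := by ring
      rw [h2, e_one h]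
    · intro h1
      have h2 : e (-1) = e 1 := by
        have := congrArg (fun g : ↥R => (g : Γ)) h1
        simp only [Subgroup.coe_one] at this
        rw [this, e_one h]
      exact h.neg_one (h.e_inj _ _ hm1 one_ne_zero h2)

end Cfsg.Agent.Lib.Helper29.ReeDegPARH
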