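import Mathlib
import Cfsg.Agent.Lib.Helper42.ReeDegStmt

set_option autoImplicit false
universe u v

namespace Cfsg.Agent.Lib.Helper29.ReeDegPARU

open Cfsg.Agent.Lib.Helper42.ReeDegStmt

section lemmas

variable {Γ : Type u} [Group Γ] {R : Subgroup Γ} {K : Type v} [Field K] [Fintype K]
  {φ : K →+* K} {x : K → K → K → Γ} {e : K → Γ}

theorem x_congr (x : K → K → K → Γ) {a b c a' b' c' : K} (h1 : a = a') (h2 : b = b')
    (h3 : c = c') : x a b c = x a' b' c' := by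
  subst h1; subst h2; subst h3; rfl

theorem x_one (h : Par R K φ x e) : x 0 0 0 = 1 := by
  have h1 := h.x_mul 0 0 0 0 0 0
  have h2 : x 0 0 0 * x 0 0 0 = x 0 0 0 := by
    rw [h1]
    apply x_congr <;> simp
  exact mul_left_cancel (a := x 0 0 0) (by rw [h2, mul_one])

/-- `x(t,u,v) x(0,u',v') = x(0,u',v'+u't) x(t,u,v)` -/
theorem x_comm (h : Par R K φ x e) (t u v u' v' : K) :
    x t u v * x 0 u' v' = x 0 u' (v' + u' * t) * x t u v := by
  rw [h.x_mul, h.x_mul]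
  simp only [map_zero]
  apply x_congr <;> ring

theorem x_conj (h : Par R K φ x e) (t u v u' v' : K) :
    x t u v * x 0 u' v' * (x t u v)⁻¹ = x 0 u' (v' + u' * t) := by
  rw [mul_inv_eq_iff_eq_mul]
  exact x_comm h t u v u' v'

theorem x_mulA (h : Par R K φ x e) (u v u' v' : K) :
    x 0 u v * x 0 u' v' = x 0 (u + u') (v + v') := by
  rw [h.x_mul]
  simp only [map_zero]
  apply x_congr <;> ring

end lemmas

/-- `PARU` of the S2343 plan. -/
theorem main : Cfsg.Agent.Lib.Helper42.ReeDegStmt.ParUP.{u, v} := by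
  intro Γ _ R K _ _ φ x e h Z A U hM
  classical
  refine ⟨?_, ?_, ?_, ?_, ?_, ?_, ?_, ?_⟩
  · -- ZA
    intro g hg
    obtain ⟨v, hv⟩ := (hM.memZ g).mp hg
    exact (hM.memA g).mpr ⟨0, v, hv⟩
  · -- AU
    intro g hg
    obtain ⟨u, v, hv⟩ := (hM.memA g).mp hg
    exact (hM.memU g).mpr ⟨0, u, v, hv⟩
  · -- commA
    intro a ha b hb
    obtain ⟨u, v, hv⟩ := (hM.memA a).mp ha
    obtain ⟨u', v', hv'⟩ := (hM.memA b).mp hb
    apply Subtype.ext
    rw [Subgroup.coe_mul, Subgroup.coe_mul, hv, hv', x_mulA h, x_mulA h]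
    apply x_congr <;> ring
  · -- normU
    intro g hg a ha
    obtain ⟨t, u, v, hv⟩ := (hM.memU g).mp hg
    obtain ⟨u', v', hv'⟩ := (hM.memA a).mp ha
    refine (hM.memA _).mpr ⟨u', v' + u' * t, ?_⟩
    rw [Subgroup.coe_mul, Subgroup.coe_mul, Subgroup.coe_inv, hv, hv', x_conj h]
  · -- centZ
    intro g hg z hz
    obtain ⟨t, u, v, hv⟩ := (hM.memU g).mp hg
    obtain ⟨v', hv'⟩ := (hM.memZ z).mp hz
    apply Subtype.ext
    rw [Subgroup.coe_mul, Subgroup.coe_mul, Subgroup.coe_inv, hv, hv', x_conj h]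
    apply x_congr <;> ring
  · -- cardU
    have hU : Nat.card U = Nat.card (K × K × K) := by
      symm
      apply Nat.card_eq_of_bijective
        (fun p : K × K × K => (⟨⟨x p.1 p.2.1 p.2.2, h.x_mem _ _ _⟩,
          (hM.memU _).mpr ⟨_, _, _, rfl⟩⟩ : ↥U))
      constructor
      · intro p p' hpp
        have h1 : x p.1 p.2.1 p.2.2 = x p'.1 p'.2.1 p'.2.2 :=
          congrArg (fun g : ↥U => ((g : ↥R) : Γ)) hpp
        obtain ⟨h2, h3, h4⟩ := h.x_inj _ _ _ _ _ _ h1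
        exact Prod.ext h2 (Prod.ext h3 h4)
      · intro g
        obtain ⟨t, u, v, hv⟩ := (hM.memU g.1).mp g.2
        exact ⟨(t, u, v), Subtype.ext (Subtype.ext hv.symm)⟩
    have hA : Nat.card A = Nat.card (K × K) := by
      symm
      apply Nat.card_eq_of_bijective
        (fun p : K × K => (⟨⟨x 0 p.1 p.2, h.x_mem _ _ _⟩,
          (hM.memA _).mpr ⟨_, _, rfl⟩⟩ : ↥A))
      constructor
      · intro p p' hpp
        have h1 : x 0 p.1 p.2 = x 0 p'.1 p'.2 :=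
          congrArg (fun g : ↥A => ((g : ↥R) : Γ)) hpp
        obtain ⟨_, h3, h4⟩ := h.x_inj _ _ _ _ _ _ h1
        exact Prod.ext h3 h4
      · intro g
        obtain ⟨u, v, hv⟩ := (hM.memA g.1).mp g.2
        exact ⟨(u, v), Subtype.ext (Subtype.ext hv.symm)⟩
    rw [hU, hA, Nat.card_prod, Nat.card_prod, Nat.card_eq_fintype_card]
  · -- stabU
    intro g hg hgA z hz
    obtain ⟨t, u, v, hv⟩ := (hM.memU g).mp hg
    obtain ⟨w, hw⟩ := (hM.memZ z).mp hz
    have ht : t ≠ 0 := by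
      intro ht
      apply hgA
      exact (hM.memA g).mpr ⟨u, v, by rw [hv, ht]⟩
    refine ⟨⟨x 0 (w / t) 0, h.x_mem _ _ _⟩, (hM.memA _).mpr ⟨_, _, rfl⟩, ?_⟩
    apply Subtype.ext
    rw [Subgroup.coe_mul, Subgroup.coe_mul, Subgroup.coe_mul, Subgroup.coe_inv, Subgroup.coe_inv,
      hv, hw]
    show x t u v * x 0 (w / t) 0 * (x t u v)⁻¹ * (x 0 (w / t) 0)⁻¹ = x 0 0 w
    rw [x_conj h, mul_inv_eq_iff_eq_mul, x_mulA h]
    apply x_congr
    · ring
    · ring
    · field_simp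
      ring
  · -- exZ
    refine ⟨⟨x 0 0 1, h.x_mem _ _ _⟩, (hM.memZ _).mpr ⟨1, rfl⟩, ?_⟩
    intro h1
    have h2 : x 0 0 1 = x 0 0 0 := by
      have := congrArg (fun g : ↥R => (g : Γ)) h1
      simp only [Subgroup.coe_one] at this
      rw [this, x_one h]
    exact one_ne_zero (h.x_inj _ _ _ _ _ _ h2).2.2

end Cfsg.Agent.Lib.Helper29.ReeDegPARU
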