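import Mathlib
import Cfsg.Agent.Lib.Helper45.S9Stmt

/-!
# S3590 / AID (call by helper45): the translation by a nonzero vector has affine order 2
-/

set_option autoImplicit false

universe u

namespace Cfsg.Agent.Lib.Helper29.S9AID

open Cfsg.Agent.Lib.Helper45.S9Stmt

theorem main : AID.{u} := by
  intro F _ _ ι _ _ _ Q
  refine ⟨1, fun _ => 1, fun v => rfl, ?_, ?_⟩
  · intro j
    have h1 : ∀ i : ℕ, ((1 : (ι → F) ≃ₗ[F] (ι → F)) ^ i) (fun _ => (1 : F)) = fun _ => 1 := by
      intro i
      rw [one_pow]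
      rfl
    rw [one_pow, Finset.sum_congr rfl (fun i _ => h1 i), Finset.sum_const, Finset.card_range]
    constructor
    · rintro ⟨-, h⟩
      have := congrFun h (Classical.arbitrary ι)
      simp only [Pi.smul_apply, nsmul_eq_mul, mul_one, Pi.zero_apply] at this
      exact (CharP.cast_eq_zero_iff F 2 j).mp this
    · intro h
      refine ⟨rfl, ?_⟩
      funext x
      simp only [Pi.smul_apply, nsmul_eq_mul, mul_one, Pi.zero_apply]
      exact (CharP.cast_eq_zero_iff F 2 j).mpr h
  · have h0 : (1 : (ι → F) ≃ₗ[F] (ι → F)).toLinearMap - LinearMap.id = 0 := sub_self _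
    rw [h0, LinearMap.range_zero, finrank_bot]
    rfl

end Cfsg.Agent.Lib.Helper29.S9AID
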