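import Mathlib
import Cfsg.Agent.Lib.Helper45.S9Stmt

/-!
# S3590 / ANISO (call by helper45): an anisotropic binary form in characteristic 2
-/

set_option autoImplicit false

universe u

namespace Cfsg.Agent.Lib.Helper29.S9ANISO

open Cfsg.Agent.Lib.Helper45.S9Stmt Cfsg.Agent.Lib.Helper45.S8Stmt

theorem main : ANISO.{u} := by
  intro F _ _ _
  have h2 : (2 : F) = 0 := by exact_mod_cast (CharP.cast_eq_zero F 2)
  have hns : ¬ Function.Surjective (fun x : F => x ^ 2 + x) := by
    intro hs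
    have hi : Function.Injective (fun x : F => x ^ 2 + x) :=
      Finite.injective_iff_surjective.mpr hs
    have h01 : (fun x : F => x ^ 2 + x) 0 = (fun x : F => x ^ 2 + x) 1 := by
      simp only
      rw [zero_pow two_ne_zero, zero_add, one_pow, one_add_one_eq_two, h2]
    exact zero_ne_one (hi h01)
  obtain ⟨b, hb⟩ : ∃ b : F, ∀ x : F, x ^ 2 + x ≠ b := by
    by_contra hcon
    push Not at hcon
    exact hns (fun b => hcon b)
  refine ⟨1, b, ?_⟩
  intro z₁ z₂ h
  by_cases hz : z₂ = 0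
  · subst hz
    simp only [mul_zero, add_zero, ne_eq, OfNat.ofNat_ne_zero, not_false_eq_true, zero_pow,
      pow_eq_zero_iff] at h
    exact ⟨h, rfl⟩
  · exfalso
    apply hb (z₁ / z₂)
    have hz2 : z₂ ^ 2 ≠ 0 := pow_ne_zero 2 hz
    have key : (z₁ / z₂) ^ 2 + z₁ / z₂ - b
        = (z₁ ^ 2 + 1 * z₁ * z₂ + b * z₂ ^ 2) / z₂ ^ 2 - 2 * b := by
      field_simp
      ring
    rw [h, h2, zero_div, zero_mul, sub_zero] at key
    exact sub_eq_zero.mp key

end Cfsg.Agent.Lib.Helper29.S9ANISO
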