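import Mathlib
import Cfsg.Agent.Lib.Helper45.S9Stmt

/-!
# S3590 / TRANS (call by helper45): a finite group has a copy in `Type`
-/

set_option autoImplicit false

universe u

namespace Cfsg.Agent.Lib.Helper29.S9TRANS

open Cfsg.Agent.Lib.Helper45.S9Stmt

/-- a copy of `Fin n` without algebraic instances -/
structure Carrier (n : ℕ) : Type where
  /-- the underlying element -/
  val : Fin n

/-- `Carrier n ≃ Fin n` -/
def carrierEquiv (n : ℕ) : Carrier n ≃ Fin n :=
  ⟨Carrier.val, Carrier.mk, fun _ => rfl, fun _ => rfl⟩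

theorem main : TRANS.{u} := by
  intro G _ _
  let e : Carrier (Nat.card G) ≃ G := (carrierEquiv _).trans (Finite.equivFin G).symm
  refine ⟨Carrier (Nat.card G), e.group, Fintype.ofEquiv _ (carrierEquiv _).symm,
    (Fintype.ofEquiv_card _).trans (Fintype.card_fin _), ?_⟩
  let _ : Group (Carrier (Nat.card G)) := e.group
  let f : Carrier (Nat.card G) ≃* G := e.mulEquiv
  ext n
  constructor
  · rintro ⟨x, rfl⟩
    exact ⟨f x, f.orderOf_eq x⟩
  · rintro ⟨y, rfl⟩
    exact ⟨f.symm y, by rw [← f.orderOf_eq, f.apply_symm_apply]⟩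

end Cfsg.Agent.Lib.Helper29.S9TRANS
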