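import Cfsg.Agent.Lib.Helper29.TcTrace

/-!
# Concrete certificate layer: tables as natural-number literals, block checks
-/

namespace Cfsg.Agent.Lib.Helper29.TcCert

open Cfsg.Agent.Lib.Helper29.TcTrace

local notation "cndB(" b ", " t ", " e ")" => Bool.rec (motive := fun _ => Bool) e t b
local notation "cndN(" b ", " t ", " e ")" => Bool.rec (motive := fun _ => ℕ) e t b

/-- Entry of the table `T` at bit offset `x`. -/
noncomputable def look (msk T x : ℕ) : ℕ := Nat.land (Nat.shiftRight T x) msk

theorem look_le (msk T x : ℕ) : look msk T x ≤ msk := Nat.and_le_right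

theorem look_eq_zero {msk T x s : ℕ} (hT : T < 2 ^ s) (hx : s ≤ x) : look msk T x = 0 := by
  unfold look
  have : Nat.shiftRight T x = 0 := by
    change T >>> x = 0
    rw [Nat.shiftRight_eq_div_pow]
    exact Nat.div_eq_of_lt (lt_of_lt_of_le hT (Nat.pow_le_pow_right (by norm_num) hx))
  rw [this]
  exact Nat.zero_and _

theorem look_zero (msk x : ℕ) : look msk 0 x = 0 :=
  look_eq_zero (s := 0) (by norm_num) (Nat.zero_le _)

/-- Binary tree of words, indexed by the bits of the key (least significant first). A leaf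
records a base word index and a rotation amount besides the word. -/
inductive WTree where
  | leaf (bi rot : ℕ) (w : List ℕ) : WTree
  | node (l r : WTree) : WTree

noncomputable def WTree.get (t : WTree) : ℕ → List ℕ :=
  WTree.rec (motive := fun _ => ℕ → List ℕ) (fun _ _ w _ => w)
    (fun _ _ ihl ihr k => Nat.rec (motive := fun _ => List ℕ) (ihl (Nat.shiftRight k 1))
      (fun _ _ => ihr (Nat.shiftRight k 1)) (Nat.land k 1)) t

/-- The leaves with their hints. -/
def WTree.leaves : WTree → List (ℕ × ℕ × List ℕ)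
  | .leaf bi rot w => [(bi, rot, w)]
  | .node l r => l.leaves ++ r.leaves

theorem WTree.get_mem (t : WTree) : ∀ k, ∃ bi rot, (bi, rot, t.get k) ∈ t.leaves := by
  induction t with
  | leaf bi rot w => intro k; exact ⟨bi, rot, by simp [WTree.leaves, WTree.get]⟩
  | node l r ihl ihr =>
    intro k
    have hk : (node l r).get k = Nat.rec (motive := fun _ => List ℕ) (l.get (Nat.shiftRight k 1))
      (fun _ _ => r.get (Nat.shiftRight k 1)) (Nat.land k 1) := rfl
    rw [hk]
    cases Nat.land k 1 with
    | zero =>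
      obtain ⟨bi, rot, h⟩ := ihl (Nat.shiftRight k 1)
      exact ⟨bi, rot, by simp only [WTree.leaves, List.mem_append]; exact Or.inl h⟩
    | succ m =>
      obtain ⟨bi, rot, h⟩ := ihr (Nat.shiftRight k 1)
      exact ⟨bi, rot, by simp only [WTree.leaves, List.mem_append]; exact Or.inr h⟩

/-- Every leaf is a rotation of the base word it names. -/
def WTree.ok (t : WTree) (base : List (List ℕ)) : Prop :=
  ∀ l ∈ t.leaves, l.2.2 = (base.getD l.1 []).rotate l.2.1

instance (t : WTree) (base : List (List ℕ)) : Decidable (t.ok base) := by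
  unfold WTree.ok; infer_instance

theorem WTree.prod_get {G : Type*} [Group G] (γ : ℕ → G) (t : WTree) (base : List (List ℕ))
    (hok : t.ok base) (hbase : ∀ b ∈ base, (b.map γ).prod = 1) (k : ℕ) :
    ((t.get k).map γ).prod = 1 := by
  obtain ⟨bi, rot, h⟩ := t.get_mem k
  have h1 := hok _ h
  simp only at h1
  rw [h1, List.map_rotate]
  apply List.prod_rotate_eq_one_of_prod_eq_one
  by_cases hb : bi < base.length
  · rw [List.getD_eq_getElem _ _ hb]
    exact hbase _ (List.getElem_mem hb)
  · rw [List.getD_eq_default _ _ (by omega)]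
    simp

/-- The concrete trace data built from tables. -/
noncomputable def mkData (W WN n fuel msk : ℕ) (VL RL : List ℕ) (MG MT PAR PL FIN VERT : ℕ)
    (vtree : WTree) : Data where
  W := W
  WN := WN
  n := n
  fuel := fuel
  bad := WN
  val := fun c x => look msk (VL.getD c 0) x
  rk := fun c x => look msk (RL.getD c 0) x
  mg := fun x => look msk MG x
  mt := fun x => look msk MT x
  par := fun x => look msk PAR x
  pl := fun x => look msk PL x
  fin := fun x => look msk FIN x
  vert := fun j => look msk VERT (Nat.mul j W)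
  vt := vtree.get

/-- Layout of the justification stream. -/
structure Layout where
  sb : ℕ
  smsk : ℕ
  kb : ℕ
  kmsk : ℕ
  vrec : ℕ

noncomputable def chkCols (D : Data) (lay : Layout) (x J : ℕ) (live : Bool) (cols : List ℕ) :
    ℕ → Bool :=
  List.rec (motive := fun _ => ℕ → Bool) (fun _ => true)
    (fun c _ ih p => cndB(chkSlot D x c (look lay.kmsk J p) live, ih (Nat.add p lay.kb), false)) cols

noncomputable def chkVertex (D : Data) (lay : Layout) (cols : List ℕ) (J x p : ℕ) : Bool :=
  cndB(chkMerge D x (look lay.smsk J p) (look lay.kmsk J (Nat.add p lay.sb)),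
    chkCols D lay x J (Nat.beq (D.mt x) 0) cols (Nat.add p (Nat.add lay.sb lay.kb)), false)

noncomputable def chkBlock (D : Data) (lay : Layout) (cols : List ℕ) (J : ℕ) (cnt : ℕ) :
    ℕ → ℕ → Bool :=
  Nat.rec (motive := fun _ => ℕ → ℕ → Bool) (fun _ _ => true)
    (fun _ ih x p => cndB(chkVertex D lay cols J x p,
      ih (Nat.add x D.W) (Nat.add p lay.vrec), false)) cnt

/-- Block `b` (of size `B`, the last one cut at `N`) with justification stream `J`. -/
noncomputable def chkBlk (D : Data) (lay : Layout) (cols : List ℕ) (B N b J : ℕ) : Bool :=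
  chkBlock D lay cols J
    (cndN(Nat.ble B (Nat.sub N (Nat.mul B b)), B, Nat.sub N (Nat.mul B b)))
    (Nat.mul D.W (Nat.mul B b)) 0

theorem chkCols_sound (D : Data) (lay : Layout) (x J : ℕ) (live : Bool) (cols : List ℕ) :
    ∀ p, chkCols D lay x J live cols p = true → ∀ c ∈ cols, ∃ j, chkSlot D x c j live = true := by
  induction cols with
  | nil => intro p _ c hc; simp at hc
  | cons c0 cols ih =>
    intro p h c hc
    have h' : cndB(chkSlot D x c0 (look lay.kmsk J p) live,
        chkCols D lay x J live cols (Nat.add p lay.kb), false) = true := h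
    rw [cndB_eq_true] at h'
    rcases h' with ⟨h1, h2⟩ | ⟨_, h2⟩
    · rcases List.mem_cons.1 hc with rfl | hc
      · exact ⟨_, h1⟩
      · exact ih _ h2 c hc
    · exact absurd h2 (by simp)

theorem chkVertex_sound (D : Data) (lay : Layout) (cols : List ℕ) (ncolR : ℕ)
    (hcols : ∀ c, c < ncolR → c ∈ cols) (J x p : ℕ) (h : chkVertex D lay cols J x p = true) :
    VertexOK D ncolR x := by
  unfold chkVertex at h
  rw [cndB_eq_true] at h
  rcases h with ⟨h1, h2⟩ | ⟨_, h2⟩
  · exact ⟨⟨_, _, h1⟩, fun c hc => chkCols_sound D lay x J _ cols _ h2 c (hcols c hc)⟩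
  · exact absurd h2 (by simp)

theorem chkBlock_sound (D : Data) (lay : Layout) (cols : List ℕ) (ncolR : ℕ)
    (hcols : ∀ c, c < ncolR → c ∈ cols) (J : ℕ) (cnt : ℕ) :
    ∀ x p, chkBlock D lay cols J cnt x p = true → ∀ i, i < cnt → VertexOK D ncolR (x + D.W * i) := by
  induction cnt with
  | zero => intro x p _ i hi; omega
  | succ cnt ih =>
    intro x p h i hi
    have h' : cndB(chkVertex D lay cols J x p,
        chkBlock D lay cols J cnt (Nat.add x D.W) (Nat.add p lay.vrec), false) = true := h
    rw [cndB_eq_true] at h'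
    rcases h' with ⟨h1, h2⟩ | ⟨_, h2⟩
    · cases i with
      | zero => simpa using chkVertex_sound D lay cols ncolR hcols J x p h1
      | succ i =>
        have := ih _ _ h2 i (by omega)
        have e : Nat.add x D.W + D.W * i = x + D.W * (i + 1) := by
          change x + D.W + D.W * i = x + D.W * (i + 1)
          ring
        rw [e] at this
        exact this
    · exact absurd h2 (by simp)

theorem vertexOK_of_blks (D : Data) (lay : Layout) (cols : List ℕ) (ncolR : ℕ)
    (hcols : ∀ c, c < ncolR → c ∈ cols) (B N nb : ℕ) (hB : 0 < B) (hcov : N ≤ B * nb)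
    (h : ∀ b, b < nb → ∃ J, chkBlk D lay cols B N b J = true) :
    ∀ i, i < N → VertexOK D ncolR (D.W * i) := by
  intro i hi
  have hb : i / B < nb := by
    rw [Nat.div_lt_iff_lt_mul hB, Nat.mul_comm]
    exact lt_of_lt_of_le hi hcov
  obtain ⟨J, hJ⟩ := h (i / B) hb
  unfold chkBlk at hJ
  have hdm := Nat.div_add_mod i B
  have hm := Nat.mod_lt i hB
  have hcnt : i % B < cndN(Nat.ble B (Nat.sub N (Nat.mul B (i / B))), B, Nat.sub N (Nat.mul B (i / B))) := by
    cases hble : Nat.ble B (Nat.sub N (Nat.mul B (i / B))) with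
    | true => exact hm
    | false =>
      change i % B < N - B * (i / B)
      omega
  have := chkBlock_sound D lay cols ncolR hcols J _ _ _ hJ (i % B) hcnt
  have e : Nat.mul D.W (Nat.mul B (i / B)) + D.W * (i % B) = D.W * i := by
    change D.W * (B * (i / B)) + D.W * (i % B) = D.W * i
    rw [← Nat.mul_add, hdm]
  rw [e] at this
  exact this

section MkData

variable (W WN n fuel msk : ℕ) (VL RL : List ℕ) (MG MT PAR PL FIN VERT : ℕ) (vtree : WTree)

theorem getD_lt {L : List ℕ} {b : ℕ} (hb : 0 < b) (h : ∀ T ∈ L, T < b) (c : ℕ) : L.getD c 0 < b := by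
  by_cases hc : c < L.length
  · rw [List.getD_eq_getElem _ _ hc]; exact h _ (List.getElem_mem hc)
  · rw [List.getD_eq_default _ _ (by omega)]; exact hb

theorem mkData_rk_le (c x : ℕ) :
    (mkData W WN n fuel msk VL RL MG MT PAR PL FIN VERT vtree).rk c x ≤ msk := look_le _ _ _

theorem mkData_mt_le (x : ℕ) :
    (mkData W WN n fuel msk VL RL MG MT PAR PL FIN VERT vtree).mt x ≤ msk := look_le _ _ _

theorem mkData_bad (hR : ∀ T ∈ RL, T < 2 ^ WN) (c : ℕ) :
    (mkData W WN n fuel msk VL RL MG MT PAR PL FIN VERT vtree).rk c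
      (mkData W WN n fuel msk VL RL MG MT PAR PL FIN VERT vtree).bad = 0 :=
  look_eq_zero (getD_lt (Nat.pow_pos (by norm_num)) hR c) le_rfl

theorem mkData_not_valid_bad :
    ¬ Valid (mkData W WN n fuel msk VL RL MG MT PAR PL FIN VERT vtree)
      (mkData W WN n fuel msk VL RL MG MT PAR PL FIN VERT vtree).bad := by
  rw [valid_iff]
  intro h
  exact absurd h.2 (lt_irrefl _)

theorem mkData_hcol (ncolR : ℕ) (hVL : VL.length = ncolR)
    (hRH : ∀ c, ncolR ≤ c → RL.getD c 0 < 2 ^ W) (c x : ℕ)
    (hx : Valid (mkData W WN n fuel msk VL RL MG MT PAR PL FIN VERT vtree) x) (hc : ncolR ≤ c)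
    (hr : (mkData W WN n fuel msk VL RL MG MT PAR PL FIN VERT vtree).rk c x ≠ 0) :
    x = 0 ∧ (mkData W WN n fuel msk VL RL MG MT PAR PL FIN VERT vtree).val c x = 0 := by
  constructor
  · by_contra hx0
    apply hr
    rw [valid_iff] at hx
    have hWx : W ≤ x := Nat.le_of_dvd (Nat.pos_of_ne_zero hx0) (Nat.dvd_of_mod_eq_zero hx.1)
    exact look_eq_zero (hRH c hc) hWx
  · change look msk (VL.getD c 0) x = 0
    rw [List.getD_eq_default _ _ (by omega)]
    exact look_zero _ _

end MkData

end Cfsg.Agent.Lib.Helper29.TcCert
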