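import Cfsg.Agent.Lib.Helper29.TcCert

/-!
# Concrete permutation-representation layer (lower bound, orbits)

Points are offsets `WL * j`, `j < n`. Column `c` acts by the table `LL[c]` (left action).
-/

namespace Cfsg.Agent.Lib.Helper29.TcPerm

open Cfsg.Agent.Lib.Helper29.TcTrace Cfsg.Agent.Lib.Helper29.TcCert

local notation "cndB(" b ", " t ", " e ")" => Bool.rec (motive := fun _ => Bool) e t b
local notation "cndN(" b ", " t ", " e ")" => Bool.rec (motive := fun _ => ℕ) e t b

/-- Parameters of the permutation representation. -/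
structure LP where
  WL : ℕ
  WLn : ℕ
  mskL : ℕ
  LL : List ℕ
  cols : List ℕ
  rels : List (List ℕ)
  hws : List (List ℕ)
  twl : List (List ℕ)
  nH : ℕ
  bounds : List ℕ

noncomputable def lk (P : LP) (c q : ℕ) : ℕ := look P.mskL (P.LL.getD c 0) q

noncomputable def runL (P : LP) (w : List ℕ) (q : ℕ) : ℕ :=
  List.rec (motive := fun _ => ℕ) q (fun c _ ih => lk P c ih) w

theorem runL_nil (P : LP) (q : ℕ) : runL P [] q = q := rfl
theorem runL_cons (P : LP) (c : ℕ) (w : List ℕ) (q : ℕ) : runL P (c :: w) q = lk P c (runL P w q) := rfl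

noncomputable def validL (P : LP) (q : ℕ) : Bool :=
  cndB(Nat.beq (Nat.mod q P.WL) 0, Nat.blt q P.WLn, false)

noncomputable def sameCls (bounds : List ℕ) (p q : ℕ) : Bool :=
  List.rec (motive := fun _ => Bool) true
    (fun b _ ih => cndB(Nat.ble b p, cndB(Nat.ble b q, ih, false), cndB(Nat.ble b q, false, ih))) bounds

noncomputable def isStart (bounds : List ℕ) (q : ℕ) : Bool :=
  List.rec (motive := fun _ => Bool) false (fun b _ ih => cndB(Nat.beq b q, true, ih)) bounds

noncomputable def chkImg (P : LP) (q : ℕ) : Bool :=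
  List.rec (motive := fun _ => Bool) true (fun c _ ih => cndB(validL P (lk P c q), ih, false)) P.cols

noncomputable def chkRels (P : LP) (q : ℕ) : Bool :=
  List.rec (motive := fun _ => Bool) true
    (fun w _ ih => cndB(Nat.beq (runL P w q) q, ih, false)) P.rels

noncomputable def chkHws (P : LP) (q : ℕ) : Bool :=
  List.rec (motive := fun _ => Bool) true
    (fun w _ ih => cndB(sameCls P.bounds (runL P w q) q, ih, false)) P.hws

noncomputable def chkTree (P : LP) (q hint : ℕ) : Bool :=
  cndB(Nat.beq q 0, true, Nat.rec (motive := fun _ => Bool) false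
    (fun k _ => cndB(Nat.blt (runL P (P.twl.getD (Nat.succ k) []) q) q,
      cndB(Nat.ble (Nat.succ k) P.nH, true, isStart P.bounds q), false)) hint)

noncomputable def chkPoint (P : LP) (q hint : ℕ) : Bool :=
  cndB(chkImg P q, cndB(chkRels P q, cndB(chkHws P q, chkTree P q hint, false), false), false)

noncomputable def chkPBlock (P : LP) (hb hmsk J : ℕ) (cnt : ℕ) : ℕ → ℕ → Bool :=
  Nat.rec (motive := fun _ => ℕ → ℕ → Bool) (fun _ _ => true)
    (fun _ ih q p => cndB(chkPoint P q (look hmsk J p), ih (Nat.add q P.WL) (Nat.add p hb), false)) cnt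

noncomputable def chkPBlk (P : LP) (hb hmsk B n b J : ℕ) : Bool :=
  chkPBlock P hb hmsk J
    (cndN(Nat.ble B (Nat.sub n (Nat.mul B b)), B, Nat.sub n (Nat.mul B b)))
    (Nat.mul P.WL (Nat.mul B b)) 0

/-- What the checks of one point give. -/
def PointOK (P : LP) (q : ℕ) : Prop := ∃ hint, chkPoint P q hint = true

theorem chkPBlock_sound (P : LP) (hb hmsk J : ℕ) (cnt : ℕ) :
    ∀ q p, chkPBlock P hb hmsk J cnt q p = true → ∀ i, i < cnt → PointOK P (q + P.WL * i) := by
  induction cnt with
  | zero => intro q p _ i hi; omega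
  | succ cnt ih =>
    intro q p h i hi
    have h' : cndB(chkPoint P q (look hmsk J p),
        chkPBlock P hb hmsk J cnt (Nat.add q P.WL) (Nat.add p hb), false) = true := h
    rw [cndB_eq_true] at h'
    rcases h' with ⟨h1, h2⟩ | ⟨_, h2⟩
    · cases i with
      | zero => exact ⟨_, by simpa using h1⟩
      | succ i =>
        have := ih _ _ h2 i (by omega)
        have e : Nat.add q P.WL + P.WL * i = q + P.WL * (i + 1) := by
          change q + P.WL + P.WL * i = q + P.WL * (i + 1)
          ring
        rw [e] at this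
        exact this
    · exact absurd h2 (by simp)

theorem pointOK_of_blks (P : LP) (hb hmsk B n nb : ℕ) (hB : 0 < B) (hcov : n ≤ B * nb)
    (h : ∀ b, b < nb → ∃ J, chkPBlk P hb hmsk B n b J = true) :
    ∀ i, i < n → PointOK P (P.WL * i) := by
  intro i hi
  have hb' : i / B < nb := by
    rw [Nat.div_lt_iff_lt_mul hB, Nat.mul_comm]
    exact lt_of_lt_of_le hi hcov
  obtain ⟨J, hJ⟩ := h (i / B) hb'
  unfold chkPBlk at hJ
  have hdm := Nat.div_add_mod i B
  have hm := Nat.mod_lt i hB
  have hcnt : i % B < cndN(Nat.ble B (Nat.sub n (Nat.mul B (i / B))), B, Nat.sub n (Nat.mul B (i / B))) := by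
    cases hble : Nat.ble B (Nat.sub n (Nat.mul B (i / B))) with
    | true => exact hm
    | false =>
      change i % B < n - B * (i / B)
      omega
  have := chkPBlock_sound P hb hmsk J _ _ _ hJ (i % B) hcnt
  have e : Nat.mul P.WL (Nat.mul B (i / B)) + P.WL * (i % B) = P.WL * i := by
    change P.WL * (B * (i / B)) + P.WL * (i % B) = P.WL * i
    rw [← Nat.mul_add, hdm]
  rw [e] at this
  exact this

theorem sameCls_iff (bounds : List ℕ) (p q : ℕ) :
    sameCls bounds p q = true ↔ ∀ b ∈ bounds, (b ≤ p ↔ b ≤ q) := by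
  induction bounds with
  | nil => simp [sameCls]
  | cons b0 bounds ih =>
    have h : sameCls (b0 :: bounds) p q = cndB(Nat.ble b0 p, cndB(Nat.ble b0 q, sameCls bounds p q, false),
        cndB(Nat.ble b0 q, false, sameCls bounds p q)) := rfl
    rw [h]
    cases hp : Nat.ble b0 p <;> cases hq : Nat.ble b0 q <;>
      simp only [List.mem_cons, forall_eq_or_imp, ih, ← Nat.ble_eq, hp, hq] <;> simp

theorem isStart_iff (bounds : List ℕ) (q : ℕ) : isStart bounds q = true ↔ q ∈ bounds := by
  induction bounds with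
  | nil => simp [isStart]
  | cons b0 bounds ih =>
    have h : isStart (b0 :: bounds) q = cndB(Nat.beq b0 q, true, isStart bounds q) := rfl
    rw [h, cndB_eq_true, ih]
    simp only [and_true, List.mem_cons]
    constructor
    · rintro (h1 | ⟨_, h2⟩)
      · exact Or.inl (Nat.eq_of_beq_eq_true h1).symm
      · exact Or.inr h2
    · rintro (rfl | h2)
      · exact Or.inl (Nat.beq_refl _)
      · cases hbq : Nat.beq b0 q with
        | true => exact Or.inl rfl
        | false => exact Or.inr ⟨rfl, h2⟩

theorem all_rec_sound {α : Type} (f : α → Bool) (l : List α)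
    (h : List.rec (motive := fun _ => Bool) true (fun a _ ih => cndB(f a, ih, false)) l = true) :
    ∀ a ∈ l, f a = true := by
  induction l with
  | nil => intro a ha; simp at ha
  | cons a0 l ih =>
    have h' : cndB(f a0, List.rec (motive := fun _ => Bool) true (fun a _ ih => cndB(f a, ih, false)) l, false) = true := h
    rw [cndB_eq_true] at h'
    rcases h' with ⟨h1, h2⟩ | ⟨_, h2⟩
    · intro a ha
      rcases List.mem_cons.1 ha with rfl | ha
      · exact h1
      · exact ih h2 a ha
    · exact absurd h2 (by simp)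

/-- The facts extracted from the check of one point. -/
theorem pointOK_facts (P : LP) (q : ℕ) (h : PointOK P q) :
    (∀ c ∈ P.cols, validL P (lk P c q) = true) ∧ (∀ w ∈ P.rels, runL P w q = q) ∧
    (∀ w ∈ P.hws, ∀ b ∈ P.bounds, (b ≤ runL P w q ↔ b ≤ q)) ∧
    (q ≠ 0 → ∃ k, runL P (P.twl.getD (k + 1) []) q < q ∧ (k + 1 ≤ P.nH ∨ q ∈ P.bounds)) := by
  obtain ⟨hint, h⟩ := h
  unfold chkPoint at h
  rw [cndB_eq_true] at h
  rcases h with ⟨h1, h⟩ | ⟨_, h⟩
  swap
  · exact absurd h (by simp)
  rw [cndB_eq_true] at h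
  rcases h with ⟨h2, h⟩ | ⟨_, h⟩
  swap
  · exact absurd h (by simp)
  rw [cndB_eq_true] at h
  rcases h with ⟨h3, h4⟩ | ⟨_, h⟩
  swap
  · exact absurd h (by simp)
  refine ⟨all_rec_sound (fun c => validL P (lk P c q)) P.cols h1, ?_, ?_, ?_⟩
  · intro w hw
    exact Nat.eq_of_beq_eq_true (all_rec_sound (fun w => Nat.beq (runL P w q) q) P.rels h2 w hw)
  · intro w hw
    exact (sameCls_iff _ _ _).1 (all_rec_sound (fun w => sameCls P.bounds (runL P w q) q) P.hws h3 w hw)
  · intro hq
    unfold chkTree at h4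
    rw [cndB_eq_true] at h4
    rcases h4 with ⟨h0, _⟩ | ⟨_, h4⟩
    · exact absurd (Nat.eq_of_beq_eq_true h0) hq
    cases hint with
    | zero => exact absurd h4 (by simp)
    | succ k =>
      change cndB(Nat.blt (runL P (P.twl.getD (Nat.succ k) []) q) q,
        cndB(Nat.ble (Nat.succ k) P.nH, true, isStart P.bounds q), false) = true at h4
      rw [cndB_eq_true] at h4
      rcases h4 with ⟨hlt, h5⟩ | ⟨_, h5⟩
      swap
      · exact absurd h5 (by simp)
      refine ⟨k, by simpa using hlt, ?_⟩
      rw [cndB_eq_true] at h5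
      rcases h5 with ⟨h6, _⟩ | ⟨_, h6⟩
      · exact Or.inl (Nat.le_of_ble_eq_true h6)
      · exact Or.inr ((isStart_iff _ _).1 h6)

/-- validity of a point -/
def ValidL (P : LP) (q : ℕ) : Prop := validL P q = true

theorem validL_iff (P : LP) (q : ℕ) : ValidL P q ↔ q % P.WL = 0 ∧ q < P.WLn := by
  unfold ValidL validL
  rw [cndB_eq_true]
  simp only [Nat.blt_eq, Bool.false_eq_true, and_false, or_false]
  constructor
  · rintro ⟨h1, h2⟩; exact ⟨Nat.eq_of_beq_eq_true h1, h2⟩
  · rintro ⟨h1, h2⟩; exact ⟨by rw [show Nat.mod q P.WL = 0 from h1]; rfl, h2⟩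

noncomputable instance decValidL (P : LP) (q : ℕ) : Decidable (ValidL P q) := by unfold ValidL; infer_instance

/-- Standing assumptions on the permutation data. -/
structure LHyp (P : LP) (ncolR n : ℕ) (invC : ℕ → ℕ) : Prop where
  hWL : 0 < P.WL
  hWLn : P.WLn = P.WL * n
  hn : 0 < n
  hpt : ∀ i, i < n → PointOK P (P.WL * i)
  hcols : ∀ c, c < ncolR → c ∈ P.cols
  hinv : ∀ c, c < ncolR → invC c < ncolR ∧ invC (invC c) = c ∧ [c, invC c] ∈ P.rels

section Perm

variable {P : LP} {ncolR n : ℕ} {invC : ℕ → ℕ}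

theorem LHyp.pointOK (h : LHyp P ncolR n invC) {q : ℕ} (hq : ValidL P q) : PointOK P q := by
  rw [validL_iff, h.hWLn] at hq
  have e : q = P.WL * (q / P.WL) := (Nat.mul_div_cancel' (Nat.dvd_of_mod_eq_zero hq.1)).symm
  rw [e]
  apply h.hpt
  rw [Nat.div_lt_iff_lt_mul h.hWL, Nat.mul_comm]
  exact hq.2

theorem LHyp.valid_zero (h : LHyp P ncolR n invC) : ValidL P 0 := by
  rw [validL_iff, h.hWLn]
  exact ⟨Nat.zero_mod _, Nat.mul_pos h.hWL h.hn⟩

theorem LHyp.valid_lk (h : LHyp P ncolR n invC) {c q : ℕ} (hc : c < ncolR) (hq : ValidL P q) :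
    ValidL P (lk P c q) :=
  (pointOK_facts P q (h.pointOK hq)).1 c (h.hcols c hc)

theorem LHyp.lk_inv (h : LHyp P ncolR n invC) {c q : ℕ} (hc : c < ncolR) (hq : ValidL P q) :
    lk P c (lk P (invC c) q) = q :=
  (pointOK_facts P q (h.pointOK hq)).2.1 _ (h.hinv c hc).2.2

/-- The action of a column on all natural numbers. -/
noncomputable def actC (P : LP) (c q : ℕ) : ℕ := if ValidL P q then lk P c q else q

/-- The permutation attached to a column. -/
noncomputable def permC (h : LHyp P ncolR n invC) (c : ℕ) : Equiv.Perm ℕ :=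
  if hc : c < ncolR then
    { toFun := actC P c
      invFun := actC P (invC c)
      left_inv := by
        intro q
        unfold actC
        by_cases hq : ValidL P q
        · rw [if_pos hq, if_pos (h.valid_lk hc hq)]
          have := h.lk_inv (h.hinv c hc).1 hq
          rw [(h.hinv c hc).2.1] at this
          exact this
        · rw [if_neg hq, if_neg hq]
      right_inv := by
        intro q
        unfold actC
        by_cases hq : ValidL P q
        · rw [if_pos hq, if_pos (h.valid_lk (h.hinv c hc).1 hq)]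
          exact h.lk_inv hc hq
        · rw [if_neg hq, if_neg hq] }
  else 1

theorem permC_apply (h : LHyp P ncolR n invC) {c : ℕ} (hc : c < ncolR) (q : ℕ) :
    permC h c q = actC P c q := by
  unfold permC
  rw [dif_pos hc]
  rfl

theorem permC_valid (h : LHyp P ncolR n invC) {c : ℕ} (hc : c < ncolR) {q : ℕ} (hq : ValidL P q) :
    permC h c q = lk P c q := by
  rw [permC_apply h hc, actC, if_pos hq]

theorem permC_invalid (h : LHyp P ncolR n invC) (c : ℕ) {q : ℕ} (hq : ¬ ValidL P q) :
    permC h c q = q := by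
  by_cases hc : c < ncolR
  · rw [permC_apply h hc, actC, if_neg hq]
  · unfold permC; rw [dif_neg hc]; rfl

theorem permC_inv (h : LHyp P ncolR n invC) {c : ℕ} (hc : c < ncolR) :
    permC h (invC c) = (permC h c)⁻¹ := by
  rw [eq_inv_iff_mul_eq_one]
  ext q
  rw [Equiv.Perm.mul_apply, Equiv.Perm.one_apply]
  by_cases hq : ValidL P q
  · rw [permC_valid h hc hq, permC_valid h (h.hinv c hc).1 (h.valid_lk hc hq)]
    have := h.lk_inv (h.hinv c hc).1 hq
    rw [(h.hinv c hc).2.1] at this
    exact this
  · rw [permC_invalid h c hq, permC_invalid h _ hq]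

/-- The permutation of a word of columns. -/
noncomputable def permW (h : LHyp P ncolR n invC) (w : List ℕ) : Equiv.Perm ℕ :=
  (w.map (permC h)).prod

theorem permW_valid (h : LHyp P ncolR n invC) (w : List ℕ) (hw : ∀ c ∈ w, c < ncolR) :
    ∀ q, ValidL P q → ValidL P (runL P w q) ∧ permW h w q = runL P w q := by
  induction w with
  | nil => intro q hq; exact ⟨hq, rfl⟩
  | cons c w ih =>
    intro q hq
    obtain ⟨h1, h2⟩ := ih (fun c hc => hw c (List.mem_cons_of_mem _ hc)) q hq
    have hc : c < ncolR := hw c List.mem_cons_self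
    rw [runL_cons]
    refine ⟨h.valid_lk hc h1, ?_⟩
    unfold permW at h2 ⊢
    rw [List.map_cons, List.prod_cons, Equiv.Perm.mul_apply, h2, permC_valid h hc h1]

theorem permW_invalid (h : LHyp P ncolR n invC) (w : List ℕ) {q : ℕ} (hq : ¬ ValidL P q) :
    permW h w q = q := by
  induction w with
  | nil => rfl
  | cons c w ih =>
    unfold permW at ih ⊢
    rw [List.map_cons, List.prod_cons, Equiv.Perm.mul_apply, ih, permC_invalid h c hq]

theorem permW_apply_valid (h : LHyp P ncolR n invC) (w : List ℕ) (q : ℕ) (hq : ValidL P q) :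
    ValidL P (permW h w q) := by
  induction w generalizing q with
  | nil => exact hq
  | cons c w ih =>
    unfold permW at ih ⊢
    rw [List.map_cons, List.prod_cons, Equiv.Perm.mul_apply]
    have := ih q hq
    by_cases hc : c < ncolR
    · rw [permC_valid h hc this]; exact h.valid_lk hc this
    · unfold permC; rw [dif_neg hc]; exact this

theorem permW_rel (h : LHyp P ncolR n invC) (w : List ℕ) (hw : ∀ c ∈ w, c < ncolR)
    (hrel : w ∈ P.rels) : permW h w = 1 := by
  ext q
  rw [Equiv.Perm.one_apply]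
  by_cases hq : ValidL P q
  · rw [(permW_valid h w hw q hq).2]
    exact (pointOK_facts P q (h.pointOK hq)).2.1 w hrel
  · exact permW_invalid h w hq

theorem permW_append (h : LHyp P ncolR n invC) (w w' : List ℕ) :
    permW h (w ++ w') = permW h w * permW h w' := by
  unfold permW
  rw [List.map_append, List.prod_append]

end Perm

end Cfsg.Agent.Lib.Helper29.TcPerm
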