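import Cfsg.Agent.Lib.Helper29.TcIndex
import Cfsg.Agent.Lib.Helper29.TcPerm
import Cfsg.Prelude.Def_SporCoxeter

/-!
# Index and orbits of a subgroup of a Coxeter-presented group from a certificate
-/

namespace Cfsg.Agent.Lib.Helper29.TcCox

open Cfsg.Agent.Lib.Helper29.TcTrace Cfsg.Agent.Lib.Helper29.TcCert Cfsg.Agent.Lib.Helper29.TcPerm
open Cfsg.Agent.Lib.Helper29 Cfsg.Spor

variable {α : Type}

/-- pairs `(x, y)` with `x` not after `y` in the list -/
def coxPairs : List α → List (α × α)
  | [] => []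
  | x :: t => (x, x) :: ((t.map fun y => (x, y)) ++ coxPairs t)

theorem coxPairs_mem (l : List α) (x y : α) (hx : x ∈ l) (hy : y ∈ l) :
    (x, y) ∈ coxPairs l ∨ (y, x) ∈ coxPairs l := by
  induction l with
  | nil => simp at hx
  | cons a t ih =>
    simp only [coxPairs, List.mem_cons, List.mem_append, List.mem_map, Prod.mk.injEq]
    rcases List.mem_cons.1 hx with rfl | hx' <;> rcases List.mem_cons.1 hy with rfl | hy'
    · exact Or.inl (Or.inl ⟨rfl, rfl⟩)
    · exact Or.inl (Or.inr (Or.inl ⟨y, hy', rfl, rfl⟩))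
    · exact Or.inr (Or.inr (Or.inl ⟨x, hx', rfl, rfl⟩))
    · rcases ih hx' hy' with h | h
      · exact Or.inl (Or.inr (Or.inr h))
      · exact Or.inr (Or.inr (Or.inr h))

theorem coxPairs_mem_left (l : List α) (p : α × α) (hp : p ∈ coxPairs l) : p.1 ∈ l ∧ p.2 ∈ l := by
  induction l with
  | nil => simp [coxPairs] at hp
  | cons a t ih =>
    simp only [coxPairs, List.mem_cons, List.mem_append, List.mem_map] at hp
    rcases hp with rfl | ⟨y, hy, rfl⟩ | h
    · exact ⟨List.mem_cons_self, List.mem_cons_self⟩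
    · exact ⟨List.mem_cons_self, List.mem_cons_of_mem _ hy⟩
    · exact ⟨List.mem_cons_of_mem _ (ih h).1, List.mem_cons_of_mem _ (ih h).2⟩

variable [DecidableEq α]

/-- the word of the Coxeter relator of a pair -/
def coxWord (edges : List (α × ℕ × α)) (p : α × α) : List (α × Bool) :=
  (List.replicate (coxLabel edges p.1 p.2) [(p.1, true), (p.2, true)]).flatten

theorem coxLabel_symm (edges : List (α × ℕ × α)) (x y : α) :
    coxLabel edges x y = coxLabel edges y x := by
  unfold coxLabel
  by_cases h : x = y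
  · subst h; rfl
  · rw [if_neg h, if_neg (fun h' => h h'.symm)]
    have : (fun e : α × ℕ × α => decide ((e.1 = x ∧ e.2.2 = y) ∨ (e.1 = y ∧ e.2.2 = x))) =
        (fun e : α × ℕ × α => decide ((e.1 = y ∧ e.2.2 = x) ∨ (e.1 = x ∧ e.2.2 = y))) := by
      funext e
      simp only [or_comm]
    rw [this]

section Glue

variable (edges : List (α × ℕ × α)) (extra : List (FreeGroup α))

/-- the element of the presented group spelled by a word -/
def lw (w : List (α × Bool)) : CoxPresented α edges extra :=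
  PresentedGroup.mk (coxRelators edges ∪ {r | r ∈ extra}) (FreeGroup.mk w)

theorem lw_nil : lw edges extra ([] : List (α × Bool)) = 1 := by
  unfold lw; rw [← FreeGroup.one_eq_mk, map_one]

theorem lw_append (w w' : List (α × Bool)) :
    lw edges extra (w ++ w') = lw edges extra w * lw edges extra w' := by
  unfold lw; rw [← FreeGroup.mul_mk, map_mul]

theorem lw_cons (l : α × Bool) (w : List (α × Bool)) :
    lw edges extra (l :: w) = lw edges extra [l] * lw edges extra w :=
  lw_append edges extra [l] w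

theorem lw_inv_letter (a : α) (b : Bool) :
    lw edges extra [(a, !b)] = (lw edges extra [(a, b)])⁻¹ := by
  unfold lw
  rw [← map_inv, FreeGroup.inv_mk]
  rfl

theorem lw_of_mem_rels {w : List (α × Bool)}
    (h : FreeGroup.mk w ∈ coxRelators edges ∪ {r | r ∈ extra}) : lw edges extra w = 1 :=
  PresentedGroup.one_of_mem h

theorem lw_replicate (u v : α × Bool) (m : ℕ) :
    lw edges extra (List.replicate m [u, v]).flatten = (lw edges extra [u] * lw edges extra [v]) ^ m := by
  induction m with
  | zero => simp [lw_nil]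
  | succ m ih =>
    rw [List.replicate_succ, List.flatten_cons, lw_append, ih, pow_succ', lw_cons edges extra u [v]]

theorem pair_rel {x y : α} (hx : x ∈ coxNodes edges) (hy : y ∈ coxNodes edges) :
    lw edges extra (coxWord edges (x, y)) = 1 := by
  apply lw_of_mem_rels
  left
  refine ⟨x, hx, y, hy, ?_⟩
  unfold coxWord
  generalize coxLabel edges x y = m
  induction m with
  | zero => simp [FreeGroup.one_eq_mk]
  | succ m ih =>
    rw [List.replicate_succ, List.flatten_cons, ← FreeGroup.mul_mk, ih, pow_succ']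
    rfl

theorem node_sq {x : α} (hx : x ∈ coxNodes edges) :
    lw edges extra [(x, true)] * lw edges extra [(x, true)] = 1 := by
  have h := pair_rel edges extra hx hx
  have h1 : coxLabel edges x x = 1 := by simp [coxLabel]
  unfold coxWord at h
  rw [h1] at h
  simp only [List.replicate_one, List.flatten_cons, List.flatten_nil, List.append_nil] at h
  rw [lw_cons] at h
  exact h

theorem node_inv {x : α} (hx : x ∈ coxNodes edges) :
    lw edges extra [(x, false)] = lw edges extra [(x, true)] := by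
  have h := lw_inv_letter edges extra x true
  simp only [Bool.not_true] at h
  rw [h]
  exact inv_eq_of_mul_eq_one_left (node_sq edges extra hx)

/-- the group element of a column -/
noncomputable def gam (colLetters : List (α × Bool)) (hWords : List (List (α × Bool))) (ncolR : ℕ)
    (c : ℕ) : CoxPresented α edges extra :=
  if c < ncolR then lw edges extra (colLetters[c]?).toList
  else (lw edges extra (hWords.getD (c - ncolR) []))⁻¹

end Glue

/-- All the facts about a certificate that the main theorem needs. -/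
structure CoxOK (edges : List (α × ℕ × α)) (extra : List (FreeGroup α)) (S : Set (FreeGroup α))
    (nodesL : List α) (extraWords hWords : List (List (α × Bool))) (colOf : α × Bool → ℕ)
    (colLetters : List (α × Bool)) (invL : List ℕ) (ncolR nH : ℕ)
    (D : Data) (W WN n fuel msk : ℕ) (VL RL : List ℕ) (MG MT PAR PL FIN VERT : ℕ) (vtree : WTree)
    (lay : Layout) (cols : List ℕ) (B N nb : ℕ) (baseL : List (List ℕ))
    (P : LP) (hb hmsk BL nbL : ℕ) : Prop where
  hnodes : ∀ x ∈ coxNodes edges, x ∈ nodesL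
  hnodes' : ∀ x ∈ nodesL, x ∈ coxNodes edges
  hextra : extra = extraWords.map FreeGroup.mk
  hS : ∀ x, x ∈ S ↔ x ∈ hWords.map FreeGroup.mk
  hcolOf : ∀ l : α × Bool, colOf l < ncolR ∧ (colLetters[colOf l]? = some l ∨
    (l.2 = false ∧ l.1 ∈ coxNodes edges ∧ colLetters[colOf l]? = some (l.1, true)))
  hround : ∀ c, c < ncolR → (colLetters[c]?).map colOf = some c
  hinvL : ∀ c, c < ncolR →
    (colLetters[c]?).map (fun l => colOf (l.1, !l.2)) = some (invL.getD c 0)
  hinvinv : ∀ c, c < ncolR → invL.getD (invL.getD c 0) 0 = c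
  hnH : hWords.length = nH
  hD : D = mkData W WN n fuel msk VL RL MG MT PAR PL FIN VERT vtree
  hW : 0 < W
  hWN : WN = W * N
  hN : 0 < N
  hRL : ∀ T ∈ RL, T < 2 ^ WN
  hVLlen : VL.length = ncolR
  hRLlen : RL.length = ncolR + nH
  hRH : ∀ T ∈ RL.drop ncolR, T < 2 ^ W
  hlive0 : D.mt 0 = 0
  hcols : ∀ c, c < ncolR → c ∈ cols
  hB : 0 < B
  hcov : N ≤ B * nb
  hblk : ∀ b, b < nb → ∃ J, chkBlk D lay cols B N b J = true
  hbase : baseL = (coxPairs nodesL).map (fun p => (coxWord edges p).map colOf) ++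
    extraWords.map (fun w => w.map colOf) ++ (List.range ncolR).map (fun c => [c, invL.getD c 0]) ++
    hWords.zipIdx.map (fun wk => wk.1.map colOf ++ [ncolR + wk.2])
  hvtree : vtree.ok baseL
  hWL : 0 < P.WL
  hPn : P.WLn = P.WL * n
  hn : 0 < n
  hPcols : ∀ c, c < ncolR → c ∈ P.cols
  hPrels : P.rels = (coxPairs nodesL).map (fun p => (coxWord edges p).map colOf) ++
    extraWords.map (fun w => w.map colOf) ++ (List.range ncolR).map (fun c => [c, invL.getD c 0])
  hPhws : P.hws = hWords.map (fun w => w.map colOf)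
  hPtwl : P.twl = [] :: (hWords.map (fun w => w.map colOf) ++ (List.range ncolR).map (fun c => [c]))
  hPnH : P.nH = nH
  hBL : 0 < BL
  hcovL : n ≤ BL * nbL
  hblkL : ∀ b, b < nbL → ∃ J, chkPBlk P hb hmsk BL n b J = true
  hbound1 : P.WL ∈ P.bounds
  hbv : ∀ b ∈ P.bounds, ValidL P b

section Main

variable {edges : List (α × ℕ × α)} {extra : List (FreeGroup α)} {S : Set (FreeGroup α)}
    {nodesL : List α} {extraWords hWords : List (List (α × Bool))} {colOf : α × Bool → ℕ}
    {colLetters : List (α × Bool)} {invL : List ℕ} {ncolR nH : ℕ}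
    {D : Data} {W WN n fuel msk : ℕ} {VL RL : List ℕ} {MG MT PAR PL FIN VERT : ℕ} {vtree : WTree}
    {lay : Layout} {cols : List ℕ} {B N nb : ℕ} {baseL : List (List ℕ)}
    {P : LP} {hb hmsk BL nbL : ℕ}

local notation "OK" => CoxOK edges extra S nodesL extraWords hWords colOf colLetters invL ncolR nH
    D W WN n fuel msk VL RL MG MT PAR PL FIN VERT vtree lay cols B N nb baseL P hb hmsk BL nbL
local notation "γ" => gam edges extra colLetters hWords ncolR
local notation "LW" => lw edges extra

theorem gam_colOf (ok : OK) (l : α × Bool) : γ (colOf l) = LW [l] := by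
  obtain ⟨hlt, h⟩ := ok.hcolOf l
  unfold gam
  rw [if_pos hlt]
  rcases h with h | ⟨h2, hn, h⟩
  · rw [h]; rfl
  · rw [h]
    obtain ⟨a, b⟩ := l
    simp only at h2 hn
    subst h2
    exact (node_inv edges extra hn).symm

theorem gam_word (ok : OK) (w : List (α × Bool)) : ((w.map colOf).map γ).prod = LW w := by
  induction w with
  | nil => simp [lw_nil]
  | cons l w ih =>
    rw [List.map_cons, List.map_cons, List.prod_cons, ih, gam_colOf ok, ← lw_cons]

theorem letter_of_col (ok : OK) {c : ℕ} (hc : c < ncolR) :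
    ∃ l, colLetters[c]? = some l ∧ colOf l = c ∧ invL.getD c 0 = colOf (l.1, !l.2) := by
  have h1 := ok.hround c hc
  have h2 := ok.hinvL c hc
  cases hl : colLetters[c]? with
  | none => rw [hl] at h1; simp at h1
  | some l =>
    rw [hl] at h1 h2
    simp only [Option.map_some, Option.some.injEq] at h1 h2
    exact ⟨l, rfl, h1, h2.symm⟩

theorem gam_inv (ok : OK) {c : ℕ} (hc : c < ncolR) : γ (invL.getD c 0) = (γ c)⁻¹ := by
  obtain ⟨l, hl, hcl, hinv⟩ := letter_of_col ok hc
  rw [hinv, gam_colOf ok, ← hcl, gam_colOf ok]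
  obtain ⟨a, b⟩ := l
  exact lw_inv_letter edges extra a b

theorem invL_lt (ok : OK) {c : ℕ} (hc : c < ncolR) : invL.getD c 0 < ncolR := by
  obtain ⟨l, _, _, hinv⟩ := letter_of_col ok hc
  rw [hinv]
  exact (ok.hcolOf _).1

theorem gam_gen (ok : OK) :
    Subgroup.closure {g | ∃ c, c < ncolR ∧ γ c = g} = (⊤ : Subgroup (CoxPresented α edges extra)) := by
  rw [eq_top_iff, ← PresentedGroup.closure_range_of]
  apply Subgroup.closure_mono
  rintro _ ⟨a, rfl⟩
  exact ⟨colOf (a, true), (ok.hcolOf _).1, gam_colOf ok (a, true)⟩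

theorem base_prod (ok : OK) : ∀ b ∈ baseL, (b.map γ).prod = 1 := by
  intro b hb
  rw [ok.hbase] at hb
  simp only [List.mem_append, List.mem_map] at hb
  rcases hb with ((⟨p, hp, rfl⟩ | ⟨w, hw, rfl⟩) | ⟨c, hc, rfl⟩) | ⟨⟨w, k⟩, hwk, rfl⟩
  · rw [gam_word ok]
    obtain ⟨h1, h2⟩ := coxPairs_mem_left nodesL p hp
    exact pair_rel edges extra (ok.hnodes' _ h1) (ok.hnodes' _ h2)
  · rw [gam_word ok]
    apply lw_of_mem_rels
    right
    change FreeGroup.mk w ∈ extra
    rw [ok.hextra]
    exact List.mem_map_of_mem hw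
  · have hc' : c < ncolR := List.mem_range.1 hc
    simp only [List.map_cons, List.map_nil, List.prod_cons, List.prod_nil, mul_one]
    rw [gam_inv ok hc', mul_inv_cancel]
  · simp only [List.map_append, List.prod_append, List.map_cons, List.map_nil, List.prod_cons,
      List.prod_nil, mul_one]
    rw [gam_word ok]
    obtain ⟨_, h2, h3⟩ := List.mem_zipIdx hwk
    simp only [Nat.sub_zero, Nat.zero_add] at h2 h3
    unfold gam
    rw [if_neg (by omega), Nat.add_sub_cancel_left, List.getD_eq_getElem _ _ h2, ← h3, mul_inv_cancel]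

/-- the subgroup in its two forms -/
theorem H_eq (ok : OK) :
    (Subgroup.closure S).map (PresentedGroup.mk (coxRelators edges ∪ {r | r ∈ extra})) =
      Subgroup.closure {g | ∃ w ∈ hWords, LW w = g} := by
  rw [MonoidHom.map_closure]
  congr 1
  ext g
  constructor
  · rintro ⟨x, hx, rfl⟩
    obtain ⟨w, hw, rfl⟩ := List.mem_map.1 ((ok.hS x).1 hx)
    exact ⟨w, hw, rfl⟩
  · rintro ⟨w, hw, rfl⟩
    exact ⟨FreeGroup.mk w, (ok.hS _).2 (List.mem_map_of_mem hw), rfl⟩

theorem gam_mem_H (_ok : OK) (c : ℕ) (hc : ncolR ≤ c) :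
    γ c ∈ Subgroup.closure {g | ∃ w ∈ hWords, LW w = g} := by
  unfold gam
  rw [if_neg (by omega)]
  apply Subgroup.inv_mem
  by_cases hk : c - ncolR < hWords.length
  · rw [List.getD_eq_getElem _ _ hk]
    exact Subgroup.subset_closure ⟨_, List.getElem_mem hk, rfl⟩
  · rw [List.getD_eq_default _ _ (by omega), lw_nil]
    exact one_mem _

theorem hRH' (ok : OK) : ∀ c, ncolR ≤ c → RL.getD c 0 < 2 ^ W := by
  intro c hc
  by_cases hlen : c < RL.length
  · rw [List.getD_eq_getElem _ _ hlen]
    apply ok.hRH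
    rw [List.mem_drop_iff_getElem]
    exact ⟨c - ncolR, by omega, by congr 1; omega⟩
  · rw [List.getD_eq_default _ _ (by omega)]
    exact Nat.pow_pos (by norm_num)

theorem upper_hyp (ok : OK) :
    Hyp (Subgroup.closure {g | ∃ w ∈ hWords, LW w = g}) γ D ncolR N msk := by
  have hD := ok.hD
  subst hD
  exact
    { hW := ok.hW
      hWN := ok.hWN
      hN := ok.hN
      hbad := mkData_bad _ _ _ _ _ _ _ _ _ _ _ _ _ _ ok.hRL
      hbv := mkData_not_valid_bad _ _ _ _ _ _ _ _ _ _ _ _ _ _
      hrk := mkData_rk_le _ _ _ _ _ _ _ _ _ _ _ _ _ _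
      hmt := mkData_mt_le _ _ _ _ _ _ _ _ _ _ _ _ _ _
      hvt := WTree.prod_get γ vtree baseL ok.hvtree (base_prod ok)
      hHcol := fun c x hx hc hr =>
        ⟨(mkData_hcol _ _ _ _ _ _ _ _ _ _ _ _ _ _ ncolR ok.hVLlen (hRH' ok) c x hx hc hr).1,
          (mkData_hcol _ _ _ _ _ _ _ _ _ _ _ _ _ _ ncolR ok.hVLlen (hRH' ok) c x hx hc hr).2,
          gam_mem_H ok c hc⟩
      hvert := vertexOK_of_blks _ lay cols ncolR ok.hcols B N nb ok.hB ok.hcov ok.hblk
      hlive0 := ok.hlive0 }

theorem lower_hyp (ok : OK) : LHyp P ncolR n (fun c => invL.getD c 0) :=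
  { hWL := ok.hWL
    hWLn := ok.hPn
    hn := ok.hn
    hpt := pointOK_of_blks P hb hmsk BL n nbL ok.hBL ok.hcovL ok.hblkL
    hcols := ok.hPcols
    hinv := fun c hc => ⟨invL_lt ok hc, ok.hinvinv c hc, by
      rw [ok.hPrels]
      simp only [List.mem_append, List.mem_map, List.mem_range]
      exact Or.inr ⟨c, hc, rfl⟩⟩ }

theorem cols_lt (ok : OK) (w : List (α × Bool)) : ∀ c ∈ w.map colOf, c < ncolR := by
  intro c hc
  obtain ⟨l, _, rfl⟩ := List.mem_map.1 hc
  exact (ok.hcolOf l).1

/-- the permutation of a generator -/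
noncomputable def pgen (ok : OK) (a : α) : Equiv.Perm ℕ := permC (lower_hyp ok) (colOf (a, true))

theorem pgen_inv (ok : OK) (a : α) : (pgen ok a)⁻¹ = permC (lower_hyp ok) (colOf (a, false)) := by
  unfold pgen
  obtain ⟨hlt, h⟩ := ok.hcolOf (a, false)
  obtain ⟨l, hl, hcl, hinv⟩ := letter_of_col ok hlt
  rcases h with h | ⟨_, _, h⟩
  · rw [h] at hl
    obtain rfl : l = (a, false) := (Option.some.inj hl).symm
    simp only [Bool.not_false] at hinv
    rw [← hinv, permC_inv (lower_hyp ok) hlt, inv_inv]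
  · rw [h] at hl
    obtain rfl : l = (a, true) := (Option.some.inj hl).symm
    simp only [Bool.not_true] at hinv
    have h3 := permC_inv (lower_hyp ok) hlt
    change permC (lower_hyp ok) (invL.getD (colOf (a, false)) 0) = _ at h3
    rw [hinv] at h3
    rw [hcl]
    exact h3.symm

theorem lift_mk (ok : OK) (w : List (α × Bool)) :
    FreeGroup.lift (pgen ok) (FreeGroup.mk w) = permW (lower_hyp ok) (w.map colOf) := by
  rw [FreeGroup.lift_mk]
  unfold permW
  induction w with
  | nil => rfl
  | cons l w ih =>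
    rw [List.map_cons, List.prod_cons, ih, List.map_cons, List.map_cons, List.prod_cons]
    congr 1
    obtain ⟨a, b⟩ := l
    cases b with
    | true => rfl
    | false => exact pgen_inv ok a

theorem permW_coxWord (ok : OK) (x y : α) :
    permW (lower_hyp ok) ((coxWord edges (x, y)).map colOf) =
      (pgen ok x * pgen ok y) ^ coxLabel edges x y := by
  unfold coxWord
  generalize coxLabel edges x y = m
  induction m with
  | zero => rfl
  | succ m ih =>
    rw [List.replicate_succ, List.flatten_cons, List.map_append, permW_append, ih, pow_succ']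
    rfl

theorem lift_rel (ok : OK) : ∀ r ∈ coxRelators edges ∪ {r | r ∈ extra},
    FreeGroup.lift (pgen ok) r = 1 := by
  rintro r (⟨x, hx, y, hy, rfl⟩ | hr)
  · rw [map_pow, map_mul, FreeGroup.lift_apply_of, FreeGroup.lift_apply_of]
    have key : ∀ x y, (x, y) ∈ coxPairs nodesL → (pgen ok x * pgen ok y) ^ coxLabel edges x y = 1 := by
      intro x y hxy
      rw [← permW_coxWord ok]
      apply permW_rel (lower_hyp ok) _ (cols_lt ok _)
      rw [ok.hPrels]
      simp only [List.mem_append, List.mem_map]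
      exact Or.inl (Or.inl ⟨(x, y), hxy, rfl⟩)
    rcases coxPairs_mem nodesL x y (ok.hnodes x hx) (ok.hnodes y hy) with h | h
    · exact key x y h
    · have h' := key y x h
      rw [coxLabel_symm edges y x] at h'
      have e : pgen ok x * pgen ok y = pgen ok x * (pgen ok y * pgen ok x) * (pgen ok x)⁻¹ := by group
      rw [e, conj_pow, h']
      group
  · change r ∈ extra at hr
    rw [ok.hextra] at hr
    obtain ⟨w, hw, rfl⟩ := List.mem_map.1 hr
    rw [lift_mk ok]
    apply permW_rel (lower_hyp ok) _ (cols_lt ok _)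
    rw [ok.hPrels]
    simp only [List.mem_append, List.mem_map]
    exact Or.inl (Or.inr ⟨w, hw, rfl⟩)

/-- the permutation representation -/
noncomputable def phi (ok : OK) : CoxPresented α edges extra →* Equiv.Perm ℕ :=
  PresentedGroup.toGroup (lift_rel ok)

theorem phi_lw (ok : OK) (w : List (α × Bool)) :
    phi ok (LW w) = permW (lower_hyp ok) (w.map colOf) := by
  rw [← lift_mk ok]
  rfl

theorem phi_gam (ok : OK) {c : ℕ} (hc : c < ncolR) : phi ok (γ c) = permC (lower_hyp ok) c := by
  obtain ⟨l, hl, hcl, _⟩ := letter_of_col ok hc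
  rw [← hcl, gam_colOf ok, phi_lw ok]
  unfold permW
  simp

theorem phi_valid (ok : OK) (g : CoxPresented α edges extra) (q : ℕ) (hq : ValidL P q) :
    ValidL P (phi ok g q) := by
  induction g using PresentedGroup.induction_on with
  | H z =>
    have : PresentedGroup.mk (coxRelators edges ∪ {r | r ∈ extra}) z = LW z.toWord := by
      unfold lw; rw [FreeGroup.mk_toWord]
    rw [this, phi_lw ok]
    exact permW_apply_valid (lower_hyp ok) _ q hq

theorem twl_getD (ok : OK) (k : ℕ) : (k < nH ∧ P.twl.getD (k + 1) [] = (hWords.getD k []).map colOf) ∨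
    (nH ≤ k ∧ ((k - nH < ncolR ∧ P.twl.getD (k + 1) [] = [k - nH]) ∨ P.twl.getD (k + 1) [] = [])) := by
  rw [ok.hPtwl, List.getD_cons_succ]
  by_cases hk : k < nH
  · left
    refine ⟨hk, ?_⟩
    have hk' : k < (hWords.map (fun w => w.map colOf)).length := by rw [List.length_map, ok.hnH]; exact hk
    rw [List.getD_append _ _ _ _ hk', List.getD_eq_getElem _ _ hk', List.getElem_map,
      List.getD_eq_getElem _ _ (by rw [ok.hnH]; exact hk)]
  · right
    refine ⟨by omega, ?_⟩
    have hlen : (hWords.map (fun w => w.map colOf)).length = nH := by rw [List.length_map, ok.hnH]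
    rw [List.getD_append_right _ _ _ _ (by rw [hlen]; omega), hlen]
    by_cases hk2 : k - nH < ncolR
    · left
      refine ⟨hk2, ?_⟩
      have : k - nH < ((List.range ncolR).map (fun c => [c])).length := by
        rw [List.length_map, List.length_range]; exact hk2
      rw [List.getD_eq_getElem _ _ this, List.getElem_map, List.getElem_range]
    · right
      rw [List.getD_eq_default _ _ (by rw [List.length_map, List.length_range]; omega)]

theorem orbit_all (ok : OK) : ∀ j, ValidL P j ↔ ∃ g, phi ok g 0 = j := by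
  intro j
  constructor
  · intro hj
    induction j using Nat.strong_induction_on with
    | _ j ih =>
      by_cases hj0 : j = 0
      · exact ⟨1, by simp [hj0]⟩
      obtain ⟨k, hlt, _⟩ := (pointOK_facts P j ((lower_hyp ok).pointOK hj)).2.2.2 hj0
      have key : ∀ (g : CoxPresented α edges extra) (w : List ℕ), (∀ c ∈ w, c < ncolR) →
          phi ok g = permW (lower_hyp ok) w → runL P w j < j → ∃ g', phi ok g' 0 = j := by
        intro g w hw hg hlt
        obtain ⟨hv, he⟩ := permW_valid (lower_hyp ok) w hw j hj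
        obtain ⟨g', hg'⟩ := ih _ hlt hv
        refine ⟨g⁻¹ * g', ?_⟩
        rw [map_mul, Equiv.Perm.mul_apply, hg', map_inv, Equiv.Perm.inv_eq_iff_eq, hg, he]
      rcases twl_getD ok k with ⟨_, h⟩ | ⟨_, ⟨hk2, h⟩ | h⟩
      · rw [h] at hlt
        exact key (LW (hWords.getD k [])) _ (cols_lt ok _) (phi_lw ok _) hlt
      · rw [h] at hlt
        refine key (γ (k - nH)) _ (by simpa using hk2) ?_ hlt
        rw [phi_gam ok hk2]
        unfold permW
        simp
      · rw [h, runL_nil] at hlt
        exact absurd hlt (lt_irrefl _)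
  · rintro ⟨g, rfl⟩
    exact phi_valid ok g 0 (lower_hyp ok).valid_zero

theorem H_fix (ok : OK) : ∀ h ∈ Subgroup.closure {g | ∃ w ∈ hWords, LW w = g}, phi ok h 0 = 0 := by
  have : Subgroup.closure {g | ∃ w ∈ hWords, LW w = g} ≤ TcIndex.stab (phi ok) 0 := by
    rw [Subgroup.closure_le]
    rintro _ ⟨w, hw, rfl⟩
    change phi ok (LW w) 0 = 0
    rw [phi_lw ok]
    have hv0 := (lower_hyp ok).valid_zero
    obtain ⟨hv, he⟩ := permW_valid (lower_hyp ok) _ (cols_lt ok w) 0 hv0
    rw [he]
    have h3 := (pointOK_facts P 0 ((lower_hyp ok).pointOK hv0)).2.2.1 (w.map colOf)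
      (by rw [ok.hPhws]; exact List.mem_map_of_mem hw) P.WL ok.hbound1
    rw [validL_iff] at hv
    have hWL := ok.hWL
    by_contra hne
    have : P.WL ≤ runL P (w.map colOf) 0 :=
      Nat.le_of_dvd (Nat.pos_of_ne_zero hne) (Nat.dvd_of_mod_eq_zero hv.1)
    have := h3.1 this
    omega
  exact fun h hh => this hh

theorem ncard_points (ok : OK) : {q | ValidL P q}.ncard = n := by
  have : {q | ValidL P q} = {x : ℕ | x % P.WL = 0 ∧ P.WL * 0 ≤ x ∧ x < P.WL * n} := by
    ext q
    simp only [Set.mem_ofPred_eq, validL_iff, ok.hPn]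
    constructor
    · rintro ⟨h1, h2⟩; exact ⟨h1, by simp, h2⟩
    · rintro ⟨h1, _, h2⟩; exact ⟨h1, h2⟩
  rw [this, TcIndex.ncard_range _ _ _ ok.hWL]
  rfl

/-- **Main theorem**: index and orbits from a certificate. -/
theorem cox_main (ok : OK) :
    ((Subgroup.closure S).map (PresentedGroup.mk (coxRelators edges ∪ {r | r ∈ extra}))).index = n ∧
    ∃ f : (CoxPresented α edges extra ⧸
        (Subgroup.closure S).map (PresentedGroup.mk (coxRelators edges ∪ {r | r ∈ extra}))) → ℕ,
      Function.Injective f ∧ ∀ lo hi, lo ∈ P.bounds → (hi ∈ P.bounds ∨ hi = P.WLn) → lo < hi →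
        (∀ b ∈ P.bounds, b ≤ lo ∨ hi ≤ b) →
        ∃ q, f '' (MulAction.orbit
          ((Subgroup.closure S).map (PresentedGroup.mk (coxRelators edges ∪ {r | r ∈ extra}))) q) =
          {x | x % P.WL = 0 ∧ lo ≤ x ∧ x < hi} := by
  rw [H_eq ok]
  set H := Subgroup.closure {g | ∃ w ∈ hWords, LW w = g} with hH
  have hup := trace_sound (upper_hyp ok)
  obtain ⟨h0, hΨ0, hcard, hstep⟩ := hup
  have hDn : D.n = n := by rw [ok.hD]; rfl
  rw [hDn] at hcard
  have hidx := TcIndex.index_eq H {g | ∃ c, c < ncolR ∧ γ c = g} (gam_gen ok) (Psi γ D)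
    (liveSet D N) 0 h0 hΨ0
    (by
      rintro v hv _ ⟨c, hc, rfl⟩
      exact hstep v hv c hc)
    (by
      rintro v hv _ ⟨c, hc, rfl⟩
      rw [← gam_inv ok hc]
      exact hstep v hv _ (invL_lt ok hc))
    (phi ok) 0 {q | ValidL P q} n (ncard_points ok) hcard (orbit_all ok) (H_fix ok)
  obtain ⟨hindex, hstab⟩ := hidx
  refine ⟨hindex, TcIndex.beta H (phi ok) 0, TcIndex.beta_injective H (phi ok) 0 hstab, ?_⟩
  intro lo hi hlo hhi hlt hsep
  have hloV := ok.hbv lo hlo
  have hhiW : hi ≤ P.WLn := by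
    rcases hhi with h | h
    · exact le_of_lt ((validL_iff P hi).1 (ok.hbv hi h)).2
    · exact le_of_eq h
  apply TcIndex.exists_orbit H {g | ∃ w ∈ hWords, LW w = g} hH (phi ok) 0 hstab {q | ValidL P q}
    {x | x % P.WL = 0 ∧ lo ≤ x ∧ x < hi} lo (orbit_all ok)
  · rintro x ⟨h1, _, h3⟩
    exact (validL_iff P x).2 ⟨h1, lt_of_lt_of_le h3 hhiW⟩
  · exact ⟨((validL_iff P lo).1 hloV).1, le_rfl, hlt⟩
  · rintro _ ⟨w, hw, rfl⟩ x hx
    change ValidL P x at hx
    rw [phi_lw ok]
    obtain ⟨hv, he⟩ := permW_valid (lower_hyp ok) _ (cols_lt ok w) x hx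
    rw [he]
    have h3 := (pointOK_facts P x ((lower_hyp ok).pointOK hx)).2.2.1 (w.map colOf)
      (by rw [ok.hPhws]; exact List.mem_map_of_mem hw)
    have hv' := (validL_iff P _).1 hv
    have hx' := (validL_iff P _).1 hx
    simp only [Set.mem_ofPred_eq]
    have e1 := h3 lo hlo
    have e2 : runL P (w.map colOf) x < hi ↔ x < hi := by
      rcases hhi with h | h
      · have := h3 hi h
        constructor <;> intro h' <;> by_contra hc <;> push Not at hc
        · exact absurd (this.2 hc) (not_le.2 h')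
        · exact absurd (this.1 hc) (not_le.2 h')
      · rw [h]; exact ⟨fun _ => hx'.2, fun _ => hv'.2⟩
    rw [e1, e2]
    constructor
    · rintro ⟨_, h2, h3⟩; exact ⟨hx'.1, h2, h3⟩
    · rintro ⟨_, h2, h3⟩; exact ⟨hv'.1, h2, h3⟩
  · rintro x ⟨h1, h2, h3⟩ hne
    have hxV : ValidL P x := (validL_iff P x).2 ⟨h1, lt_of_lt_of_le h3 hhiW⟩
    have hx0 : x ≠ 0 := by omega
    obtain ⟨k, hlt', hor⟩ := (pointOK_facts P x ((lower_hyp ok).pointOK hxV)).2.2.2 hx0
    have hnb : x ∉ P.bounds := by
      intro hb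
      rcases hsep x hb with h | h <;> omega
    have hk : k + 1 ≤ P.nH := by
      rcases hor with h | h
      · exact h
      · exact absurd h hnb
    rw [ok.hPnH] at hk
    rcases twl_getD ok k with ⟨_, h⟩ | ⟨h, _⟩
    · rw [h] at hlt'
      have hmem : hWords.getD k [] ∈ hWords := by
        rw [List.getD_eq_getElem _ _ (by rw [ok.hnH]; omega)]
        exact List.getElem_mem _
      refine ⟨LW (hWords.getD k []), Subgroup.subset_closure ⟨_, hmem, rfl⟩, ?_⟩
      rw [phi_lw ok, (permW_valid (lower_hyp ok) _ (cols_lt ok _) x hxV).2]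
      exact hlt'
    · omega

end Main

end Cfsg.Agent.Lib.Helper29.TcCox
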