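import Mathlib

/-!
# Index of a subgroup from a coset-enumeration certificate: the group-theoretic part

`index_eq` : if `Ψ : ℕ → G` gives at most `n` coset representatives closed under the generators
(upper bound) and `φ : G →* Perm ℕ` is a permutation representation with an orbit of size `n`
whose base point is fixed by `H` (lower bound), then `H.index = n`; moreover `H` is the full
stabiliser, so `G ⧸ H` is in equivariant bijection with the orbit (`beta`), and orbits of `H` on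
`G ⧸ H` can be read off from the permutation representation (`exists_orbit`).
-/

namespace Cfsg.Agent.Lib.Helper29.TcIndex

variable {G : Type*} [Group G]

theorem exists_rep (H : Subgroup G) (X : Set G) (hX : Subgroup.closure X = ⊤)
    (Ψ : ℕ → G) (C : Set ℕ) (v0 : ℕ) (hv0 : v0 ∈ C) (h0 : Ψ v0 ∈ H)
    (hstep : ∀ v ∈ C, ∀ x ∈ X, ∃ v' ∈ C, Ψ v * x * (Ψ v')⁻¹ ∈ H)
    (hstep' : ∀ v ∈ C, ∀ x ∈ X, ∃ v' ∈ C, Ψ v * x⁻¹ * (Ψ v')⁻¹ ∈ H) (g : G) :
    ∃ v ∈ C, g * (Ψ v)⁻¹ ∈ H := by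
  have hg : g ∈ Subgroup.closure X := by rw [hX]; trivial
  induction hg using Subgroup.closure_induction_right with
  | one => exact ⟨v0, hv0, by simpa using H.inv_mem h0⟩
  | mul_right x hx y hy ih =>
    obtain ⟨v, hv, hxv⟩ := ih
    obtain ⟨v', hv', h'⟩ := hstep v hv y hy
    refine ⟨v', hv', ?_⟩
    have := H.mul_mem hxv h'
    simpa [mul_assoc] using this
  | mul_inv_cancel x hx y hy ih =>
    obtain ⟨v, hv, hxv⟩ := ih
    obtain ⟨v', hv', h'⟩ := hstep' v hv y hy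
    refine ⟨v', hv', ?_⟩
    have := H.mul_mem hxv h'
    simpa [mul_assoc] using this

theorem index_le (H : Subgroup G) (X : Set G) (hX : Subgroup.closure X = ⊤)
    (Ψ : ℕ → G) (C : Finset ℕ) (v0 : ℕ) (hv0 : v0 ∈ C) (h0 : Ψ v0 ∈ H)
    (hstep : ∀ v ∈ C, ∀ x ∈ X, ∃ v' ∈ C, Ψ v * x * (Ψ v')⁻¹ ∈ H)
    (hstep' : ∀ v ∈ C, ∀ x ∈ X, ∃ v' ∈ C, Ψ v * x⁻¹ * (Ψ v')⁻¹ ∈ H) :
    H.index ≠ 0 ∧ H.index ≤ C.card := by
  let f : C → G ⧸ H := fun v => QuotientGroup.mk (Ψ v.1)⁻¹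
  have hf : Function.Surjective f := by
    intro q
    induction q using QuotientGroup.induction_on with
    | H g =>
      obtain ⟨v, hv, hgv⟩ := exists_rep H X hX Ψ (C : Set ℕ) v0 (by simpa using hv0) h0
        (by simpa using hstep) (by simpa using hstep') g⁻¹
      refine ⟨⟨v, by simpa using hv⟩, ?_⟩
      change (QuotientGroup.mk (Ψ v)⁻¹ : G ⧸ H) = QuotientGroup.mk g
      rw [QuotientGroup.eq]
      have := H.inv_mem hgv
      simpa using this
  have hfin : Finite (G ⧸ H) := Finite.of_surjective f hf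
  refine ⟨?_, ?_⟩
  · rw [Subgroup.index_eq_card]
    have : Nonempty (G ⧸ H) := ⟨((1 : G) : G ⧸ H)⟩
    exact Nat.card_pos.ne'
  · rw [Subgroup.index_eq_card]
    have := Nat.card_le_card_of_surjective f hf
    simpa using this

/-- The stabiliser of a point in a permutation representation. -/
def stab (φ : G →* Equiv.Perm ℕ) (p0 : ℕ) : Subgroup G where
  carrier := {g | φ g p0 = p0}
  one_mem' := by simp
  mul_mem' := by
    intro a b ha hb
    simp only [Set.mem_ofPred_eq] at ha hb ⊢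
    rw [map_mul, Equiv.Perm.mul_apply, hb, ha]
  inv_mem' := by
    intro a ha
    simp only [Set.mem_ofPred_eq] at ha ⊢
    rw [map_inv, Equiv.Perm.inv_eq_iff_eq]
    exact ha.symm

theorem mem_stab (φ : G →* Equiv.Perm ℕ) (p0 : ℕ) (g : G) : g ∈ stab φ p0 ↔ φ g p0 = p0 := Iff.rfl

theorem stab_index (φ : G →* Equiv.Perm ℕ) (p0 : ℕ) (P : Set ℕ)
    (horb : ∀ j, j ∈ P ↔ ∃ g, φ g p0 = j) : (stab φ p0).index = P.ncard := by
  rw [Subgroup.index_eq_card]
  let f : G ⧸ stab φ p0 → P := fun q => Quotient.liftOn' q (fun g => (⟨φ g p0, (horb _).2 ⟨g, rfl⟩⟩ : P)) (by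
    intro a b hab
    rw [QuotientGroup.leftRel_apply, mem_stab] at hab
    apply Subtype.ext
    change φ a p0 = φ b p0
    have : φ b p0 = φ a (φ (a⁻¹ * b) p0) := by
      rw [← Equiv.Perm.mul_apply, ← map_mul]; simp
    rw [this, hab])
  have hbij : Function.Bijective f := by
    constructor
    · intro q q'
      induction q using QuotientGroup.induction_on with
      | H a =>
      induction q' using QuotientGroup.induction_on with
      | H b =>
      intro h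
      have h' : φ a p0 = φ b p0 := congrArg Subtype.val h
      rw [QuotientGroup.eq, mem_stab, map_mul, Equiv.Perm.mul_apply, ← h', map_inv]
      simp
    · rintro ⟨j, hj⟩
      obtain ⟨g, hg⟩ := (horb j).1 hj
      exact ⟨(g : G ⧸ stab φ p0), Subtype.ext hg⟩
  rw [Nat.card_congr (Equiv.ofBijective f hbij), Nat.card_coe_set_eq]

theorem index_eq (H : Subgroup G) (X : Set G) (hX : Subgroup.closure X = ⊤)
    (Ψ : ℕ → G) (C : Finset ℕ) (v0 : ℕ) (hv0 : v0 ∈ C) (h0 : Ψ v0 ∈ H)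
    (hstep : ∀ v ∈ C, ∀ x ∈ X, ∃ v' ∈ C, Ψ v * x * (Ψ v')⁻¹ ∈ H)
    (hstep' : ∀ v ∈ C, ∀ x ∈ X, ∃ v' ∈ C, Ψ v * x⁻¹ * (Ψ v')⁻¹ ∈ H)
    (φ : G →* Equiv.Perm ℕ) (p0 : ℕ) (P : Set ℕ) (n : ℕ) (hn : P.ncard = n) (hC : C.card ≤ n)
    (horb : ∀ j, j ∈ P ↔ ∃ g, φ g p0 = j) (hH : ∀ h ∈ H, φ h p0 = p0) :
    H.index = n ∧ H = stab φ p0 := by
  obtain ⟨hne, hle⟩ := index_le H X hX Ψ C v0 hv0 h0 hstep hstep'
  have hHK : H ≤ stab φ p0 := fun h hh => hH h hh
  have hK : (stab φ p0).index = n := by rw [stab_index φ p0 P horb, hn]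
  have hdvd : n ∣ H.index := hK ▸ Subgroup.index_dvd_of_le hHK
  have hidx : H.index = n :=
    Nat.le_antisymm (hle.trans hC) (Nat.le_of_dvd (Nat.pos_of_ne_zero hne) hdvd)
  refine ⟨hidx, le_antisymm hHK ?_⟩
  have h1 := Subgroup.relIndex_mul_index hHK
  rw [hK, hidx] at h1
  have hn0 : n ≠ 0 := by rw [← hidx]; exact hne
  have : H.relIndex (stab φ p0) = 1 := by
    have := Nat.eq_of_mul_eq_mul_right (Nat.pos_of_ne_zero hn0) (by simpa using h1 : H.relIndex (stab φ p0) * n = 1 * n)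
    exact this
  exact Subgroup.relIndex_eq_one.1 this

/-- The equivariant injection of `G ⧸ H` into the points, for `H` a point stabiliser. -/
noncomputable def beta (H : Subgroup G) (φ : G →* Equiv.Perm ℕ) (p0 : ℕ) (q : G ⧸ H) : ℕ :=
  φ (Quotient.out q) p0

theorem beta_mk (H : Subgroup G) (φ : G →* Equiv.Perm ℕ) (p0 : ℕ) (hH : H = stab φ p0) (g : G) :
    beta H φ p0 (g : G ⧸ H) = φ g p0 := by
  unfold beta
  obtain ⟨h, hh⟩ := QuotientGroup.mk_out_eq_mul H g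
  rw [hh, map_mul, Equiv.Perm.mul_apply]
  have : (h : G) ∈ stab φ p0 := hH ▸ h.2
  rw [(mem_stab φ p0 _).1 this]

theorem beta_injective (H : Subgroup G) (φ : G →* Equiv.Perm ℕ) (p0 : ℕ) (hH : H = stab φ p0) :
    Function.Injective (beta H φ p0) := by
  intro q q'
  induction q using QuotientGroup.induction_on with
  | H a =>
  induction q' using QuotientGroup.induction_on with
  | H b =>
  rw [beta_mk H φ p0 hH, beta_mk H φ p0 hH]
  intro h'
  rw [QuotientGroup.eq, hH, mem_stab, map_mul, Equiv.Perm.mul_apply, ← h', map_inv]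
  simp

theorem beta_image_orbit (H : Subgroup G) (φ : G →* Equiv.Perm ℕ) (p0 : ℕ) (hH : H = stab φ p0)
    (g : G) : beta H φ p0 '' (MulAction.orbit H (g : G ⧸ H)) = {y | ∃ h ∈ H, φ h (φ g p0) = y} := by
  ext y
  constructor
  · rintro ⟨q, ⟨h, rfl⟩, rfl⟩
    refine ⟨h, h.2, ?_⟩
    have : h • (g : G ⧸ H) = (((h : G) * g : G) : G ⧸ H) := rfl
    change φ ↑h (φ g p0) = beta H φ p0 (h • (g : G ⧸ H))
    rw [this, beta_mk H φ p0 hH, map_mul, Equiv.Perm.mul_apply]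
  · rintro ⟨h, hh, rfl⟩
    refine ⟨(⟨h, hh⟩ : H) • (g : G ⧸ H), ⟨⟨h, hh⟩, rfl⟩, ?_⟩
    have : (⟨h, hh⟩ : H) • (g : G ⧸ H) = ((h * g : G) : G ⧸ H) := rfl
    rw [this, beta_mk H φ p0 hH, map_mul, Equiv.Perm.mul_apply]

/-- Orbit of a point under `H = closure S'` from class-invariance and a descending tree. -/
theorem orbit_set_eq (S' : Set G) (φ : G →* Equiv.Perm ℕ) (P R : Set ℕ) (lo : ℕ)
    (hP : ∀ g : G, ∀ x ∈ P, φ g x ∈ P) (hRP : R ⊆ P) (hlo : lo ∈ R)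
    (hgen : ∀ s ∈ S', ∀ x ∈ P, (φ s x ∈ R ↔ x ∈ R))
    (htree : ∀ x ∈ R, x ≠ lo → ∃ h ∈ Subgroup.closure S', φ h x < x) :
    {y | ∃ h ∈ Subgroup.closure S', φ h lo = y} = R := by
  have hinv : ∀ h ∈ Subgroup.closure S', ∀ x ∈ P, (φ h x ∈ R ↔ x ∈ R) := by
    intro h hh
    induction hh using Subgroup.closure_induction with
    | mem s hs => exact hgen s hs
    | one => intro x _; simp
    | mul a b _ _ iha ihb =>
      intro x hx
      rw [map_mul, Equiv.Perm.mul_apply, iha _ (hP b x hx), ihb x hx]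
    | inv a _ iha =>
      intro x hx
      have := iha (φ a⁻¹ x) (hP _ x hx)
      rw [← Equiv.Perm.mul_apply, ← map_mul] at this
      simp only [mul_inv_cancel, map_one, Equiv.Perm.coe_one, id_eq] at this
      exact this.symm
  ext y
  constructor
  · rintro ⟨h, hh, rfl⟩
    exact (hinv h hh lo (hRP hlo)).2 hlo
  · intro hy
    induction y using Nat.strong_induction_on with
    | _ y ih =>
      by_cases hyl : y = lo
      · exact ⟨1, one_mem _, by simp [hyl]⟩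
      · obtain ⟨h, hh, hlt⟩ := htree y hy hyl
        have hy' : φ h y ∈ R := (hinv h hh y (hRP hy)).2 hy
        obtain ⟨h', hh', e⟩ := ih _ hlt hy'
        refine ⟨h⁻¹ * h', mul_mem (inv_mem hh) hh', ?_⟩
        rw [map_mul, Equiv.Perm.mul_apply, e, ← Equiv.Perm.mul_apply, ← map_mul]
        simp

theorem exists_orbit (H : Subgroup G) (S' : Set G) (hS : H = Subgroup.closure S')
    (φ : G →* Equiv.Perm ℕ) (p0 : ℕ) (hH : H = stab φ p0) (P R : Set ℕ) (lo : ℕ)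
    (horb : ∀ j, j ∈ P ↔ ∃ g, φ g p0 = j) (hRP : R ⊆ P) (hlo : lo ∈ R)
    (hgen : ∀ s ∈ S', ∀ x ∈ P, (φ s x ∈ R ↔ x ∈ R))
    (htree : ∀ x ∈ R, x ≠ lo → ∃ h ∈ H, φ h x < x) :
    ∃ q : G ⧸ H, beta H φ p0 '' (MulAction.orbit H q) = R := by
  obtain ⟨g, hg⟩ := (horb lo).1 (hRP hlo)
  refine ⟨(g : G ⧸ H), ?_⟩
  rw [beta_image_orbit H φ p0 hH, hg]
  have hP : ∀ g : G, ∀ x ∈ P, φ g x ∈ P := by
    intro g x hx
    obtain ⟨g', rfl⟩ := (horb x).1 hx
    exact (horb _).2 ⟨g * g', by rw [map_mul, Equiv.Perm.mul_apply]⟩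
  have := orbit_set_eq S' φ P R lo hP hRP hlo hgen (by rw [← hS]; exact htree)
  rw [← hS] at this
  exact this

theorem ncard_orbit (H : Subgroup G) (φ : G →* Equiv.Perm ℕ) (p0 : ℕ) (hH : H = stab φ p0)
    (q : G ⧸ H) (R : Set ℕ) (h : beta H φ p0 '' (MulAction.orbit H q) = R) :
    (MulAction.orbit H q).ncard = R.ncard := by
  rw [← h, Set.ncard_image_of_injective _ (beta_injective H φ p0 hH)]

theorem ncard_range (W a b : ℕ) (hW : 0 < W) :
    {x : ℕ | x % W = 0 ∧ W * a ≤ x ∧ x < W * b}.ncard = b - a := by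
  have : {x : ℕ | x % W = 0 ∧ W * a ≤ x ∧ x < W * b} = (fun j => W * j) '' (Set.Ico a b) := by
    ext x
    simp only [Set.mem_ofPred_eq, Set.mem_image, Set.mem_Ico]
    constructor
    · rintro ⟨h1, h2, h3⟩
      refine ⟨x / W, ⟨?_, ?_⟩, Nat.mul_div_cancel' (Nat.dvd_of_mod_eq_zero h1)⟩
      · rw [Nat.le_div_iff_mul_le hW]; rw [Nat.mul_comm]; exact h2
      · rw [Nat.div_lt_iff_lt_mul hW]; rw [Nat.mul_comm]; exact h3
    · rintro ⟨j, ⟨h1, h2⟩, rfl⟩
      exact ⟨Nat.mul_mod_right W j, Nat.mul_le_mul_left W h1, Nat.mul_lt_mul_of_pos_left h2 hW⟩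
  rw [this, Set.ncard_image_of_injective _ (fun x y h => Nat.eq_of_mul_eq_mul_left hW h)]
  rw [← Finset.coe_Ico, Set.ncard_coe_finset, Nat.card_Ico]

theorem ncard_range' (W lo hi : ℕ) (hW : 0 < W) (hlo : lo % W = 0) (hhi : hi % W = 0) :
    {x : ℕ | x % W = 0 ∧ lo ≤ x ∧ x < hi}.ncard = hi / W - lo / W := by
  have h := ncard_range W (lo / W) (hi / W) hW
  rw [Nat.mul_div_cancel' (Nat.dvd_of_mod_eq_zero hlo), Nat.mul_div_cancel' (Nat.dvd_of_mod_eq_zero hhi)] at h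
  exact h

theorem ncard_of_image {X : Type*} {f : X → ℕ} (hf : Function.Injective f) {s : Set X}
    {W lo hi : ℕ} (h : f '' s = {x : ℕ | x % W = 0 ∧ lo ≤ x ∧ x < hi})
    (hW : 0 < W) (hlo : lo % W = 0) (hhi : hi % W = 0) : s.ncard = hi / W - lo / W := by
  rw [← Set.ncard_image_of_injective _ hf, h]
  exact ncard_range' W lo hi hW hlo hhi

theorem ne_of_image {X : Type*} {f : X → ℕ} {s t : Set X} {W lo hi lo' hi' : ℕ}
    (hs : f '' s = {x : ℕ | x % W = 0 ∧ lo ≤ x ∧ x < hi})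
    (ht : f '' t = {x : ℕ | x % W = 0 ∧ lo' ≤ x ∧ x < hi'})
    (h1 : lo % W = 0) (h2 : lo < hi) (h3 : hi ≤ lo') : s ≠ t := by
  rintro rfl
  have hmem : lo ∈ {x : ℕ | x % W = 0 ∧ lo ≤ x ∧ x < hi} := ⟨h1, le_refl _, h2⟩
  rw [← hs, ht] at hmem
  exact absurd (lt_of_lt_of_le h2 h3) (not_lt.mpr hmem.2.1)

end Cfsg.Agent.Lib.Helper29.TcIndex
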