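import Mathlib

/-!
# Soundness of a static, time-stamped Todd–Coxeter trace

Vertices are natural numbers ("offsets", multiples of `W` below `W * N`); columns are natural
numbers. A slot `(c, x)` with inverted rank `rk c x ≠ 0` claims `H Ψ(x) γ(c) = H Ψ(val c x)`;
a merge `mt x ≠ 0` claims `H Ψ(x) = H Ψ(mg x)`. Every claim is justified by a forward walk along
a word whose product is trivial, using only claims of strictly larger inverted rank.
All functions are written with raw recursors so that the kernel evaluates them cheaply.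
-/

namespace Cfsg.Agent.Lib.Helper29.TcTrace

/-- Abstract trace data. -/
structure Data where
  W : ℕ
  WN : ℕ
  n : ℕ
  fuel : ℕ
  bad : ℕ
  val : ℕ → ℕ → ℕ
  rk : ℕ → ℕ → ℕ
  mg : ℕ → ℕ
  mt : ℕ → ℕ
  par : ℕ → ℕ
  pl : ℕ → ℕ
  fin : ℕ → ℕ
  vert : ℕ → ℕ
  vt : ℕ → List ℕ

local notation "cndB(" b ", " t ", " e ")" => Bool.rec (motive := fun _ => Bool) e t b
local notation "cndN(" b ", " t ", " e ")" => Bool.rec (motive := fun _ => ℕ) e t b

theorem cndB_eq_true {b t e : Bool} :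
    cndB(b, t, e) = true ↔ (b = true ∧ t = true) ∨ (b = false ∧ e = true) := by
  cases b <;> simp

/-- Follow merge pointers usable at threshold `θ1` (inverted time at least `θ1`). -/
noncomputable def chase (D : Data) (θ1 : ℕ) (fuel : ℕ) : ℕ → ℕ :=
  Nat.rec (motive := fun _ => ℕ → ℕ) (fun x => x)
    (fun _ ih x => cndN(Nat.ble θ1 (D.mt x), ih (D.mg x), x)) fuel

theorem chase_zero (D : Data) (θ1 x : ℕ) : chase D θ1 0 x = x := rfl

theorem chase_succ (D : Data) (θ1 f x : ℕ) :
    chase D θ1 (f + 1) x = cndN(Nat.ble θ1 (D.mt x), chase D θ1 f (D.mg x), x) := rfl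

/-- One walk step. -/
noncomputable def stepF (D : Data) (θ1 c x : ℕ) : ℕ :=
  cndN(Nat.ble θ1 (D.rk c x), chase D θ1 D.fuel (D.val c x), D.bad)

/-- Forward walk along a word of columns. -/
noncomputable def fwd (D : Data) (θ1 : ℕ) (w : List ℕ) : ℕ → ℕ :=
  List.rec (motive := fun _ => ℕ → ℕ) (fun x => x) (fun c _ ih x => ih (stepF D θ1 c x)) w

theorem fwd_nil (D : Data) (θ1 x : ℕ) : fwd D θ1 [] x = x := rfl

theorem fwd_cons (D : Data) (θ1 c : ℕ) (w : List ℕ) (x : ℕ) :
    fwd D θ1 (c :: w) x = fwd D θ1 w (stepF D θ1 c x) := rfl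

/-- Validity of an offset. -/
noncomputable def validB (D : Data) (x : ℕ) : Bool :=
  cndB(Nat.beq (Nat.mod x D.W) 0, Nat.blt x D.WN, false)

/-- The rule justifying a slot: `j = 0` the definition rule, `j = k + 1` a walk along variant `j`. -/
noncomputable def chkRule (D : Data) (x c j B θ1 : ℕ) : Bool :=
  Nat.rec (motive := fun _ => Bool)
    (cndB(Nat.beq (D.pl x) c, cndB(Nat.beq B (D.par x), Nat.blt B x, false), false))
    (fun k _ => List.rec (motive := fun _ => Bool) false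
      (fun hd u _ => cndB(Nat.beq hd c, Nat.beq (fwd D θ1 u B) x, false)) (D.vt (Nat.succ k)))
    j

/-- Check of the slot `(c, x)` with justification code `j`; `live` says that `x` is not merged. -/
noncomputable def chkSlot (D : Data) (x c j : ℕ) (live : Bool) : Bool :=
  cndB(Nat.beq (D.rk c x) 0, cndB(live, false, true),
    cndB(validB D (D.val c x),
      cndB(chkRule D x c j (D.val c x) (Nat.succ (D.rk c x)),
        cndB(live, Nat.beq (D.mt (chase D 1 D.fuel (D.val c x))) 0, true), false), false))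

/-- Check of the merge record of `x` with justification `(s, k)`. -/
noncomputable def chkMerge (D : Data) (x s k : ℕ) : Bool :=
  cndB(Nat.beq (D.mt x) 0,
    cndB(Nat.blt (D.fin x) D.n, Nat.beq (D.vert (D.fin x)) x, false),
    cndB(validB D (D.mg x), cndB(validB D s,
      Nat.rec (motive := fun _ => Bool) false
        (fun k' _ =>
          cndB(Nat.beq (chase D (Nat.succ (D.mt x)) D.fuel s) x,
            Nat.beq (fwd D (Nat.succ (D.mt x)) (D.vt (Nat.succ k')) s) (D.mg x),
            cndB(Nat.beq (chase D (Nat.succ (D.mt x)) D.fuel s) (D.mg x),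
              Nat.beq (fwd D (Nat.succ (D.mt x)) (D.vt (Nat.succ k')) s) x, false))) k,
      false), false))

/-- What the checks of one vertex give. -/
def VertexOK (D : Data) (ncolR : ℕ) (x : ℕ) : Prop :=
  (∃ s k, chkMerge D x s k = true) ∧
    ∀ c, c < ncolR → ∃ j, chkSlot D x c j (Nat.beq (D.mt x) 0) = true

section Semantics

variable {G : Type*} [Group G]

/-- The coset representative attached to a vertex. -/
noncomputable def Psi (γ : ℕ → G) (D : Data) (v : ℕ) : G :=
  if _h : D.par v < v then Psi γ D (D.par v) * (γ (D.pl v))⁻¹ else 1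
termination_by v

theorem Psi_eq (γ : ℕ → G) (D : Data) (v : ℕ) (h : D.par v < v) :
    Psi γ D v = Psi γ D (D.par v) * (γ (D.pl v))⁻¹ := by
  rw [Psi, dif_pos h]

theorem Psi_zero (γ : ℕ → G) (D : Data) : Psi γ D 0 = 1 := by
  rw [Psi, dif_neg (Nat.not_lt_zero _)]

variable (H : Subgroup G) (γ : ℕ → G) (D : Data)

/-- `x` and `y` name the same coset. -/
def Eqv (x y : ℕ) : Prop := Psi γ D x * (Psi γ D y)⁻¹ ∈ H

/-- the coset of `x` times the word `w` is the coset of `y` -/
def Path (x : ℕ) (g : G) (y : ℕ) : Prop := Psi γ D x * g * (Psi γ D y)⁻¹ ∈ H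

theorem Eqv.refl (x : ℕ) : Eqv H γ D x x := by simp [Eqv]

theorem Eqv.symm {x y : ℕ} (h : Eqv H γ D x y) : Eqv H γ D y x := by
  have := H.inv_mem h
  simpa [Eqv] using this

theorem Path.trans {x y z : ℕ} {g g' : G} (h : Path H γ D x g y) (h' : Path H γ D y g' z) :
    Path H γ D x (g * g') z := by
  have := H.mul_mem h h'
  simpa [Path, mul_assoc] using this

theorem Path.of_eqv {x y : ℕ} (h : Eqv H γ D x y) : Path H γ D x 1 y := by
  simpa [Path, Eqv] using h

theorem Path.eqv {x y : ℕ} (h : Path H γ D x 1 y) : Eqv H γ D x y := by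
  simpa [Path, Eqv] using h

theorem Path.inv {x y : ℕ} {g : G} (h : Path H γ D x g y) : Path H γ D y g⁻¹ x := by
  have := H.inv_mem h
  simpa [Path, mul_assoc] using this

/-- validity of an offset -/
def Valid (x : ℕ) : Prop := validB D x = true

theorem valid_iff (x : ℕ) : Valid D x ↔ x % D.W = 0 ∧ x < D.WN := by
  unfold Valid validB
  rw [cndB_eq_true]
  simp only [Nat.blt_eq, Bool.false_eq_true, and_false, or_false]
  constructor
  · rintro ⟨h1, h2⟩; exact ⟨Nat.eq_of_beq_eq_true h1, h2⟩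
  · rintro ⟨h1, h2⟩; exact ⟨by rw [show Nat.mod x D.W = 0 from h1]; rfl, h2⟩

/-- The invariant at threshold `θ1`. -/
def Inv (θ1 : ℕ) : Prop :=
  (∀ x c, Valid D x → θ1 ≤ D.rk c x → Valid D (D.val c x) ∧ Path H γ D x (γ c) (D.val c x)) ∧
    (∀ x, Valid D x → θ1 ≤ D.mt x → Valid D (D.mg x) ∧ Eqv H γ D x (D.mg x))

theorem chase_sound {θ1 : ℕ} (hI : Inv H γ D θ1) (f : ℕ) :
    ∀ y, Valid D y → Valid D (chase D θ1 f y) ∧ Eqv H γ D y (chase D θ1 f y) := by
  induction f with
  | zero => intro y hy; exact ⟨hy, Eqv.refl H γ D y⟩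
  | succ f ih =>
    intro y hy
    rw [chase_succ]
    cases hb : Nat.ble θ1 (D.mt y) with
    | false => exact ⟨hy, Eqv.refl H γ D y⟩
    | true =>
      have hle : θ1 ≤ D.mt y := Nat.le_of_ble_eq_true hb
      obtain ⟨hv, he⟩ := hI.2 y hy hle
      obtain ⟨hv', he'⟩ := ih _ hv
      refine ⟨hv', ?_⟩
      have := Path.trans H γ D (Path.of_eqv H γ D he) (Path.of_eqv H γ D he')
      rw [one_mul] at this
      exact Path.eqv H γ D this

theorem fwd_bad {θ1 : ℕ} (h1 : 1 ≤ θ1) (hbad : ∀ c, D.rk c D.bad = 0) (w : List ℕ) :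
    fwd D θ1 w D.bad = D.bad := by
  induction w with
  | nil => rfl
  | cons c w ih =>
    rw [fwd_cons]
    have : stepF D θ1 c D.bad = D.bad := by
      unfold stepF
      have : Nat.ble θ1 (D.rk c D.bad) = false := by
        rw [hbad c]
        cases hb : Nat.ble θ1 0 with
        | false => rfl
        | true => have := Nat.le_of_ble_eq_true hb; omega
      rw [this]
    rw [this, ih]

theorem fwd_sound {θ1 : ℕ} (hI : Inv H γ D θ1) (h1 : 1 ≤ θ1) (hbad : ∀ c, D.rk c D.bad = 0)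
    (hbv : ¬ Valid D D.bad) (w : List ℕ) :
    ∀ x, Valid D x → Valid D (fwd D θ1 w x) → Path H γ D x (w.map γ).prod (fwd D θ1 w x) := by
  induction w with
  | nil =>
    intro x _ _
    simp [Path, fwd_nil]
  | cons c w ih =>
    intro x hx hv
    rw [fwd_cons] at hv ⊢
    cases hb : Nat.ble θ1 (D.rk c x) with
    | false =>
      have hs : stepF D θ1 c x = D.bad := by unfold stepF; rw [hb]
      rw [hs, fwd_bad D h1 hbad] at hv
      exact absurd hv hbv
    | true =>
      have hs : stepF D θ1 c x = chase D θ1 D.fuel (D.val c x) := by unfold stepF; rw [hb]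
      have hle : θ1 ≤ D.rk c x := Nat.le_of_ble_eq_true hb
      obtain ⟨hvB, hP⟩ := hI.1 x c hx hle
      obtain ⟨hvy, hE⟩ := chase_sound H γ D hI D.fuel _ hvB
      rw [hs] at hv ⊢
      have h2 := ih _ hvy hv
      have h3 := Path.trans H γ D (Path.trans H γ D hP (Path.of_eqv H γ D hE)) h2
      simpa [mul_assoc] using h3

variable (ncolR N M : ℕ)

/-- Standing assumptions of the soundness theorem. -/
structure Hyp : Prop where
  hW : 0 < D.W
  hWN : D.WN = D.W * N
  hN : 0 < N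
  hbad : ∀ c, D.rk c D.bad = 0
  hbv : ¬ Valid D D.bad
  hrk : ∀ c x, D.rk c x ≤ M
  hmt : ∀ x, D.mt x ≤ M
  hvt : ∀ k, ((D.vt k).map γ).prod = 1
  hHcol : ∀ c x, Valid D x → ncolR ≤ c → D.rk c x ≠ 0 → x = 0 ∧ D.val c x = 0 ∧ γ c ∈ H
  hvert : ∀ i, i < N → VertexOK D ncolR (D.W * i)
  hlive0 : D.mt 0 = 0

variable {H γ D ncolR N M}

theorem Hyp.valid_mul (hyp : Hyp H γ D ncolR N M) {x : ℕ} (hx : Valid D x) :
    ∃ i, i < N ∧ x = D.W * i := by
  rw [valid_iff, hyp.hWN] at hx
  refine ⟨x / D.W, ?_, (Nat.mul_div_cancel' (Nat.dvd_of_mod_eq_zero hx.1)).symm⟩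
  rw [Nat.div_lt_iff_lt_mul hyp.hW, Nat.mul_comm]
  exact hx.2

theorem Hyp.vertexOK (hyp : Hyp H γ D ncolR N M) {x : ℕ} (hx : Valid D x) : VertexOK D ncolR x := by
  obtain ⟨i, hi, rfl⟩ := hyp.valid_mul hx
  exact hyp.hvert i hi

theorem Hyp.valid_zero (hyp : Hyp H γ D ncolR N M) : Valid D 0 := by
  rw [valid_iff, hyp.hWN]
  exact ⟨Nat.zero_mod _, Nat.mul_pos hyp.hW hyp.hN⟩

theorem slot_sound (hyp : Hyp H γ D ncolR N M) {x c : ℕ} (hx : Valid D x) (hc : c < ncolR)
    (hr : D.rk c x ≠ 0) (hI : Inv H γ D (D.rk c x + 1)) :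
    Valid D (D.val c x) ∧ Path H γ D x (γ c) (D.val c x) := by
  obtain ⟨j, hj⟩ := (hyp.vertexOK hx).2 c hc
  unfold chkSlot at hj
  rw [cndB_eq_true] at hj
  rcases hj with ⟨h0, _⟩ | ⟨_, hj⟩
  · exact absurd (Nat.eq_of_beq_eq_true h0) hr
  rw [cndB_eq_true] at hj
  rcases hj with ⟨hvB, hj⟩ | ⟨_, hj⟩
  swap
  · exact absurd hj (by simp)
  refine ⟨hvB, ?_⟩
  rw [cndB_eq_true] at hj
  rcases hj with ⟨hrule, _⟩ | ⟨_, hj⟩
  swap
  · exact absurd hj (by simp)
  unfold chkRule at hrule
  cases j with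
  | zero =>
    change cndB(Nat.beq (D.pl x) c, cndB(Nat.beq (D.val c x) (D.par x), Nat.blt (D.val c x) x, false), false) = true at hrule
    rw [cndB_eq_true] at hrule
    rcases hrule with ⟨hpl, hrule⟩ | ⟨_, hrule⟩
    swap
    · exact absurd hrule (by simp)
    rw [cndB_eq_true] at hrule
    rcases hrule with ⟨hpar, hlt⟩ | ⟨_, hrule⟩
    swap
    · exact absurd hrule (by simp)
    have hpl' : D.pl x = c := Nat.eq_of_beq_eq_true hpl
    have hpar' : D.val c x = D.par x := Nat.eq_of_beq_eq_true hpar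
    have hlt' : D.par x < x := by
      rw [← hpar']; simpa using hlt
    unfold Path
    rw [Psi_eq γ D x hlt', hpar', hpl']
    simp
  | succ k =>
    change List.rec (motive := fun _ => Bool) false
      (fun hd u _ => cndB(Nat.beq hd c, Nat.beq (fwd D (Nat.succ (D.rk c x)) u (D.val c x)) x, false))
      (D.vt (Nat.succ k)) = true at hrule
    have hprod := hyp.hvt (Nat.succ k)
    cases hvtk : D.vt (Nat.succ k) with
    | nil => rw [hvtk] at hrule; exact absurd hrule (by simp)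
    | cons hd u =>
      rw [hvtk] at hrule hprod
      change cndB(Nat.beq hd c, Nat.beq (fwd D (Nat.succ (D.rk c x)) u (D.val c x)) x, false) = true at hrule
      rw [cndB_eq_true] at hrule
      rcases hrule with ⟨hhd, hw⟩ | ⟨_, hrule⟩
      swap
      · exact absurd hrule (by simp)
      have hhd' : hd = c := Nat.eq_of_beq_eq_true hhd
      have hw' : fwd D (D.rk c x + 1) u (D.val c x) = x := Nat.eq_of_beq_eq_true hw
      have hP := fwd_sound H γ D hI (Nat.succ_le_succ (Nat.zero_le _)) hyp.hbad hyp.hbv u _ hvB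
        (by rw [hw']; exact hx)
      rw [hw'] at hP
      have hU : (u.map γ).prod = (γ c)⁻¹ := by
        rw [List.map_cons, List.prod_cons, hhd'] at hprod
        exact eq_inv_of_mul_eq_one_right hprod
      rw [hU] at hP
      have := Path.inv H γ D hP
      rwa [inv_inv] at this

theorem merge_sound (hyp : Hyp H γ D ncolR N M) {x : ℕ} (hx : Valid D x)
    (hr : D.mt x ≠ 0) (hI : Inv H γ D (D.mt x + 1)) :
    Valid D (D.mg x) ∧ Eqv H γ D x (D.mg x) := by
  obtain ⟨s, k, hj⟩ := (hyp.vertexOK hx).1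
  unfold chkMerge at hj
  rw [cndB_eq_true] at hj
  rcases hj with ⟨h0, _⟩ | ⟨_, hj⟩
  · exact absurd (Nat.eq_of_beq_eq_true h0) hr
  rw [cndB_eq_true] at hj
  rcases hj with ⟨hva, hj⟩ | ⟨_, hj⟩
  swap
  · exact absurd hj (by simp)
  refine ⟨hva, ?_⟩
  rw [cndB_eq_true] at hj
  rcases hj with ⟨hvs, hj⟩ | ⟨_, hj⟩
  swap
  · exact absurd hj (by simp)
  cases k with
  | zero => exact absurd hj (by simp)
  | succ k =>
    change cndB(Nat.beq (chase D (Nat.succ (D.mt x)) D.fuel s) x,
            Nat.beq (fwd D (Nat.succ (D.mt x)) (D.vt (Nat.succ k)) s) (D.mg x),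
            cndB(Nat.beq (chase D (Nat.succ (D.mt x)) D.fuel s) (D.mg x),
              Nat.beq (fwd D (Nat.succ (D.mt x)) (D.vt (Nat.succ k)) s) x, false)) = true at hj
    have hprod := hyp.hvt (Nat.succ k)
    obtain ⟨hvcs, hEcs⟩ := chase_sound H γ D hI D.fuel s hvs
    have h1 : 1 ≤ D.mt x + 1 := Nat.succ_le_succ (Nat.zero_le _)
    rw [cndB_eq_true] at hj
    rcases hj with ⟨hcs, hy⟩ | ⟨_, hj⟩
    · have hcs' : chase D (D.mt x + 1) D.fuel s = x := Nat.eq_of_beq_eq_true hcs
      have hy' : fwd D (D.mt x + 1) (D.vt (k + 1)) s = D.mg x := Nat.eq_of_beq_eq_true hy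
      have hP := fwd_sound H γ D hI h1 hyp.hbad hyp.hbv (D.vt (k + 1)) s hvs (by rw [hy']; exact hva)
      rw [hy', hprod] at hP
      rw [hcs'] at hEcs
      have := Path.trans H γ D (Path.of_eqv H γ D (Eqv.symm H γ D hEcs)) hP
      rw [one_mul] at this
      exact Path.eqv H γ D this
    · rw [cndB_eq_true] at hj
      rcases hj with ⟨hcs, hy⟩ | ⟨_, hj⟩
      swap
      · exact absurd hj (by simp)
      have hcs' : chase D (D.mt x + 1) D.fuel s = D.mg x := Nat.eq_of_beq_eq_true hcs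
      have hy' : fwd D (D.mt x + 1) (D.vt (k + 1)) s = x := Nat.eq_of_beq_eq_true hy
      have hP := fwd_sound H γ D hI h1 hyp.hbad hyp.hbv (D.vt (k + 1)) s hvs (by rw [hy']; exact hx)
      rw [hy', hprod] at hP
      rw [hcs'] at hEcs
      have := Path.trans H γ D (Path.of_eqv H γ D (Eqv.symm H γ D hEcs)) hP
      rw [one_mul] at this
      exact Eqv.symm H γ D (Path.eqv H γ D this)

theorem inv_all (hyp : Hyp H γ D ncolR N M) : ∀ t, 1 ≤ t → Inv H γ D t := by
  have hstep : ∀ t, 1 ≤ t → Inv H γ D (t + 1) → Inv H γ D t := by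
    intro t ht hI
    constructor
    · intro x c hx hle
      by_cases hlt : t + 1 ≤ D.rk c x
      · exact hI.1 x c hx hlt
      have hrt : D.rk c x = t := by omega
      by_cases hc : c < ncolR
      · exact slot_sound hyp hx hc (by omega) (by rw [hrt]; exact hI)
      · obtain ⟨rfl, hv0, hγ⟩ := hyp.hHcol c x hx (by omega) (by omega)
        rw [hv0]
        refine ⟨hyp.valid_zero, ?_⟩
        simpa [Path, Psi_zero] using hγ
    · intro x hx hle
      by_cases hlt : t + 1 ≤ D.mt x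
      · exact hI.2 x hx hlt
      have hrt : D.mt x = t := by omega
      exact merge_sound hyp hx (by omega) (by rw [hrt]; exact hI)
  have htop : Inv H γ D (M + 1) := by
    constructor
    · intro x c _ hle; have := hyp.hrk c x; omega
    · intro x _ hle; have := hyp.hmt x; omega
  intro t ht
  by_cases htM : t ≤ M + 1
  · exact Nat.decreasingInduction (motive := fun k _ => 1 ≤ k → Inv H γ D k)
      (fun k _ ih hk1 => hstep k hk1 (ih (by omega))) (fun _ => htop) htM ht
  · constructor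
    · intro x c _ hle; have := hyp.hrk c x; omega
    · intro x _ hle; have := hyp.hmt x; omega

/-- The set of live vertices. -/
noncomputable def liveSet (D : Data) (N : ℕ) : Finset ℕ :=
  ((Finset.range N).image (fun i => D.W * i)).filter (fun x => D.mt x = 0)

theorem mem_liveSet (hyp : Hyp H γ D ncolR N M) (x : ℕ) :
    x ∈ liveSet D N ↔ Valid D x ∧ D.mt x = 0 := by
  unfold liveSet
  rw [Finset.mem_filter, Finset.mem_image]
  constructor
  · rintro ⟨⟨i, hi, rfl⟩, h0⟩
    refine ⟨?_, h0⟩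
    rw [valid_iff, hyp.hWN]
    exact ⟨Nat.mul_mod_right _ _, Nat.mul_lt_mul_of_pos_left (Finset.mem_range.1 hi) hyp.hW⟩
  · rintro ⟨hv, h0⟩
    obtain ⟨i, hi, rfl⟩ := hyp.valid_mul hv
    exact ⟨⟨i, Finset.mem_range.2 hi, rfl⟩, h0⟩

theorem card_liveSet (hyp : Hyp H γ D ncolR N M) : (liveSet D N).card ≤ D.n := by
  have key : ∀ x ∈ liveSet D N, D.fin x < D.n ∧ D.vert (D.fin x) = x := by
    intro x hx
    obtain ⟨hv, h0⟩ := (mem_liveSet hyp x).1 hx
    obtain ⟨s, k, hj⟩ := (hyp.vertexOK hv).1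
    unfold chkMerge at hj
    rw [cndB_eq_true] at hj
    rcases hj with ⟨_, hj⟩ | ⟨h0', _⟩
    · rw [cndB_eq_true] at hj
      rcases hj with ⟨h1, h2⟩ | ⟨_, hj⟩
      · exact ⟨by simpa using h1, Nat.eq_of_beq_eq_true h2⟩
      · exact absurd hj (by simp)
    · rw [h0] at h0'; simp at h0'
  have := Finset.card_le_card_of_injOn (s := liveSet D N) (t := Finset.range D.n) D.fin
    (fun x hx => Finset.mem_range.2 (key x hx).1)
    (fun x hx y hy hxy => by
      have h1 := (key x hx).2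
      have h2 := (key y hy).2
      rw [← h1, ← h2, hxy])
  simpa using this

theorem live_step (hyp : Hyp H γ D ncolR N M) {x : ℕ} (hx : x ∈ liveSet D N) {c : ℕ}
    (hc : c < ncolR) : ∃ y ∈ liveSet D N, Psi γ D x * γ c * (Psi γ D y)⁻¹ ∈ H := by
  obtain ⟨hv, h0⟩ := (mem_liveSet hyp x).1 hx
  have hI := inv_all hyp 1 le_rfl
  obtain ⟨j, hj⟩ := (hyp.vertexOK hv).2 c hc
  have hlive : Nat.beq (D.mt x) 0 = true := by rw [h0]; rfl
  rw [hlive] at hj
  unfold chkSlot at hj
  rw [cndB_eq_true] at hj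
  rcases hj with ⟨_, hj⟩ | ⟨hr, hj⟩
  · exact absurd hj (by simp)
  have hr' : 1 ≤ D.rk c x := by
    rcases Nat.eq_zero_or_pos (D.rk c x) with h | h
    · rw [h] at hr; simp at hr
    · exact h
  rw [cndB_eq_true] at hj
  rcases hj with ⟨hvB, hj⟩ | ⟨_, hj⟩
  swap
  · exact absurd hj (by simp)
  rw [cndB_eq_true] at hj
  rcases hj with ⟨_, hj⟩ | ⟨_, hj⟩
  swap
  · exact absurd hj (by simp)
  have hmt : D.mt (chase D 1 D.fuel (D.val c x)) = 0 := Nat.eq_of_beq_eq_true hj
  obtain ⟨_, hP⟩ := hI.1 x c hv hr'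
  obtain ⟨hvy, hE⟩ := chase_sound H γ D hI D.fuel _ hvB
  refine ⟨_, (mem_liveSet hyp _).2 ⟨hvy, hmt⟩, ?_⟩
  have := Path.trans H γ D hP (Path.of_eqv H γ D hE)
  simpa [Path] using this

/-- The conclusion of the trace: the live vertices give a set of at most `n` coset
representatives closed under the real columns. -/
theorem trace_sound (hyp : Hyp H γ D ncolR N M) :
    (0 ∈ liveSet D N) ∧ Psi γ D 0 ∈ H ∧ (liveSet D N).card ≤ D.n ∧
      ∀ x ∈ liveSet D N, ∀ c, c < ncolR →
        ∃ y ∈ liveSet D N, Psi γ D x * γ c * (Psi γ D y)⁻¹ ∈ H :=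
  ⟨(mem_liveSet hyp 0).2 ⟨hyp.valid_zero, hyp.hlive0⟩, by rw [Psi_zero]; exact one_mem H,
    card_liveSet hyp, fun _ hx _ hc => live_step hyp hx hc⟩

end Semantics

end Cfsg.Agent.Lib.Helper29.TcTrace
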